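import Mathlib
import Cfsg.Agent.Helper12.Syl

/-!
Casolo's count of the subnormalizer of a `p`-subgroup:
`#{g | H sn ⟨H, g⟩} * #Syl_p(G) = #{Q ∈ Syl_p(G) | H ≤ Q} * #G`.
-/

set_option autoImplicit false

namespace Cfsg.Agent.Helper12

universe u

section Abstract

open Classical in
/-- A weight on a finite poset whose sum over each principal ideal is `1`. -/
theorem exists_weight {α : Type*} [PartialOrder α] (𝒟 : Finset α) :
    ∃ c : α → ℤ, ∀ E ∈ 𝒟, ∑ D ∈ 𝒟.filter (fun D => D ≤ E), c D = 1 := by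
  suffices H : ∀ n : ℕ, ∀ 𝒟 : Finset α, 𝒟.card = n →
      ∃ c : α → ℤ, ∀ E ∈ 𝒟, ∑ D ∈ 𝒟.filter (fun D => D ≤ E), c D = 1 from H _ 𝒟 rfl
  intro n
  induction n with
  | zero =>
    intro 𝒟 h
    refine ⟨fun _ => 0, ?_⟩
    intro E hE
    rw [Finset.card_eq_zero] at h
    subst h
    simp at hE
  | succ n ih =>
    intro 𝒟 h
    have hne : 𝒟.Nonempty := by
      rw [← Finset.card_pos]; omega
    obtain ⟨M, hM, hmax⟩ := 𝒟.exists_maximal hne
    obtain ⟨c', hc'⟩ := ih (𝒟.erase M) (by rw [Finset.card_erase_of_mem hM]; omega)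
    refine ⟨Function.update c' M (1 - ∑ D ∈ (𝒟.erase M).filter (fun D => D ≤ M), c' D), ?_⟩
    intro E hE
    by_cases hEM : E = M
    · subst hEM
      have h1 : 𝒟.filter (fun D => D ≤ E) = insert E ((𝒟.erase E).filter (fun D => D ≤ E)) := by
        ext D
        simp only [Finset.mem_filter, Finset.mem_insert, Finset.mem_erase]
        constructor
        · rintro ⟨hD, hDE⟩
          by_cases h : D = E
          · left; exact h
          · right; exact ⟨⟨h, hD⟩, hDE⟩
        · rintro (rfl | ⟨⟨_, hD⟩, hDE⟩)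
          · exact ⟨hE, le_refl _⟩
          · exact ⟨hD, hDE⟩
      rw [h1, Finset.sum_insert (by simp)]
      rw [Function.update_self]
      have h2 : ∑ D ∈ (𝒟.erase E).filter (fun D => D ≤ E),
          Function.update c' E (1 - ∑ D ∈ (𝒟.erase E).filter (fun D => D ≤ E), c' D) D =
          ∑ D ∈ (𝒟.erase E).filter (fun D => D ≤ E), c' D := by
        apply Finset.sum_congr rfl
        intro D hD
        rw [Function.update_of_ne]
        simp only [Finset.mem_filter, Finset.mem_erase] at hD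
        exact hD.1.1
      rw [h2]; ring
    · have hE' : E ∈ 𝒟.erase M := Finset.mem_erase.mpr ⟨hEM, hE⟩
      have h1 : 𝒟.filter (fun D => D ≤ E) = (𝒟.erase M).filter (fun D => D ≤ E) := by
        ext D
        simp only [Finset.mem_filter, Finset.mem_erase]
        constructor
        · rintro ⟨hD, hDE⟩
          refine ⟨⟨?_, hD⟩, hDE⟩
          rintro rfl
          exact hEM (le_antisymm (hmax hE hDE) hDE)
        · rintro ⟨⟨_, hD⟩, hDE⟩
          exact ⟨hD, hDE⟩
      rw [h1, ← hc' E hE']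
      apply Finset.sum_congr rfl
      intro D hD
      rw [Function.update_of_ne]
      simp only [Finset.mem_filter, Finset.mem_erase] at hD
      exact hD.1.1

open Classical in
/-- The weight of `exists_weight` sums to `1` over every ideal that is closed under joins
with one of its elements. -/
theorem weight_pointed {α : Type*} [Lattice α] [Finite α] (𝒟 : Finset α) (c : α → ℤ)
    (hc : ∀ E ∈ 𝒟, ∑ D ∈ 𝒟.filter (fun D => D ≤ E), c D = 1)
    (I : Finset α) (hI : I ⊆ 𝒟) (hdown : ∀ D ∈ I, ∀ D' ∈ 𝒟, D' ≤ D → D' ∈ I)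
    (D₀ : α) (hD₀ : D₀ ∈ I) (hjoin : ∀ D ∈ I, D ⊔ D₀ ∈ I) :
    ∑ D ∈ I, c D = 1 := by
  have key : ∀ E : α, E ∈ I → D₀ ≤ E →
      ∑ D ∈ 𝒟.filter (fun D => D ⊔ D₀ = E), c D = if E = D₀ then 1 else 0 := by
    intro E
    induction E using WellFoundedLT.induction with
    | _ E ih =>
    intro hE hD₀E
    have h1 := hc E (hI hE)
    have h2 : ∑ D ∈ 𝒟.filter (fun D => D ≤ E), c D =
        ∑ E' ∈ I.filter (fun E' => D₀ ≤ E' ∧ E' ≤ E),
          ∑ D ∈ 𝒟.filter (fun D => D ⊔ D₀ = E'), c D := by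
      rw [← Finset.sum_fiberwise_of_maps_to (s := 𝒟.filter (fun D => D ≤ E))
        (t := I.filter (fun E' => D₀ ≤ E' ∧ E' ≤ E)) (g := fun D => D ⊔ D₀)]
      · apply Finset.sum_congr rfl
        intro E' hE'
        apply Finset.sum_congr _ (fun _ _ => rfl)
        ext D
        simp only [Finset.mem_filter] at hE' ⊢
        constructor
        · rintro ⟨⟨hD, _⟩, hj⟩
          exact ⟨hD, hj⟩
        · rintro ⟨hD, hj⟩
          exact ⟨⟨hD, le_trans (hj ▸ le_sup_left) hE'.2.2⟩, hj⟩
      · intro D hD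
        simp only [Finset.mem_filter] at hD ⊢
        exact ⟨hjoin D (hdown E hE D hD.1 hD.2), le_sup_right, sup_le hD.2 hD₀E⟩
    rw [h2] at h1
    rw [← Finset.add_sum_erase _ _ (show E ∈ I.filter (fun E' => D₀ ≤ E' ∧ E' ≤ E) from
      Finset.mem_filter.mpr ⟨hE, hD₀E, le_refl _⟩)] at h1
    have h3 : ∑ E' ∈ (I.filter (fun E' => D₀ ≤ E' ∧ E' ≤ E)).erase E,
          ∑ D ∈ 𝒟.filter (fun D => D ⊔ D₀ = E'), c D =
        ∑ E' ∈ (I.filter (fun E' => D₀ ≤ E' ∧ E' ≤ E)).erase E,
          if E' = D₀ then (1 : ℤ) else 0 := by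
      apply Finset.sum_congr rfl
      intro E' hE'
      simp only [Finset.mem_erase, Finset.mem_filter] at hE'
      exact ih E' (lt_of_le_of_ne hE'.2.2.2 hE'.1) hE'.2.1 hE'.2.2.1
    rw [h3, Finset.sum_ite_eq'] at h1
    by_cases hED : E = D₀
    · subst hED
      rw [if_neg (by simp)] at h1
      rw [if_pos rfl]
      linarith
    · have h4 : D₀ ∈ (I.filter (fun E' => D₀ ≤ E' ∧ E' ≤ E)).erase E :=
        Finset.mem_erase.mpr ⟨fun h => hED h.symm,
          Finset.mem_filter.mpr ⟨hD₀, le_refl _, hD₀E⟩⟩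
      rw [if_pos h4] at h1
      rw [if_neg hED]
      linarith
  rw [← Finset.sum_fiberwise_of_maps_to (s := I) (t := I.filter (fun E' => D₀ ≤ E'))
    (g := fun D => D ⊔ D₀) (fun D hD => Finset.mem_filter.mpr ⟨hjoin D hD, le_sup_right⟩)]
  have h4 : ∀ E' ∈ I.filter (fun E' => D₀ ≤ E'),
      ∑ D ∈ I.filter (fun D => D ⊔ D₀ = E'), c D = if E' = D₀ then (1 : ℤ) else 0 := by
    intro E' hE'
    simp only [Finset.mem_filter] at hE'
    rw [← key E' hE'.1 hE'.2]
    apply Finset.sum_congr _ (fun _ _ => rfl)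
    ext D
    simp only [Finset.mem_filter]
    constructor
    · rintro ⟨hD, hj⟩
      exact ⟨hI hD, hj⟩
    · rintro ⟨hD, hj⟩
      exact ⟨hdown E' hE'.1 D hD (hj ▸ le_sup_left), hj⟩
  rw [Finset.sum_congr rfl h4, Finset.sum_ite_eq', if_pos (Finset.mem_filter.mpr ⟨hD₀, le_refl _⟩)]

open Classical in
/-- Double counting with a weight. -/
theorem weight_count {ι : Type*} [Finite ι] {β : Type*} (𝒟 : Finset β) (c : β → ℤ)
    (rel : β → ι → Prop) (good : ι → Prop)
    (h1 : ∀ q, good q → ∑ D ∈ 𝒟.filter (fun D => rel D q), c D = 1)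
    (h0 : ∀ q, ¬ good q → ∀ D ∈ 𝒟, ¬ rel D q) :
    (Nat.card {q : ι // good q} : ℤ) = ∑ D ∈ 𝒟, c D * (Nat.card {q : ι // rel D q} : ℤ) := by
  have : Fintype ι := Fintype.ofFinite ι
  have hcard : ∀ P : ι → Prop, (Nat.card {q : ι // P q} : ℤ) = ∑ q : ι, if P q then (1 : ℤ) else 0 := by
    intro P
    rw [Nat.card_eq_fintype_card, Fintype.card_subtype, Finset.sum_boole]
  rw [hcard good]
  have h2 : ∀ D ∈ 𝒟, c D * (Nat.card {q : ι // rel D q} : ℤ) =
      ∑ q : ι, if rel D q then c D else 0 := by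
    intro D _
    rw [hcard, Finset.mul_sum]
    apply Finset.sum_congr rfl
    intro q _
    split_ifs <;> simp
  rw [Finset.sum_congr rfl h2, Finset.sum_comm]
  apply Finset.sum_congr rfl
  intro q _
  by_cases hq : good q
  · rw [if_pos hq, ← h1 q hq, Finset.sum_filter]
  · rw [if_neg hq]
    symm
    apply Finset.sum_eq_zero
    intro D hD
    rw [if_neg (h0 q hq D hD)]

/-- Counting a set through the fibres of a map, all of the same size. -/
theorem ncard_eq_card_mul_of_fibers {X Y : Type*} [Finite X] [Finite Y] (T : Set X) (f : X → Y)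
    (good : Y → Prop) (k : ℕ) (hf : ∀ x ∈ T, good (f x))
    (hfib : ∀ y, good y → {x | x ∈ T ∧ f x = y}.ncard = k) :
    T.ncard = Nat.card {y // good y} * k := by
  classical
  have : Fintype X := Fintype.ofFinite X
  have : Fintype Y := Fintype.ofFinite Y
  have h1 : ∀ S : Set X, S.ncard = (Finset.univ.filter (fun x => x ∈ S)).card := by
    intro S
    rw [Set.ncard_eq_toFinset_card' S]
    congr 1
    ext x
    simp
  have h2 : Nat.card {y // good y} = (Finset.univ.filter good).card := by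
    rw [Nat.card_eq_fintype_card, Fintype.card_subtype]
  rw [h1, h2, Finset.card_eq_sum_card_fiberwise (f := f) (t := Finset.univ.filter good)
    (fun x hx => by simp at hx ⊢; exact hf x hx)]
  apply Finset.sum_const_nat
  intro y hy
  simp only [Finset.mem_filter, Finset.mem_univ, true_and] at hy
  rw [← hfib y hy, h1]
  congr 1
  ext x
  simp

end Abstract

section Group

open scoped Pointwise

variable {G : Type u} [Group G]

/-- The subnormalizer of `H` at the prime `p`: the elements normalizing some `p`-subgroup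
containing `H`. -/
def snSet (p : ℕ) (H : Subgroup G) : Set G :=
  {g | ∃ R : Subgroup G, IsPGroup p R ∧ H ≤ R ∧ g ∈ Subgroup.normalizer (R : Set G)}

theorem snSet_anti (p : ℕ) {H D : Subgroup G} (h : H ≤ D) : snSet p D ⊆ snSet p H := by
  rintro g ⟨R, hR, hDR, hg⟩
  exact ⟨R, hR, h.trans hDR, hg⟩

theorem normalizer_subset_snSet (p : ℕ) {H : Subgroup G} (hH : IsPGroup p H) :
    ((Subgroup.normalizer (H : Set G) : Subgroup G) : Set G) ⊆ snSet p H := by
  intro g hg
  exact ⟨H, hH, le_refl _, hg⟩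

theorem lt_normalizer_inf_of_lt {p : ℕ} [Fact p.Prime] [Finite G] {H R : Subgroup G}
    (hR : IsPGroup p R) (hHR : H < R) :
    H < Subgroup.normalizer (H : Set G) ⊓ R := by
  have hnil : Group.IsNilpotent R := hR.isNilpotent
  have hnc : NormalizerCondition R := Group.normalizerCondition_of_isNilpotent
  have h1 : H.subgroupOf R < ⊤ := by
    rw [lt_top_iff_ne_top]
    intro h
    rw [Subgroup.subgroupOf_eq_top] at h
    exact absurd h (not_le_of_gt hHR)
  have h2 := hnc _ h1
  obtain ⟨x, hxn, hxH⟩ := SetLike.exists_of_lt h2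
  refine lt_of_le_of_ne (le_inf Subgroup.le_normalizer hHR.le) ?_
  intro heq
  apply hxH
  rw [Subgroup.mem_subgroupOf, heq]
  refine Subgroup.mem_inf.mpr ⟨?_, x.2⟩
  rw [Subgroup.mem_normalizer_iff] at hxn ⊢
  intro h
  constructor
  · intro hh
    have := (hxn ⟨h, hHR.le hh⟩).mp (Subgroup.mem_subgroupOf.mpr hh)
    exact Subgroup.mem_subgroupOf.mp this
  · intro hh
    have hhR : h ∈ R := by
      have h3 : (x : G)⁻¹ * ((x : G) * h * (x : G)⁻¹) * (x : G) ∈ R :=
        R.mul_mem (R.mul_mem (R.inv_mem x.2) (hHR.le hh)) x.2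
      have h4 : (x : G)⁻¹ * ((x : G) * h * (x : G)⁻¹) * (x : G) = h := by group
      rwa [h4] at h3
    have := (hxn ⟨h, hhR⟩).mpr (Subgroup.mem_subgroupOf.mpr hh)
    exact Subgroup.mem_subgroupOf.mp this

/-- The smallest `p`-subgroup containing `H` and normalized by `g` (when there is one). -/
noncomputable def rMin (p : ℕ) (H : Subgroup G) (g : G) : Subgroup G :=
  sInf {R : Subgroup G | IsPGroup p R ∧ H ≤ R ∧ g ∈ Subgroup.normalizer (R : Set G)}

theorem rMin_le (p : ℕ) {H R : Subgroup G} {g : G} (hR : IsPGroup p R) (hHR : H ≤ R)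
    (hg : g ∈ Subgroup.normalizer (R : Set G)) : rMin p H g ≤ R :=
  sInf_le ⟨hR, hHR, hg⟩

theorem le_rMin (p : ℕ) (H : Subgroup G) (g : G) : H ≤ rMin p H g :=
  le_sInf (fun _ hR => hR.2.1)

theorem mem_normalizer_rMin (p : ℕ) (H : Subgroup G) (g : G) :
    g ∈ Subgroup.normalizer (rMin p H g : Set G) := by
  rw [Subgroup.mem_normalizer_iff]
  intro h
  unfold rMin
  simp only [Subgroup.mem_sInf]
  constructor
  · intro hh R hR
    exact (Subgroup.mem_normalizer_iff.mp hR.2.2 h).mp (hh R hR)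
  · intro hh R hR
    exact (Subgroup.mem_normalizer_iff.mp hR.2.2 h).mpr (hh R hR)

theorem isPGroup_rMin {p : ℕ} {H : Subgroup G} {g : G} (hg : g ∈ snSet p H) :
    IsPGroup p (rMin p H g) := by
  obtain ⟨R, hR, hHR, hgR⟩ := hg
  exact hR.to_le (rMin_le p hR hHR hgR)

theorem le_sylow_of_normal {p : ℕ} [Fact p.Prime] [Finite G] {H : Subgroup G}
    (hH : IsPGroup p H) (hn : H.Normal) (Q : Sylow p G) : H ≤ (Q : Subgroup G) := by
  obtain ⟨Q₀, hQ₀⟩ := hH.exists_le_sylow
  obtain ⟨g, rfl⟩ := MulAction.exists_smul_eq G Q₀ Q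
  intro h hh
  have h1 : h ∈ g • Q₀ := by
    rw [mem_sylow_smul_iff]
    exact hQ₀ (by
      have := hn.conj_mem h hh g⁻¹
      simpa using this)
  exact h1

theorem snSet_subgroupOf (p : ℕ) (N D : Subgroup G) (hDN : D ≤ N) :
    Subtype.val '' (snSet p (D.subgroupOf N)) = snSet p D ∩ (N : Set G) := by
  ext g
  constructor
  · rintro ⟨g', ⟨R', hR', hDR', hg'⟩, rfl⟩
    refine ⟨⟨R'.map N.subtype, hR'.map _, ?_, ?_⟩, g'.2⟩
    · intro d hd
      exact ⟨⟨d, hDN hd⟩, hDR' (Subgroup.mem_subgroupOf.mpr hd), rfl⟩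
    · rw [Subgroup.mem_normalizer_iff] at hg' ⊢
      intro h
      constructor
      · rintro ⟨h', hh', rfl⟩
        exact ⟨g' * h' * g'⁻¹, (hg' h').mp hh', rfl⟩
      · rintro ⟨k', hk', hk⟩
        have hk2 : (k' : G) = (g' : G) * h * (g' : G)⁻¹ := hk
        have hhN : h ∈ N := by
          have h3 : h = (g' : G)⁻¹ * (k' : G) * (g' : G) := by rw [hk2]; group
          rw [h3]
          exact N.mul_mem (N.mul_mem (N.inv_mem g'.2) k'.2) g'.2
        refine ⟨⟨h, hhN⟩, (hg' ⟨h, hhN⟩).mpr ?_, rfl⟩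
        have h5 : g' * ⟨h, hhN⟩ * g'⁻¹ = k' := Subtype.ext hk2.symm
        rw [h5]
        exact hk'
  · rintro ⟨⟨R, hR, hDR, hg⟩, hgN⟩
    refine ⟨⟨g, hgN⟩, ⟨R.subgroupOf N, hR.comap_subtype, ?_, ?_⟩, rfl⟩
    · intro d hd
      exact Subgroup.mem_subgroupOf.mpr (hDR (Subgroup.mem_subgroupOf.mp hd))
    · rw [Subgroup.mem_normalizer_iff] at hg ⊢
      intro h
      simp only [Subgroup.mem_subgroupOf]
      exact hg h

theorem ncard_snSet_inter (p : ℕ) (N D : Subgroup G) (hDN : D ≤ N) :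
    (snSet p D ∩ (N : Set G)).ncard = (snSet p (D.subgroupOf N)).ncard := by
  rw [← snSet_subgroupOf p N D hDN]
  exact Set.ncard_image_of_injective _ Subtype.val_injective

theorem subgroupOf_le_sylow_iff {p : ℕ} (N D : Subgroup G) (hDN : D ≤ N) (Q' : Sylow p N) :
    D.subgroupOf N ≤ (Q' : Subgroup N) ↔ D ≤ (Q' : Subgroup N).map N.subtype := by
  constructor
  · intro h d hd
    exact ⟨⟨d, hDN hd⟩, h (Subgroup.mem_subgroupOf.mpr hd), rfl⟩
  · intro h d hd
    obtain ⟨q, hq, hqd⟩ := h (Subgroup.mem_subgroupOf.mp hd)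
    have : q = d := Subtype.ext hqd
    rw [← this]
    exact hq

end Group

section Main

variable (p : ℕ) [Fact p.Prime]

open Classical in
theorem casolo_aux : ∀ (n : ℕ) (G : Type u) [Group G] [Finite G], Nat.card G = n →
    ∀ H : Subgroup G, (snSet p H).ncard * Nat.card (Sylow p G) =
      Nat.card {Q : Sylow p G // H ≤ (Q : Subgroup G)} * Nat.card G := by
  intro n
  induction n using Nat.strong_induction_on with
  | _ n ihn =>
  intro G _ _ hn H
  induction H using WellFoundedGT.induction with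
  | _ H ihH =>
  by_cases hHp : IsPGroup p H
  swap
  · have h1 : snSet p H = ∅ := by
      ext g
      simp only [Set.mem_empty_iff_false, iff_false]
      rintro ⟨R, hR, hHR, -⟩
      exact hHp (hR.to_le hHR)
    have h2 : IsEmpty {Q : Sylow p G // H ≤ (Q : Subgroup G)} :=
      ⟨fun Q => hHp (Q.1.2.to_le Q.2)⟩
    have h3 : Nat.card {Q : Sylow p G // H ≤ (Q : Subgroup G)} = 0 := Nat.card_of_isEmpty
    rw [h1, Set.ncard_empty, h3, zero_mul, zero_mul]
  by_cases hHn : H.Normal
  · have h1 : snSet p H = Set.univ := by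
      ext g
      simp only [Set.mem_univ, iff_true]
      refine ⟨H, hHp, le_refl _, ?_⟩
      rw [Subgroup.normalizer_eq_top_iff.mpr hHn]
      exact Subgroup.mem_top g
    have h2 : Nat.card {Q : Sylow p G // H ≤ (Q : Subgroup G)} = Nat.card (Sylow p G) :=
      Nat.card_congr (Equiv.subtypeUnivEquiv (fun Q => le_sylow_of_normal hHp hHn Q))
    rw [h1, Set.ncard_univ, h2, mul_comm]
  by_cases hmax : ∀ R : Subgroup G, IsPGroup p R → H ≤ R → R = H
  · let P : Sylow p G := ⟨H, hHp, fun {R} hR hHR => hmax R hR hHR⟩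
    have h1 : snSet p H = ((Subgroup.normalizer (H : Set G) : Subgroup G) : Set G) := by
      apply Set.Subset.antisymm
      · rintro g ⟨R, hR, hHR, hg⟩
        rw [hmax R hR hHR] at hg
        exact hg
      · exact normalizer_subset_snSet p hHp
    have h2 : Nat.card {Q : Sylow p G // H ≤ (Q : Subgroup G)} = 1 := by
      rw [Nat.card_eq_one_iff_unique]
      refine ⟨⟨?_⟩, ⟨⟨P, le_refl _⟩⟩⟩
      rintro ⟨Q₁, h₁⟩ ⟨Q₂, h₂⟩
      have e1 := hmax Q₁ Q₁.2 h₁
      have e2 := hmax Q₂ Q₂.2 h₂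
      apply Subtype.ext
      apply Sylow.ext
      show (Q₁ : Subgroup G) = Q₂
      rw [e1, e2]
    have h3 : Nat.card (Sylow p G) = (Subgroup.normalizer (H : Set G)).index :=
      Sylow.card_eq_index_normalizer P
    have h4 := Subgroup.index_mul_card (Subgroup.normalizer (H : Set G))
    have h5 : ((Subgroup.normalizer (H : Set G) : Subgroup G) : Set G).ncard =
        Nat.card (Subgroup.normalizer (H : Set G)) := (Nat.card_coe_set_eq _).symm
    rw [h1, h2, one_mul, h3, h5, mul_comm, h4]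
  -- main case
  push Not at hmax
  obtain ⟨R₁, hR₁, hHR₁, hne₁⟩ := hmax
  have hHR₁' : H < R₁ := lt_of_le_of_ne hHR₁ (Ne.symm hne₁)
  obtain ⟨N, hN⟩ : ∃ N : Subgroup G, N = Subgroup.normalizer (H : Set G) := ⟨_, rfl⟩
  have hNtop : N ≠ ⊤ := by
    rw [hN]
    exact fun h => hHn (Subgroup.normalizer_eq_top_iff.mp h)
  have hNcard : Nat.card N < n := by
    rw [← hn]
    by_contra hcon
    exact hNtop (Subgroup.eq_top_of_le_card N (not_lt.mp hcon))
  have hHN : H ≤ N := by
    rw [hN]
    exact Subgroup.le_normalizer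
  have : Fintype (Subgroup G) := Fintype.ofFinite _
  obtain ⟨𝒟, h𝒟⟩ : ∃ 𝒟 : Finset (Subgroup G),
      ∀ D, D ∈ 𝒟 ↔ (IsPGroup p D ∧ H < D ∧ D ≤ N) :=
    ⟨Finset.univ.filter (fun D => IsPGroup p D ∧ H < D ∧ D ≤ N), fun D => by simp⟩
  obtain ⟨c, hc⟩ := exists_weight 𝒟
  have hprin : ∀ Q : Subgroup G, IsPGroup p Q → H < Q →
      ∑ D ∈ 𝒟.filter (fun D => D ≤ Q), c D = 1 := by
    intro Q hQ hHQ
    have hE : N ⊓ Q ∈ 𝒟 := by
      rw [h𝒟]
      refine ⟨hQ.to_le inf_le_right, ?_, inf_le_left⟩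
      rw [hN]
      exact lt_normalizer_inf_of_lt hQ hHQ
    rw [← hc _ hE]
    apply Finset.sum_congr _ (fun _ _ => rfl)
    ext D
    simp only [Finset.mem_filter]
    constructor
    · rintro ⟨hD, hDQ⟩
      exact ⟨hD, le_inf ((h𝒟 D).mp hD).2.2 hDQ⟩
    · rintro ⟨hD, hDQ⟩
      exact ⟨hD, hDQ.trans inf_le_right⟩
  -- Sylow subgroups containing `H`
  have hA : (Nat.card {Q : Sylow p G // H ≤ (Q : Subgroup G)} : ℤ) =
      ∑ D ∈ 𝒟, c D * (Nat.card {Q : Sylow p G // D ≤ (Q : Subgroup G)} : ℤ) := by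
    apply weight_count 𝒟 c (fun D (Q : Sylow p G) => D ≤ (Q : Subgroup G))
      (fun Q => H ≤ (Q : Subgroup G))
    · intro Q hHQ
      apply hprin Q Q.2
      refine lt_of_le_of_ne hHQ ?_
      intro heq
      have h6 : R₁ = (Q : Subgroup G) := Q.is_maximal' hR₁ (by rw [← heq]; exact hHR₁)
      exact hne₁ (h6.trans heq.symm)
    · intro Q hHQ D hD hDQ
      exact hHQ (((h𝒟 D).mp hD).2.1.le.trans hDQ)
  obtain ⟨relP, hrelP⟩ : ∃ relP : Subgroup G → G → Prop,
      ∀ D g, relP D g ↔ g ∈ snSet p D \ (N : Set G) :=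
    ⟨fun D g => g ∈ snSet p D \ (N : Set G), fun _ _ => Iff.rfl⟩
  have hnc : ∀ D : Subgroup G, (Nat.card {g : G // relP D g} : ℤ) =
      ((snSet p D \ (N : Set G)).ncard : ℤ) := fun D => by
    have h1 := Nat.card_congr (Equiv.subtypeEquivRight (hrelP D))
    have h2 := Nat.card_coe_set_eq (snSet p D \ (N : Set G))
    rw [← h2]
    exact_mod_cast h1
  -- elements outside `N`
  have hB1 : ((snSet p H \ (N : Set G)).ncard : ℤ) =
      ∑ D ∈ 𝒟, c D * ((snSet p D \ (N : Set G)).ncard : ℤ) := by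
    have hw := weight_count 𝒟 c relP (fun g => relP H g) ?_ ?_
    · simp only [hnc] at hw
      exact hw
    · intro g hg
      obtain ⟨hgS, hgN⟩ := (hrelP H g).mp hg
      have hRp := isPGroup_rMin hgS
      have hlt : H < rMin p H g := by
        refine lt_of_le_of_ne (le_rMin p H g) ?_
        intro heq
        apply hgN
        have h6 := mem_normalizer_rMin p H g
        rw [← heq] at h6
        rw [hN]
        exact h6
      refine weight_pointed 𝒟 c hc _ (Finset.filter_subset _ _) ?_ (N ⊓ rMin p H g) ?_ ?_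
      · intro D hD D' hD' hle
        rw [Finset.mem_filter] at hD ⊢
        have h7 := (hrelP D g).mp hD.2
        exact ⟨hD', (hrelP D' g).mpr ⟨snSet_anti p hle h7.1, h7.2⟩⟩
      · rw [Finset.mem_filter, h𝒟, hrelP]
        refine ⟨⟨hRp.to_le inf_le_right, ?_, inf_le_left⟩,
          ⟨rMin p H g, hRp, inf_le_right, mem_normalizer_rMin p H g⟩, hgN⟩
        rw [hN]
        exact lt_normalizer_inf_of_lt hRp hlt
      · intro D hD
        rw [Finset.mem_filter] at hD ⊢
        obtain ⟨hD𝒟, hDrel⟩ := hD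
        obtain ⟨⟨R, hR, hDR, hgR⟩, _⟩ := (hrelP D g).mp hDrel
        have hD' := (h𝒟 D).mp hD𝒟
        have hle : D ⊔ (N ⊓ rMin p H g) ≤ R :=
          sup_le hDR (inf_le_right.trans (rMin_le p hR (hD'.2.1.le.trans hDR) hgR))
        exact ⟨(h𝒟 _).mpr ⟨hR.to_le hle, lt_of_lt_of_le hD'.2.1 le_sup_left,
          sup_le hD'.2.2 inf_le_left⟩, (hrelP _ g).mpr ⟨⟨R, hR, hle, hgR⟩, hgN⟩⟩
    · intro g hg D hD hgD
      have h7 := (hrelP D g).mp hgD
      exact hg ((hrelP H g).mpr ⟨snSet_anti p ((h𝒟 D).mp hD).2.1.le h7.1, h7.2⟩)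
  -- elements of `N`
  have hB2 : ∑ D ∈ 𝒟, c D * ((snSet p D ∩ (N : Set G)).ncard : ℤ) = (Nat.card N : ℤ) := by
    have ihN := ihn (Nat.card N) hNcard N rfl
    have hSylN : (Nat.card {Q' : Sylow p N // True} : ℤ) = ∑ D ∈ 𝒟,
        c D * (Nat.card {Q' : Sylow p N // D.subgroupOf N ≤ (Q' : Subgroup N)} : ℤ) := by
      apply weight_count 𝒟 c (fun D (Q' : Sylow p N) => D.subgroupOf N ≤ (Q' : Subgroup N))
        (fun _ => True)
      · intro Q' _
        have hEp : IsPGroup p ((Q' : Subgroup N).map N.subtype) := Q'.2.map _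
        have hHE : H ≤ (Q' : Subgroup N).map N.subtype := by
          rw [← subgroupOf_le_sylow_iff N H hHN Q']
          have hnorm : (H.subgroupOf N).Normal := by
            rw [hN]
            exact Subgroup.normal_in_normalizer
          exact le_sylow_of_normal hHp.comap_subtype hnorm Q'
        have hHE' : H < (Q' : Subgroup N).map N.subtype := by
          refine lt_of_le_of_ne hHE ?_
          intro heq
          have hD₁ : H < N ⊓ R₁ := by
            rw [hN]
            exact lt_normalizer_inf_of_lt hR₁ hHR₁'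
          have h6 : (N ⊓ R₁).subgroupOf N = (Q' : Subgroup N) := by
            apply Q'.is_maximal' ((hR₁.to_le inf_le_right).comap_subtype)
            intro q hq
            show (q : G) ∈ N ⊓ R₁
            apply hD₁.le
            rw [heq]
            exact ⟨q, hq, rfl⟩
          have h7 : N ⊓ R₁ ≤ (Q' : Subgroup N).map N.subtype :=
            (subgroupOf_le_sylow_iff N (N ⊓ R₁) inf_le_left Q').mp h6.le
          rw [← heq] at h7
          exact absurd h7 (not_le_of_gt hD₁)
        rw [← hprin _ hEp hHE']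
        apply Finset.sum_congr _ (fun _ _ => rfl)
        ext D
        simp only [Finset.mem_filter]
        constructor
        · rintro ⟨hD, hDQ⟩
          exact ⟨hD, (subgroupOf_le_sylow_iff N D ((h𝒟 D).mp hD).2.2 Q').mp hDQ⟩
        · rintro ⟨hD, hDQ⟩
          exact ⟨hD, (subgroupOf_le_sylow_iff N D ((h𝒟 D).mp hD).2.2 Q').mpr hDQ⟩
      · intro Q' hQ'
        exact absurd trivial hQ'
    have hSylN' : (Nat.card {Q' : Sylow p N // True} : ℤ) = (Nat.card (Sylow p N) : ℤ) := by
      have := Nat.card_congr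
        (Equiv.subtypeUnivEquiv (p := fun _ : Sylow p N => True) (fun _ => trivial))
      exact_mod_cast this
    have hpos : (0 : ℤ) < (Nat.card (Sylow p N) : ℤ) := by
      exact_mod_cast Nat.card_pos
    have h7 : (∑ D ∈ 𝒟, c D * ((snSet p D ∩ (N : Set G)).ncard : ℤ)) *
        (Nat.card (Sylow p N) : ℤ) = (Nat.card N : ℤ) * (Nat.card (Sylow p N) : ℤ) := by
      rw [Finset.sum_mul]
      have h8 : ∀ D ∈ 𝒟, c D * ((snSet p D ∩ (N : Set G)).ncard : ℤ) *
          (Nat.card (Sylow p N) : ℤ) =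
          c D * (Nat.card {Q' : Sylow p N // D.subgroupOf N ≤ (Q' : Subgroup N)} : ℤ) *
            (Nat.card N : ℤ) := by
        intro D hD
        have h9 := ihN (D.subgroupOf N)
        rw [ncard_snSet_inter p N D ((h𝒟 D).mp hD).2.2]
        have h10 : ((snSet p (D.subgroupOf N)).ncard : ℤ) * (Nat.card (Sylow p N) : ℤ) =
            (Nat.card {Q' : Sylow p N // D.subgroupOf N ≤ (Q' : Subgroup N)} : ℤ) *
              (Nat.card N : ℤ) := by
          exact_mod_cast h9
        rw [mul_assoc, h10, mul_assoc]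
      rw [Finset.sum_congr rfl h8, ← Finset.sum_mul, ← hSylN, hSylN', mul_comm]
    exact mul_right_cancel₀ (ne_of_gt hpos) h7
  -- assemble
  have hB3 : snSet p H ∩ (N : Set G) = (N : Set G) := by
    apply Set.inter_eq_right.mpr
    rw [hN]
    exact normalizer_subset_snSet p hHp
  have hsplit : ∀ D : Subgroup G, ((snSet p D).ncard : ℤ) =
      ((snSet p D ∩ (N : Set G)).ncard : ℤ) + ((snSet p D \ (N : Set G)).ncard : ℤ) := by
    intro D
    have := Set.ncard_inter_add_ncard_sdiff_eq_ncard (snSet p D) (N : Set G) (Set.toFinite _)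
    exact_mod_cast this.symm
  have hB : ((snSet p H).ncard : ℤ) = ∑ D ∈ 𝒟, c D * ((snSet p D).ncard : ℤ) := by
    rw [hsplit H, hB3, hB1]
    have h6 : ((N : Set G).ncard : ℤ) = (Nat.card N : ℤ) := by
      have := Nat.card_coe_set_eq (N : Set G)
      exact_mod_cast this.symm
    rw [h6, ← hB2, ← Finset.sum_add_distrib]
    apply Finset.sum_congr rfl
    intro D _
    rw [hsplit D]
    ring
  have hfin : ((snSet p H).ncard : ℤ) * (Nat.card (Sylow p G) : ℤ) =
      (Nat.card {Q : Sylow p G // H ≤ (Q : Subgroup G)} : ℤ) * (Nat.card G : ℤ) := by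
    rw [hB, hA, Finset.sum_mul, Finset.sum_mul]
    apply Finset.sum_congr rfl
    intro D hD
    have h11 := ihH D ((h𝒟 D).mp hD).2.1
    have h12 : ((snSet p D).ncard : ℤ) * (Nat.card (Sylow p G) : ℤ) =
        (Nat.card {Q : Sylow p G // D ≤ (Q : Subgroup G)} : ℤ) * (Nat.card G : ℤ) := by
      exact_mod_cast h11
    rw [mul_assoc, h12, mul_assoc]
  exact_mod_cast hfin

end Main

section Conj

open scoped Pointwise

variable {G : Type u} [Group G]

theorem map_conj_eq_iff_mem_normalizer (H : Subgroup G) (n : G) :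
    H.map (MulAut.conj n).toMonoidHom = H ↔ n ∈ Subgroup.normalizer (H : Set G) := by
  rw [Subgroup.mem_normalizer_iff]
  constructor
  · intro h x
    constructor
    · intro hx
      rw [← h]
      exact ⟨x, hx, rfl⟩
    · intro hx
      rw [← h] at hx
      obtain ⟨y, hy, hyx⟩ := hx
      have h2 : n * y * n⁻¹ = n * x * n⁻¹ := hyx
      have h3 : y = x := by
        have h4 := congrArg (fun z => n⁻¹ * z * n) h2
        simpa [mul_assoc] using h4
      rw [← h3]
      exact hy
  · intro h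
    apply le_antisymm
    · rintro _ ⟨y, hy, rfl⟩
      exact (h y).mp hy
    · intro x hx
      refine ⟨n⁻¹ * x * n, ?_, ?_⟩
      · apply (h _).mpr
        have h2 : n * (n⁻¹ * x * n) * n⁻¹ = x := by group
        rw [h2]
        exact hx
      · show n * (n⁻¹ * x * n) * n⁻¹ = x
        group

theorem map_conj_mul (H : Subgroup G) (a b : G) :
    H.map (MulAut.conj (a * b)).toMonoidHom =
      (H.map (MulAut.conj b).toMonoidHom).map (MulAut.conj a).toMonoidHom := by
  rw [Subgroup.map_map]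
  congr 1
  ext x
  simp [MulAut.conj_apply, mul_assoc]

theorem map_conj_one (H : Subgroup G) : H.map (MulAut.conj (1 : G)).toMonoidHom = H := by
  ext x
  constructor
  · rintro ⟨y, hy, rfl⟩
    simpa using hy
  · intro hx
    exact ⟨x, hx, by simp⟩

theorem sylow_conj_count {p : ℕ} [Fact p.Prime] [Finite G] (H : Subgroup G) (P : Sylow p G) :
    Nat.card {Q : Sylow p G // H ≤ (Q : Subgroup G)} *
        Nat.card (Subgroup.normalizer ((P : Subgroup G) : Set G)) =
    Nat.card {K : Subgroup G // K ≤ (P : Subgroup G) ∧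
        ∃ g : G, K = H.map (MulAut.conj g).toMonoidHom} *
        Nat.card (Subgroup.normalizer (H : Set G)) := by
  have hTiff : ∀ x : G, H.map (MulAut.conj x).toMonoidHom ≤ (P : Subgroup G) ↔
      H ≤ ((x⁻¹ • P : Sylow p G) : Subgroup G) := by
    intro x
    constructor
    · intro hx h hh
      have h2 : x * h * x⁻¹ ∈ (P : Subgroup G) := hx ⟨h, hh, rfl⟩
      refine (mem_sylow_smul_iff P x⁻¹ h).mpr ?_
      rw [inv_inv]
      exact h2
    · rintro hx _ ⟨h, hh, rfl⟩
      have h2 := (mem_sylow_smul_iff P x⁻¹ h).mp (hx hh)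
      rw [inv_inv] at h2
      exact h2
  have hcoe : ∀ K : Subgroup G, ((K : Set G)).ncard = Nat.card K := fun K =>
    (Nat.card_coe_set_eq (K : Set G)).symm
  have hT1 := ncard_eq_card_mul_of_fibers
    {x : G | H.map (MulAut.conj x).toMonoidHom ≤ (P : Subgroup G)}
    (fun x => x⁻¹ • P) (fun Q : Sylow p G => H ≤ (Q : Subgroup G))
    (Nat.card (Subgroup.normalizer ((P : Subgroup G) : Set G)))
    (fun x hx => (hTiff x).mp hx) (by
      intro Q hQ
      obtain ⟨y, rfl⟩ := MulAction.exists_smul_eq G P Q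
      have hset : {x : G | x ∈ {x : G | H.map (MulAut.conj x).toMonoidHom ≤ (P : Subgroup G)} ∧
          x⁻¹ • P = y • P} =
          (fun n => n * y⁻¹) '' ((Subgroup.normalizer ((P : Subgroup G) : Set G) : Subgroup G) : Set G) := by
        ext x
        constructor
        · rintro ⟨_, hx⟩
          refine ⟨x * y, ?_, by group⟩
          apply Sylow.smul_eq_iff_mem_normalizer.mp
          rw [mul_smul, ← hx, smul_inv_smul]
        · rintro ⟨n, hn, rfl⟩
          have h2 : (n * y⁻¹)⁻¹ • P = y • P := by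
            rw [mul_inv_rev, inv_inv, mul_smul,
              Sylow.smul_eq_iff_mem_normalizer.mpr (inv_mem hn)]
          refine ⟨?_, h2⟩
          show H.map (MulAut.conj (n * y⁻¹)).toMonoidHom ≤ (P : Subgroup G)
          rw [hTiff, h2]
          exact hQ
      rw [hset, Set.ncard_image_of_injective _ (mul_left_injective y⁻¹), hcoe])
  have hT2 := ncard_eq_card_mul_of_fibers
    {x : G | H.map (MulAut.conj x).toMonoidHom ≤ (P : Subgroup G)}
    (fun x => H.map (MulAut.conj x).toMonoidHom)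
    (fun K : Subgroup G => K ≤ (P : Subgroup G) ∧
        ∃ g : G, K = H.map (MulAut.conj g).toMonoidHom)
    (Nat.card (Subgroup.normalizer (H : Set G)))
    (fun x hx => ⟨hx, x, rfl⟩) (by
      rintro K ⟨hKP, x₀, rfl⟩
      have hset : {x : G | x ∈ {x : G | H.map (MulAut.conj x).toMonoidHom ≤ (P : Subgroup G)} ∧
          H.map (MulAut.conj x).toMonoidHom = H.map (MulAut.conj x₀).toMonoidHom} =
          (fun n => x₀ * n) '' ((Subgroup.normalizer (H : Set G) : Subgroup G) : Set G) := by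
        ext x
        constructor
        · rintro ⟨_, hx⟩
          refine ⟨x₀⁻¹ * x, ?_, by group⟩
          apply (map_conj_eq_iff_mem_normalizer H _).mp
          rw [map_conj_mul, hx, ← map_conj_mul, inv_mul_cancel, map_conj_one]
        · rintro ⟨n, hn, rfl⟩
          have h2 : H.map (MulAut.conj (x₀ * n)).toMonoidHom =
              H.map (MulAut.conj x₀).toMonoidHom := by
            rw [map_conj_mul, (map_conj_eq_iff_mem_normalizer H n).mpr hn]
          refine ⟨?_, h2⟩
          show H.map (MulAut.conj (x₀ * n)).toMonoidHom ≤ (P : Subgroup G)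
          rw [h2]
          exact hKP
      rw [hset, Set.ncard_image_of_injective _ (mul_right_injective x₀), hcoe])
  rw [← hT1, ← hT2]

/-- Casolo's formula. -/
theorem casolo {p : ℕ} [Fact p.Prime] [Finite G] (H : Subgroup G) (P : Sylow p G) :
    (snSet p H).ncard = Nat.card {Q : Sylow p G // H ≤ (Q : Subgroup G)} *
      Nat.card (Subgroup.normalizer ((P : Subgroup G) : Set G)) := by
  have hmain := casolo_aux p _ G rfl H
  have h3 : Nat.card (Sylow p G) = (Subgroup.normalizer ((P : Subgroup G) : Set G)).index :=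
    Sylow.card_eq_index_normalizer P
  have h4 := Subgroup.index_mul_card (Subgroup.normalizer ((P : Subgroup G) : Set G))
  rw [h3, ← h4] at hmain
  have hidx : 0 < (Subgroup.normalizer ((P : Subgroup G) : Set G)).index :=
    Nat.pos_of_ne_zero Subgroup.index_ne_zero_of_finite
  apply Nat.eq_of_mul_eq_mul_right hidx
  rw [hmain]
  ring

end Conj

end Cfsg.Agent.Helper12
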