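import Mathlib
import Cfsg.Agent.Helper12.Syl
import Cfsg.Agent.Helper12.Casolo

/-!
The subnormalizer of a `p`-subgroup and quotients by normal `p`-subgroups and normal
`p'`-subgroups.
-/

set_option autoImplicit false

namespace Cfsg.Agent.Helper12

universe u

section Coprime

variable {G : Type u} [Group G] [Finite G] {p : ℕ} [Fact p.Prime]

theorem inf_eq_bot_of_pgroup_coprime {R A : Subgroup G} (hR : IsPGroup p R)
    (hcop : (Nat.card A).Coprime p) : R ⊓ A = ⊥ := by
  obtain ⟨n, hn⟩ := IsPGroup.iff_card.mp hR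
  apply (Subgroup.disjoint_of_coprime_natCard _).eq_bot
  rw [hn]
  exact Nat.Coprime.pow_left n hcop.symm

theorem le_of_le_sup_coprime {R R₁ A : Subgroup G} [A.Normal] (hcop : (Nat.card A).Coprime p)
    (hR₁ : IsPGroup p R₁) (hRR₁ : R ≤ R₁) (h : R₁ ≤ R ⊔ A) : R₁ ≤ R := by
  intro x hx
  have h1 : x ∈ ((R ⊔ A : Subgroup G) : Set G) := h hx
  rw [Subgroup.mul_normal] at h1
  obtain ⟨r, hr, a, ha, hra⟩ := h1
  have hra' : r * a = x := hra
  subst hra'
  have h2 : a ∈ R₁ ⊓ A := by
    refine Subgroup.mem_inf.mpr ⟨?_, ha⟩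
    have h3 : r⁻¹ * (r * a) ∈ R₁ := R₁.mul_mem (R₁.inv_mem (hRR₁ hr)) hx
    simpa using h3
  rw [inf_eq_bot_of_pgroup_coprime hR₁ hcop, Subgroup.mem_bot] at h2
  rw [h2, mul_one]
  exact hr

theorem commute_of_conj_mem {R A : Subgroup G} [hA : A.Normal] (hcop : (Nat.card A).Coprime p)
    (hR : IsPGroup p R) {a r : G} (ha : a ∈ A) (hr : r ∈ R) (har : a * r * a⁻¹ ∈ R) :
    a * r = r * a := by
  have h1 : a * r * a⁻¹ * r⁻¹ ∈ R ⊓ A := by
    refine Subgroup.mem_inf.mpr ⟨R.mul_mem har (R.inv_mem hr), ?_⟩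
    have h2 : a * (r * a⁻¹ * r⁻¹) ∈ A := A.mul_mem ha (hA.conj_mem _ (A.inv_mem ha) r)
    have h3 : a * (r * a⁻¹ * r⁻¹) = a * r * a⁻¹ * r⁻¹ := by group
    rwa [h3] at h2
  rw [inf_eq_bot_of_pgroup_coprime hR hcop, Subgroup.mem_bot] at h1
  have h4 : a * r = (a * r * a⁻¹ * r⁻¹) * (r * a) := by group
  rw [h4, h1, one_mul]

omit [Finite G] in
theorem conj_mem_normalizer {R R' : Subgroup G} {a x : G}
    (ha : ∀ r, r ∈ R' ↔ a * r * a⁻¹ ∈ R) (hx : x ∈ Subgroup.normalizer (R' : Set G)) :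
    a * x * a⁻¹ ∈ Subgroup.normalizer (R : Set G) := by
  rw [Subgroup.mem_normalizer_iff] at hx ⊢
  intro r
  have h1 : r ∈ R ↔ a⁻¹ * r * a ∈ R' := by
    rw [ha]
    have h2 : a * (a⁻¹ * r * a) * a⁻¹ = r := by group
    rw [h2]
  have h3 : a * x * a⁻¹ * r * (a * x * a⁻¹)⁻¹ = a * (x * (a⁻¹ * r * a) * x⁻¹) * a⁻¹ := by group
  rw [h3, ← ha, ← hx, h1]

omit [Finite G] in
theorem mem_normalizer_inf {R₁ R₂ : Subgroup G} {x : G}
    (h1 : x ∈ Subgroup.normalizer (R₁ : Set G)) (h2 : x ∈ Subgroup.normalizer (R₂ : Set G)) :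
    x ∈ Subgroup.normalizer ((R₁ ⊓ R₂ : Subgroup G) : Set G) := by
  rw [Subgroup.mem_normalizer_iff] at h1 h2 ⊢
  intro r
  rw [Subgroup.mem_inf, Subgroup.mem_inf, h1 r, h2 r]

/-- Two `p`-subgroups complementing the normal `p'`-subgroup `A` in `L` are conjugate under
`A`. -/
theorem exists_conj_eq_of_complements {A L R₁ R₂ : Subgroup G} [A.Normal]
    (hcop : (Nat.card A).Coprime p) (hAL : A ≤ L) (hR₁ : IsPGroup p R₁) (hR₂ : IsPGroup p R₂)
    (h₁L : R₁ ≤ L) (h₂L : R₂ ≤ L) (hL₁ : L ≤ R₁ ⊔ A) (hL₂ : L ≤ R₂ ⊔ A) :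
    ∃ a ∈ A, ∀ r, r ∈ R₁ ↔ a * r * a⁻¹ ∈ R₂ := by
  obtain ⟨Q₂, hQ₂⟩ := exists_sylow_map_ge hR₂ h₂L
  have hS₂p : IsPGroup p ((Q₂ : Subgroup L).map L.subtype) := Q₂.2.map _
  have hS₂L : (Q₂ : Subgroup L).map L.subtype ≤ L := Subgroup.map_subtype_le _
  have hS₂ : (Q₂ : Subgroup L).map L.subtype ≤ R₂ :=
    le_of_le_sup_coprime hcop hS₂p hQ₂ (hS₂L.trans hL₂)
  obtain ⟨c, hcL, hc⟩ := exists_conj_mem_map_sylow Q₂ hR₁ h₁L
  have h1 : c ∈ ((A ⊔ R₁ : Subgroup G) : Set G) := by
    rw [sup_comm]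
    exact hL₁ hcL
  rw [Subgroup.normal_mul] at h1
  obtain ⟨a, ha, r₁, hr₁, har⟩ := h1
  have har' : a * r₁ = c := har
  subst har'
  have hfwd : ∀ r, r ∈ R₁ → a * r * a⁻¹ ∈ R₂ := by
    intro r hr
    have h2 := hc (r₁⁻¹ * r * r₁) (R₁.mul_mem (R₁.mul_mem (R₁.inv_mem hr₁) hr) hr₁)
    have h3 : a * r₁ * (r₁⁻¹ * r * r₁) * (a * r₁)⁻¹ = a * r * a⁻¹ := by group
    rw [h3] at h2
    exact hS₂ h2
  refine ⟨a, ha, fun r => ⟨hfwd r, ?_⟩⟩
  intro hr
  have hR₁' : IsPGroup p (R₂.comap (MulAut.conj a).toMonoidHom) :=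
    hR₂.comap_of_injective _ (MulAut.conj a).injective
  have h4 : R₁ ≤ R₂.comap (MulAut.conj a).toMonoidHom := fun r hr => hfwd r hr
  have h5 : R₂.comap (MulAut.conj a).toMonoidHom ≤ R₁ ⊔ A := by
    intro r hr
    apply hL₁
    have h6 : a * r * a⁻¹ ∈ L := h₂L hr
    have h7 : a⁻¹ * (a * r * a⁻¹) * a ∈ L :=
      L.mul_mem (L.mul_mem (L.inv_mem (hAL ha)) h6) (hAL ha)
    have h8 : a⁻¹ * (a * r * a⁻¹) * a = r := by group
    rwa [h8] at h7
  exact le_of_le_sup_coprime hcop hR₁' h4 h5 hr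

/-- A `p`-subgroup of `L` lies in a `p`-subgroup complementing `A` in `L`, when `L/A` is a
`p`-group. -/
theorem exists_complement_ge {A L H : Subgroup G} [A.Normal] (hcop : (Nat.card A).Coprime p)
    (hAL : A ≤ L) (hH : IsPGroup p H) (hHL : H ≤ L) (hLp : ∃ k, A.relIndex L = p ^ k) :
    ∃ R₀ : Subgroup G, IsPGroup p R₀ ∧ H ≤ R₀ ∧ R₀ ≤ L ∧ L ≤ R₀ ⊔ A := by
  obtain ⟨Q', hQ'⟩ := exists_sylow_map_ge hH hHL
  obtain ⟨k, hk⟩ := hLp
  have hp : p.Prime := Fact.out
  have hcardL : Nat.card L = Nat.card A * p ^ k := by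
    have h1 := Subgroup.relIndex_mul_relIndex ⊥ A L bot_le hAL
    rw [Subgroup.relIndex_bot_left, Subgroup.relIndex_bot_left, hk] at h1
    exact h1.symm
  have hAne : Nat.card A ≠ 0 := Nat.card_pos.ne'
  have hnd : ¬ p ∣ Nat.card A := by
    intro hd
    have h2 := Nat.Coprime.eq_one_of_dvd hcop.symm hd
    exact hp.one_lt.ne' h2
  have hfac : (Nat.card L).factorization p = k := by
    rw [hcardL, Nat.factorization_mul hAne (pow_ne_zero k hp.ne_zero), Finsupp.add_apply,
      Nat.factorization_eq_zero_of_not_dvd hnd, hp.factorization_pow]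
    simp
  have hcardR : Nat.card ((Q' : Subgroup L).map L.subtype) = p ^ k := by
    rw [Subgroup.card_map_of_injective L.subtype_injective, Sylow.card_eq_multiplicity, hfac]
  refine ⟨(Q' : Subgroup L).map L.subtype, Q'.2.map _, hQ', Subgroup.map_subtype_le _, ?_⟩
  have hle : (Q' : Subgroup L).map L.subtype ⊔ A ≤ L := sup_le (Subgroup.map_subtype_le _) hAL
  have hdvd : Nat.card A * p ^ k ∣ Nat.card ((Q' : Subgroup L).map L.subtype ⊔ A : Subgroup G) := by
    apply Nat.Coprime.mul_dvd_of_dvd_of_dvd (Nat.Coprime.pow_right k hcop)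
    · exact Subgroup.card_dvd_of_le le_sup_right
    · rw [← hcardR]
      exact Subgroup.card_dvd_of_le le_sup_left
  have hge : Nat.card L ≤ Nat.card ((Q' : Subgroup L).map L.subtype ⊔ A : Subgroup G) := by
    rw [hcardL]
    exact Nat.le_of_dvd Nat.card_pos hdvd
  exact (Subgroup.eq_of_le_of_card_ge hle hge).ge

end Coprime

section Quot

variable {G : Type u} [Group G] [Finite G] {p : ℕ} [Fact p.Prime]

omit [Finite G] in
theorem ncard_fiber_mk' (A : Subgroup G) [A.Normal] (y : G ⧸ A) :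
    {x : G | QuotientGroup.mk' A x = y}.ncard = Nat.card A := by
  obtain ⟨g, rfl⟩ := QuotientGroup.mk'_surjective A y
  have hset : {x : G | QuotientGroup.mk' A x = QuotientGroup.mk' A g} =
      (fun a => g * a) '' (A : Set G) := by
    ext x
    constructor
    · intro hx
      refine ⟨g⁻¹ * x, ?_, by group⟩
      have h1 : (QuotientGroup.mk g : G ⧸ A) = QuotientGroup.mk x := hx.symm
      exact QuotientGroup.eq.mp h1
    · rintro ⟨a, ha, rfl⟩
      show QuotientGroup.mk' A (g * a) = QuotientGroup.mk' A g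
      rw [map_mul]
      have h2 : QuotientGroup.mk' A a = 1 := (QuotientGroup.eq_one_iff a).mpr ha
      rw [h2, mul_one]
  rw [hset, Set.ncard_image_of_injective _ (mul_right_injective g)]
  exact (Nat.card_coe_set_eq (A : Set G)).symm

omit [Finite G] [Fact p.Prime] in
theorem mk'_mem_snSet (A : Subgroup G) [A.Normal] (H : Subgroup G) {x : G}
    (hx : x ∈ snSet p H) :
    QuotientGroup.mk' A x ∈ snSet p (H.map (QuotientGroup.mk' A)) := by
  obtain ⟨R, hR, hHR, hxR⟩ := hx
  exact ⟨R.map (QuotientGroup.mk' A), hR.map _, Subgroup.map_mono hHR,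
    Subgroup.le_normalizer_map _ ⟨x, hxR, rfl⟩⟩

omit [Fact p.Prime] in
/-- Quotient by a normal `p`-subgroup. -/
theorem ncard_snSet_quot_pgroup (A : Subgroup G) [A.Normal] (hA : IsPGroup p A)
    (H : Subgroup G) :
    (snSet p H).ncard = Nat.card A * (snSet p (H.map (QuotientGroup.mk' A))).ncard := by
  have h := ncard_eq_card_mul_of_fibers (snSet p H) (QuotientGroup.mk' A)
    (fun y => y ∈ snSet p (H.map (QuotientGroup.mk' A))) (Nat.card A)
    (fun x hx => mk'_mem_snSet A H hx) (by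
      intro y hy
      rw [← ncard_fiber_mk' A y]
      congr 1
      ext x
      simp only [Set.mem_ofPred_eq]
      constructor
      · exact fun h => h.2
      · intro hxy
        refine ⟨?_, hxy⟩
        obtain ⟨R, hR, hHR, hyR⟩ := hy
        refine ⟨R.comap (QuotientGroup.mk' A), ?_, ?_, ?_⟩
        · apply hR.comap_of_ker_isPGroup
          rw [QuotientGroup.ker_mk']
          exact hA
        · exact Subgroup.map_le_iff_le_comap.mp hHR
        · apply Subgroup.le_normalizer_comap (QuotientGroup.mk' A)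
          rw [Subgroup.mem_comap, hxy]
          exact hyR)
  rw [h, mul_comm]
  congr 1

theorem fiber_count_coprime (A : Subgroup G) [hAn : A.Normal] (hcop : (Nat.card A).Coprime p)
    (H : Subgroup G) (hH : IsPGroup p H) (y : G ⧸ A)
    (hy : y ∈ snSet p (H.map (QuotientGroup.mk' A))) :
    {x : G | x ∈ snSet p H ∧ QuotientGroup.mk' A x = y}.ncard =
      Nat.card (A ⊓ Subgroup.centralizer (H : Set G) : Subgroup G) := by
  obtain ⟨π, hπ⟩ : ∃ π : G →* G ⧸ A, π = QuotientGroup.mk' A := ⟨_, rfl⟩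
  rw [← hπ] at hy ⊢
  have hker : π.ker = A := by
    rw [hπ]
    exact QuotientGroup.ker_mk' A
  have hsurj : Function.Surjective π := by
    rw [hπ]
    exact QuotientGroup.mk'_surjective A
  have hRbar : IsPGroup p (rMin p (H.map π) y) := isPGroup_rMin hy
  obtain ⟨L, hL⟩ : ∃ L : Subgroup G, L = (rMin p (H.map π) y).comap π := ⟨_, rfl⟩
  have hAL : A ≤ L := by
    rw [hL]
    exact hker.symm.le.trans (Subgroup.ker_le_comap _ _)
  have hHL : H ≤ L := by
    rw [hL, ← Subgroup.map_le_iff_le_comap]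
    exact le_rMin p _ _
  have hLnorm : ∀ x : G, π x = y → x ∈ Subgroup.normalizer (L : Set G) := by
    intro x hx
    rw [hL]
    apply Subgroup.le_normalizer_comap π
    rw [Subgroup.mem_comap, hx]
    exact mem_normalizer_rMin p _ _
  have hmin : ∀ x : G, π x = y → ∀ R : Subgroup G, IsPGroup p R → H ≤ R →
      x ∈ Subgroup.normalizer (R : Set G) → L ≤ R ⊔ A := by
    intro x hx R hR hHR hxR
    have h1 : rMin p (H.map π) y ≤ R.map π := by
      apply rMin_le p (hR.map π) (Subgroup.map_mono hHR)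
      rw [← hx]
      exact Subgroup.le_normalizer_map π ⟨x, hxR, rfl⟩
    rw [hL]
    calc (rMin p (H.map π) y).comap π ≤ (R.map π).comap π := Subgroup.comap_mono h1
      _ = R ⊔ π.ker := Subgroup.comap_map_eq π R
      _ = R ⊔ A := by rw [hker]
  have hLp : ∃ k, A.relIndex L = p ^ k := by
    obtain ⟨k, hk⟩ := IsPGroup.iff_card.mp hRbar
    refine ⟨k, ?_⟩
    rw [← hk, hL]
    have h1 := Subgroup.relIndex_comap (⊥ : Subgroup (G ⧸ A)) π ((rMin p (H.map π) y).comap π)
    rw [MonoidHom.comap_bot, hker, Subgroup.map_comap_eq_self_of_surjective hsurj,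
      Subgroup.relIndex_bot_left] at h1
    exact h1
  obtain ⟨R₀, hR₀p, hHR₀, hR₀L, hLR₀⟩ := exists_complement_ge hcop hAL hH hHL hLp
  obtain ⟨CH, hCH⟩ : ∃ CH : Subgroup G, CH = A ⊓ Subgroup.centralizer (H : Set G) := ⟨_, rfl⟩
  obtain ⟨C₀, hC₀⟩ : ∃ C₀ : Subgroup G, C₀ = A ⊓ Subgroup.centralizer (R₀ : Set G) := ⟨_, rfl⟩
  have hC₀CH : C₀ ≤ CH := by
    rw [hC₀, hCH]
    exact inf_le_inf_left A (Subgroup.centralizer_le (SetLike.coe_subset_coe.mpr hHR₀))
  have hC₀N : ∀ z ∈ C₀, z ∈ Subgroup.normalizer (R₀ : Set G) := by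
    intro z hz
    rw [hC₀] at hz
    exact Subgroup.centralizer_le_normalizer _ hz.2
  have hC₀A : ∀ z ∈ C₀, z ∈ A := by
    intro z hz
    rw [hC₀] at hz
    exact hz.1
  have hCHA : ∀ c ∈ CH, c ∈ A := by
    intro c hc
    rw [hCH] at hc
    exact hc.1
  have hCHcomm : ∀ c ∈ CH, ∀ h ∈ H, c * h * c⁻¹ = h := by
    intro c hc h hh
    rw [hCH] at hc
    have h1 := Subgroup.mem_centralizer_iff.mp hc.2 h hh
    rw [← h1]
    group
  have hπA : ∀ a ∈ A, π a = 1 := by
    intro a ha
    rw [hπ]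
    exact (QuotientGroup.eq_one_iff a).mpr ha
  have hAπ : ∀ a : G, π a = 1 → a ∈ A := by
    intro a ha
    rw [hπ] at ha
    exact (QuotientGroup.eq_one_iff a).mp ha
  have hmemC₀ : ∀ z ∈ A, (∀ r ∈ R₀, z * r * z⁻¹ ∈ R₀) → z ∈ C₀ := by
    intro z hzA hzN
    rw [hC₀]
    refine Subgroup.mem_inf.mpr ⟨hzA, ?_⟩
    rw [Subgroup.mem_centralizer_iff]
    intro r hr
    exact (commute_of_conj_mem hcop hR₀p hzA hr (hzN r hr)).symm
  obtain ⟨W, hW⟩ : ∃ W : Set (G × G), ∀ w, w ∈ W ↔ ((w.1 ∈ snSet p H ∧ π w.1 = y) ∧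
      w.2 ∈ CH ∧ w.2 * w.1 * w.2⁻¹ ∈ Subgroup.normalizer (R₀ : Set G)) :=
    ⟨{w | (w.1 ∈ snSet p H ∧ π w.1 = y) ∧
      w.2 ∈ CH ∧ w.2 * w.1 * w.2⁻¹ ∈ Subgroup.normalizer (R₀ : Set G)}, fun w => Iff.rfl⟩
  have hfib1 : ∀ x', (x' ∈ snSet p H ∧ π x' = y) →
      {w : G × G | w ∈ W ∧ w.1 = x'}.ncard = Nat.card C₀ := by
    rintro x' ⟨hx'S, hx'π⟩
    obtain ⟨R'', hR''p, hHR'', hx'R''⟩ := hx'S
    have hR'p : IsPGroup p (R'' ⊓ L : Subgroup G) := hR''p.to_le inf_le_left
    have hHR' : H ≤ R'' ⊓ L := le_inf hHR'' hHL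
    have hx'R' : x' ∈ Subgroup.normalizer ((R'' ⊓ L : Subgroup G) : Set G) :=
      mem_normalizer_inf hx'R'' (hLnorm x' hx'π)
    have hLR' : L ≤ (R'' ⊓ L) ⊔ A := hmin x' hx'π _ hR'p hHR' hx'R'
    obtain ⟨a, haA, ha⟩ :=
      exists_conj_eq_of_complements hcop hAL hR'p hR₀p inf_le_right hR₀L hLR' hLR₀
    have haCH : a ∈ CH := by
      rw [hCH]
      refine Subgroup.mem_inf.mpr ⟨haA, ?_⟩
      rw [Subgroup.mem_centralizer_iff]
      intro h hh
      exact (commute_of_conj_mem hcop hR₀p haA (hHR₀ hh) ((ha h).mp (hHR' hh))).symm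
    have hax' : a * x' * a⁻¹ ∈ Subgroup.normalizer (R₀ : Set G) := conj_mem_normalizer ha hx'R'
    have hset : {w : G × G | w ∈ W ∧ w.1 = x'} = (fun z => (x', z * a)) '' (C₀ : Set G) := by
      ext ⟨x, c⟩
      constructor
      · rintro ⟨hw, hx⟩
        have hx2 : x = x' := hx
        subst hx2
        obtain ⟨_, hcCH, hcN⟩ := (hW _).mp hw
        have hcN' : c * x * c⁻¹ ∈ Subgroup.normalizer (R₀ : Set G) := hcN
        refine ⟨c * a⁻¹, ?_, ?_⟩
        · apply hmemC₀ _ (A.mul_mem (hCHA c hcCH) (A.inv_mem haA))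
          have hR₁p : IsPGroup p (R₀.comap (MulAut.conj c).toMonoidHom) :=
            hR₀p.comap_of_injective _ (MulAut.conj c).injective
          have hHR₁ : H ≤ R₀.comap (MulAut.conj c).toMonoidHom := by
            intro h hh
            show c * h * c⁻¹ ∈ R₀
            rw [hCHcomm c hcCH h hh]
            exact hHR₀ hh
          have hxR₁ : x ∈ Subgroup.normalizer
              ((R₀.comap (MulAut.conj c).toMonoidHom : Subgroup G) : Set G) := by
            have h1 := conj_mem_normalizer (R := R₀.comap (MulAut.conj c).toMonoidHom)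
              (R' := R₀) (a := c⁻¹) (x := c * x * c⁻¹) (by
                intro r
                show r ∈ R₀ ↔ c * (c⁻¹ * r * c⁻¹⁻¹) * c⁻¹ ∈ R₀
                have h3 : c * (c⁻¹ * r * c⁻¹⁻¹) * c⁻¹ = r := by group
                rw [h3]) hcN'
            have h2 : c⁻¹ * (c * x * c⁻¹) * c⁻¹⁻¹ = x := by group
            rwa [h2] at h1
          have hR₃p : IsPGroup p
              (R₀.comap (MulAut.conj c).toMonoidHom ⊓ (R'' ⊓ L) : Subgroup G) :=
            hR₁p.to_le inf_le_left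
          have hLR₃ : L ≤ (R₀.comap (MulAut.conj c).toMonoidHom ⊓ (R'' ⊓ L)) ⊔ A :=
            hmin x hx'π _ hR₃p (le_inf hHR₁ hHR') (mem_normalizer_inf hxR₁ hx'R')
          have h9 : R'' ⊓ L ≤ R₀.comap (MulAut.conj c).toMonoidHom ⊓ (R'' ⊓ L) :=
            le_of_le_sup_coprime hcop hR'p inf_le_right (inf_le_right.trans hLR₃)
          intro r hr
          have h11 : a⁻¹ * r * a ∈ R'' ⊓ L := by
            rw [ha]
            have h12 : a * (a⁻¹ * r * a) * a⁻¹ = r := by group
            rw [h12]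
            exact hr
          have h13 : c * (a⁻¹ * r * a) * c⁻¹ ∈ R₀ := (Subgroup.mem_inf.mp (h9 h11)).1
          have h14 : c * a⁻¹ * r * (c * a⁻¹)⁻¹ = c * (a⁻¹ * r * a) * c⁻¹ := by group
          rw [h14]
          exact h13
        · show (x, c * a⁻¹ * a) = (x, c)
          rw [inv_mul_cancel_right]
      · rintro ⟨z, hz, heq⟩
        obtain ⟨h1, h2⟩ := Prod.mk.inj heq
        subst h1
        subst h2
        refine ⟨(hW _).mpr ⟨⟨⟨R'', hR''p, hHR'', hx'R''⟩, hx'π⟩,
          CH.mul_mem (hC₀CH hz) haCH, ?_⟩, rfl⟩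
        show z * a * x' * (z * a)⁻¹ ∈ Subgroup.normalizer (R₀ : Set G)
        have h3 : z * a * x' * (z * a)⁻¹ = z * (a * x' * a⁻¹) * z⁻¹ := by group
        rw [h3]
        exact Subgroup.mul_mem _ (Subgroup.mul_mem _ (hC₀N z hz) hax')
          (Subgroup.inv_mem _ (hC₀N z hz))
    rw [hset, Set.ncard_image_of_injective _
      (fun z₁ z₂ h => mul_right_cancel (Prod.mk.inj h).2)]
    exact (Nat.card_coe_set_eq (C₀ : Set G)).symm
  have hfib2 : ∀ c, c ∈ CH → {w : G × G | w ∈ W ∧ w.2 = c}.ncard = Nat.card C₀ := by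
    intro c hc
    obtain ⟨g, hg⟩ := hsurj y
    have hgL := hLnorm g hg
    have hLmap : L.map (MulAut.conj g).toMonoidHom = L :=
      (map_conj_eq_iff_mem_normalizer L g).mpr hgL
    have hAmap : A.map (MulAut.conj g).toMonoidHom = A :=
      (map_conj_eq_iff_mem_normalizer A g).mpr (by
        rw [Subgroup.normalizer_eq_top_iff.mpr hAn]
        exact Subgroup.mem_top g)
    have hR₂p : IsPGroup p (R₀.map (MulAut.conj g).toMonoidHom) := hR₀p.map _
    have hR₂L : R₀.map (MulAut.conj g).toMonoidHom ≤ L := by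
      rw [← hLmap]
      exact Subgroup.map_mono hR₀L
    have hLR₂ : L ≤ R₀.map (MulAut.conj g).toMonoidHom ⊔ A := by
      calc L = L.map (MulAut.conj g).toMonoidHom := hLmap.symm
        _ ≤ (R₀ ⊔ A).map (MulAut.conj g).toMonoidHom := Subgroup.map_mono hLR₀
        _ = R₀.map (MulAut.conj g).toMonoidHom ⊔ A := by rw [Subgroup.map_sup, hAmap]
    obtain ⟨a, haA, ha⟩ :=
      exists_conj_eq_of_complements hcop hAL hR₂p hR₀p hR₂L hR₀L hLR₂ hLR₀
    have hg₁π : π (a * g) = y := by
      rw [map_mul, hπA a haA, one_mul, hg]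
    have hg₁N : a * g ∈ Subgroup.normalizer (R₀ : Set G) := by
      rw [Subgroup.mem_normalizer_iff]
      intro r
      have h1 : a * g * r * (a * g)⁻¹ = a * (g * r * g⁻¹) * a⁻¹ := by group
      rw [h1, ← ha]
      constructor
      · intro hr
        exact ⟨r, hr, rfl⟩
      · rintro ⟨r₀, hr₀, hr₀r⟩
        have h2 : g * r₀ * g⁻¹ = g * r * g⁻¹ := hr₀r
        have h3 : r₀ = r := by
          have h4 := congrArg (fun z => g⁻¹ * z * g) h2
          simpa [mul_assoc] using h4
        rw [← h3]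
        exact hr₀
    have hcA := hCHA c hc
    have hset : {w : G × G | w ∈ W ∧ w.2 = c} =
        (fun z => (c⁻¹ * (a * g * z) * c, c)) '' (C₀ : Set G) := by
      ext ⟨x, c'⟩
      constructor
      · rintro ⟨hw, hc'⟩
        have hc2 : c' = c := hc'
        subst hc2
        obtain ⟨⟨_, hxπ⟩, _, hxN⟩ := (hW _).mp hw
        have hxπ' : π x = y := hxπ
        have hxN' : c' * x * c'⁻¹ ∈ Subgroup.normalizer (R₀ : Set G) := hxN
        refine ⟨(a * g)⁻¹ * (c' * x * c'⁻¹), ?_, ?_⟩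
        · apply hmemC₀
          · apply hAπ
            rw [map_mul, map_inv, hg₁π, map_mul, map_mul, map_inv, hπA c' hcA, hxπ']
            group
          · intro r hr
            have hN : (a * g)⁻¹ * (c' * x * c'⁻¹) ∈ Subgroup.normalizer (R₀ : Set G) :=
              Subgroup.mul_mem _ (Subgroup.inv_mem _ hg₁N) hxN'
            exact (Subgroup.mem_normalizer_iff.mp hN r).mp hr
        · show (c'⁻¹ * (a * g * ((a * g)⁻¹ * (c' * x * c'⁻¹))) * c', c') = (x, c')
          congr 1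
          group
      · rintro ⟨z, hz, heq⟩
        obtain ⟨h1, h2⟩ := Prod.mk.inj heq
        subst h2
        subst h1
        have hxN : a * g * z ∈ Subgroup.normalizer (R₀ : Set G) :=
          Subgroup.mul_mem _ hg₁N (hC₀N z hz)
        refine ⟨(hW _).mpr ⟨⟨?_, ?_⟩, hc, ?_⟩, rfl⟩
        · refine ⟨R₀.comap (MulAut.conj c).toMonoidHom,
            hR₀p.comap_of_injective _ (MulAut.conj c).injective, ?_, ?_⟩
          · intro h hh
            show c * h * c⁻¹ ∈ R₀
            rw [hCHcomm c hc h hh]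
            exact hHR₀ hh
          · have h3 := conj_mem_normalizer (R := R₀.comap (MulAut.conj c).toMonoidHom)
              (R' := R₀) (a := c⁻¹) (x := a * g * z) (by
                intro r
                show r ∈ R₀ ↔ c * (c⁻¹ * r * c⁻¹⁻¹) * c⁻¹ ∈ R₀
                have h4 : c * (c⁻¹ * r * c⁻¹⁻¹) * c⁻¹ = r := by group
                rw [h4]) hxN
            rw [inv_inv] at h3
            exact h3
        · show π (c⁻¹ * (a * g * z) * c) = y
          rw [map_mul, map_mul, map_inv, hπA c hcA, map_mul, hg₁π, hπA z (hC₀A z hz)]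
          group
        · show c * (c⁻¹ * (a * g * z) * c) * c⁻¹ ∈ Subgroup.normalizer (R₀ : Set G)
          have h5 : c * (c⁻¹ * (a * g * z) * c) * c⁻¹ = a * g * z := by group
          rw [h5]
          exact hxN
    rw [hset, Set.ncard_image_of_injective _ (fun z₁ z₂ h => by
      have h1 := (Prod.mk.inj h).1
      simpa using h1)]
    exact (Nat.card_coe_set_eq (C₀ : Set G)).symm
  have hW1 := ncard_eq_card_mul_of_fibers W Prod.fst (fun x => x ∈ snSet p H ∧ π x = y)
    (Nat.card C₀) (fun w hw => ((hW w).mp hw).1) hfib1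
  have hW2 := ncard_eq_card_mul_of_fibers W Prod.snd (fun c => c ∈ CH)
    (Nat.card C₀) (fun w hw => ((hW w).mp hw).2.1) hfib2
  have hpos : 0 < Nat.card C₀ := Nat.card_pos
  have h1 : Nat.card {x : G // x ∈ snSet p H ∧ π x = y} = Nat.card {c : G // c ∈ CH} :=
    Nat.eq_of_mul_eq_mul_right hpos (hW1.symm.trans hW2)
  rw [← hCH, ← Nat.card_coe_set_eq]
  exact h1

/-- Quotient by a normal `p'`-subgroup. -/
theorem ncard_snSet_quot_coprime (A : Subgroup G) [A.Normal] (hcop : (Nat.card A).Coprime p)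
    (H : Subgroup G) (hH : IsPGroup p H) :
    (snSet p H).ncard = Nat.card (A ⊓ Subgroup.centralizer (H : Set G) : Subgroup G) *
      (snSet p (H.map (QuotientGroup.mk' A))).ncard := by
  have h := ncard_eq_card_mul_of_fibers (snSet p H) (QuotientGroup.mk' A)
    (fun y => y ∈ snSet p (H.map (QuotientGroup.mk' A))) _
    (fun x hx => mk'_mem_snSet A H hx)
    (fun y hy => fiber_count_coprime A hcop H hH y hy)
  rw [h, mul_comm]
  congr 1

end Quot

section Chain

variable {G : Type u} [Group G] [Finite G]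

omit [Finite G] in
theorem relIndex_map_mk' (A K L : Subgroup G) [A.Normal] (hAK : A ≤ K) :
    (K.map (QuotientGroup.mk' A)).relIndex (L.map (QuotientGroup.mk' A)) = K.relIndex L := by
  have h := Subgroup.relIndex_comap (K.map (QuotientGroup.mk' A)) (QuotientGroup.mk' A) L
  rw [Subgroup.comap_map_eq, QuotientGroup.ker_mk', sup_eq_left.mpr hAK] at h
  exact h.symm

omit [Finite G] in
theorem mem_map_mk'_iff (A K : Subgroup G) [A.Normal] (hAK : A ≤ K) (u : G) :
    QuotientGroup.mk' A u ∈ K.map (QuotientGroup.mk' A) ↔ u ∈ K := by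
  rw [← Subgroup.mem_comap, Subgroup.comap_map_eq, QuotientGroup.ker_mk', sup_eq_left.mpr hAK]

omit [Finite G] in
theorem card_map_mk' (A K : Subgroup G) [A.Normal] (hAK : A ≤ K) :
    Nat.card K = Nat.card A * Nat.card (K.map (QuotientGroup.mk' A)) := by
  have h1 := Subgroup.relIndex_mul_relIndex ⊥ A K bot_le hAK
  rw [Subgroup.relIndex_bot_left, Subgroup.relIndex_bot_left] at h1
  have h2 := Subgroup.relIndex_comap (⊥ : Subgroup (G ⧸ A)) (QuotientGroup.mk' A) K
  rw [MonoidHom.comap_bot, QuotientGroup.ker_mk', Subgroup.relIndex_bot_left] at h2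
  rw [← h1, h2]

theorem card_comm_count (A K L H : Subgroup G) [A.Normal] (hAK : A ≤ K) (hAL : A ≤ L) :
    Nat.card {u : G // u ∈ L ∧ ∀ h ∈ H, h * u * h⁻¹ * u⁻¹ ∈ K} =
      Nat.card A * Nat.card {v : G ⧸ A // v ∈ L.map (QuotientGroup.mk' A) ∧
        ∀ h ∈ H.map (QuotientGroup.mk' A), h * v * h⁻¹ * v⁻¹ ∈ K.map (QuotientGroup.mk' A)} := by
  have h := ncard_eq_card_mul_of_fibers {u : G | u ∈ L ∧ ∀ h ∈ H, h * u * h⁻¹ * u⁻¹ ∈ K}
    (QuotientGroup.mk' A) (fun v => v ∈ L.map (QuotientGroup.mk' A) ∧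
        ∀ h ∈ H.map (QuotientGroup.mk' A), h * v * h⁻¹ * v⁻¹ ∈ K.map (QuotientGroup.mk' A))
    (Nat.card A) (by
      intro u hu
      refine ⟨Subgroup.mem_map_of_mem _ hu.1, ?_⟩
      rintro _ ⟨h, hh, rfl⟩
      rw [← map_inv, ← map_inv, ← map_mul, ← map_mul, ← map_mul]
      exact Subgroup.mem_map_of_mem _ (hu.2 h hh)) (by
      intro y hy
      rw [← ncard_fiber_mk' A y]
      congr 1
      ext u
      constructor
      · exact fun h => h.2
      · intro hu
        have hu' : QuotientGroup.mk' A u = y := hu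
        refine ⟨⟨?_, ?_⟩, hu⟩
        · apply (mem_map_mk'_iff A L hAL u).mp
          rw [hu']
          exact hy.1
        · intro h hh
          apply (mem_map_mk'_iff A K hAK _).mp
          have h3 := hy.2 (QuotientGroup.mk' A h) (Subgroup.mem_map_of_mem _ hh)
          rw [← hu'] at h3
          rw [map_mul, map_mul, map_mul, map_inv, map_inv]
          exact h3)
  have h2 : Nat.card {u : G // u ∈ L ∧ ∀ h ∈ H, h * u * h⁻¹ * u⁻¹ ∈ K} =
      {u : G | u ∈ L ∧ ∀ h ∈ H, h * u * h⁻¹ * u⁻¹ ∈ K}.ncard := Nat.card_coe_set_eq _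
  rw [h2, h, mul_comm]

theorem gheri_aux (p : ℕ) [Fact p.Prime] : ∀ (n : ℕ) (G : Type u) [Group G] [Finite G]
    (H : Subgroup G), IsPGroup p H → ∀ (M : Fin (n + 1) → Subgroup G), M 0 = ⊥ →
    M (Fin.last n) = ⊤ → Monotone M → (∀ i, (M i).Normal) →
    (∀ i : Fin n, (∃ m : ℕ, (M i.castSucc).relIndex (M i.succ) = p ^ m) ∨
      ((M i.castSucc).relIndex (M i.succ)).Coprime p) →
    (snSet p H).ncard = p ^ (Nat.card G).factorization p *
        ∏ i : Fin n, (if ((M i.castSucc).relIndex (M i.succ)).Coprime p then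
          Nat.card {u : G // u ∈ M i.succ ∧ ∀ h ∈ H, h * u * h⁻¹ * u⁻¹ ∈ M i.castSucc} /
            Nat.card (M i.castSucc)
          else 1) := by
  intro n
  induction n with
  | zero =>
    intro G _ _ H hH M h0 hn hmono hnormal hfac
    have htop : (⊤ : Subgroup G) = ⊥ := by
      rw [← hn, ← h0]
      rfl
    have hcard : Nat.card G = 1 := by
      rw [← Subgroup.card_top (G := G), htop, Subgroup.card_bot]
    have h1 : snSet p H = Set.univ := by
      ext g
      simp only [Set.mem_univ, iff_true]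
      refine ⟨⊥, IsPGroup.of_bot, ?_, ?_⟩
      · rw [← htop]
        exact le_top
      · rw [Subgroup.normalizer_eq_top_iff.mpr Subgroup.normal_bot]
        exact Subgroup.mem_top g
    rw [h1, Set.ncard_univ, hcard]
    simp
  | succ n ih =>
    intro G _ _ H hH M h0 hn hmono hnormal hfac
    have hp : p.Prime := Fact.out
    obtain ⟨A, hA⟩ : ∃ A : Subgroup G, A = M (Fin.succ 0) := ⟨_, rfl⟩
    have hAn : A.Normal := by
      rw [hA]
      exact hnormal _
    have hAle : ∀ i : Fin (n + 1), A ≤ M i.succ := fun i => by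
      rw [hA]
      exact hmono (Fin.succ_le_succ_iff.mpr (Fin.zero_le i))
    have hrel : ∀ i : Fin n, ((M i.castSucc.succ).map (QuotientGroup.mk' A)).relIndex
        ((M i.succ.succ).map (QuotientGroup.mk' A)) =
        (M i.succ.castSucc).relIndex (M i.succ.succ) := by
      intro i
      rw [relIndex_map_mk' A _ _ (hAle i.castSucc), Fin.succ_castSucc]
    have ihq := ih (G ⧸ A) (H.map (QuotientGroup.mk' A)) (hH.map _)
      (fun i => (M i.succ).map (QuotientGroup.mk' A))
      (by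
        show (M (Fin.succ 0)).map (QuotientGroup.mk' A) = ⊥
        rw [← hA]
        exact QuotientGroup.map_mk'_self A)
      (by
        show (M (Fin.last n).succ).map (QuotientGroup.mk' A) = ⊤
        rw [Fin.succ_last, hn]
        exact Subgroup.map_top_of_surjective _ (QuotientGroup.mk'_surjective A))
      (fun i j hij => Subgroup.map_mono (hmono (Fin.succ_le_succ_iff.mpr hij)))
      (fun i => (hnormal i.succ).map _ (QuotientGroup.mk'_surjective A))
      (by
        intro i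
        show (∃ m : ℕ, ((M i.castSucc.succ).map (QuotientGroup.mk' A)).relIndex
          ((M i.succ.succ).map (QuotientGroup.mk' A)) = p ^ m) ∨
          (((M i.castSucc.succ).map (QuotientGroup.mk' A)).relIndex
          ((M i.succ.succ).map (QuotientGroup.mk' A))).Coprime p
        rw [hrel i]
        exact hfac i.succ)
    have hterm : ∀ i : Fin n,
        (if (((M i.castSucc.succ).map (QuotientGroup.mk' A)).relIndex
            ((M i.succ.succ).map (QuotientGroup.mk' A))).Coprime p then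
          Nat.card {u : G ⧸ A // u ∈ (M i.succ.succ).map (QuotientGroup.mk' A) ∧
            ∀ h ∈ H.map (QuotientGroup.mk' A),
              h * u * h⁻¹ * u⁻¹ ∈ (M i.castSucc.succ).map (QuotientGroup.mk' A)} /
            Nat.card ((M i.castSucc.succ).map (QuotientGroup.mk' A))
          else 1) =
        (if ((M i.succ.castSucc).relIndex (M i.succ.succ)).Coprime p then
          Nat.card {u : G // u ∈ M i.succ.succ ∧
            ∀ h ∈ H, h * u * h⁻¹ * u⁻¹ ∈ M i.succ.castSucc} /
            Nat.card (M i.succ.castSucc)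
          else 1) := by
      intro i
      rw [hrel i]
      split_ifs with hc
      · rw [← Fin.succ_castSucc,
          card_comm_count A (M i.castSucc.succ) (M i.succ.succ) H (hAle i.castSucc) (hAle i.succ),
          card_map_mk' A (M i.castSucc.succ) (hAle i.castSucc),
          Nat.mul_div_mul_left _ _ Nat.card_pos]
      · rfl
    have ihq' : (snSet p (H.map (QuotientGroup.mk' A))).ncard =
        p ^ (Nat.card (G ⧸ A)).factorization p *
        ∏ i : Fin n, (if ((M i.succ.castSucc).relIndex (M i.succ.succ)).Coprime p then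
          Nat.card {u : G // u ∈ M i.succ.succ ∧
            ∀ h ∈ H, h * u * h⁻¹ * u⁻¹ ∈ M i.succ.castSucc} /
            Nat.card (M i.succ.castSucc)
          else 1) := by
      rw [ihq]
      congr 1
      exact Finset.prod_congr rfl (fun i _ => hterm i)
    have hcardG : Nat.card G = Nat.card (G ⧸ A) * Nat.card A :=
      Subgroup.card_eq_card_quotient_mul_card_subgroup A
    have hQne : Nat.card (G ⧸ A) ≠ 0 := Nat.card_pos.ne'
    have hAne : Nat.card A ≠ 0 := Nat.card_pos.ne'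
    have hM0 : M (Fin.castSucc 0) = ⊥ := by
      rw [Fin.castSucc_zero]
      exact h0
    rw [Fin.prod_univ_succ]
    by_cases hc : ((M (Fin.castSucc 0)).relIndex (M (Fin.succ 0))).Coprime p
    · rw [if_pos hc]
      have hcopA : (Nat.card A).Coprime p := by
        rw [hM0, Subgroup.relIndex_bot_left, ← hA] at hc
        exact hc
      have hnd : ¬ p ∣ Nat.card A := by
        intro hd
        have h2 := Nat.Coprime.eq_one_of_dvd hcopA.symm hd
        exact hp.one_lt.ne' h2
      have hfacG : (Nat.card G).factorization p = (Nat.card (G ⧸ A)).factorization p := by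
        rw [hcardG, Nat.factorization_mul hQne hAne, Finsupp.add_apply,
          Nat.factorization_eq_zero_of_not_dvd hnd, add_zero]
      have hcent : Nat.card {u : G // u ∈ M (Fin.succ 0) ∧
          ∀ h ∈ H, h * u * h⁻¹ * u⁻¹ ∈ M (Fin.castSucc 0)} / Nat.card (M (Fin.castSucc 0)) =
          Nat.card (A ⊓ Subgroup.centralizer (H : Set G) : Subgroup G) := by
        rw [hM0, Subgroup.card_bot, Nat.div_one, ← hA]
        apply Nat.card_congr
        apply Equiv.subtypeEquivRight
        intro u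
        rw [Subgroup.mem_inf, Subgroup.mem_centralizer_iff]
        constructor
        · rintro ⟨hu, hcomm⟩
          refine ⟨hu, fun h hh => ?_⟩
          have h3 := hcomm h hh
          rw [Subgroup.mem_bot, mul_inv_eq_one, mul_inv_eq_iff_eq_mul] at h3
          exact h3
        · rintro ⟨hu, hcomm⟩
          refine ⟨hu, fun h hh => ?_⟩
          rw [Subgroup.mem_bot, mul_inv_eq_one, mul_inv_eq_iff_eq_mul]
          exact hcomm h hh
      rw [ncard_snSet_quot_coprime A hcopA H hH, ihq', hcent, hfacG]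
      ring
    · rw [if_neg hc]
      obtain ⟨m, hm⟩ := (hfac 0).resolve_right hc
      have hAcard : Nat.card A = p ^ m := by
        rw [hM0, Subgroup.relIndex_bot_left, ← hA] at hm
        exact hm
      have hfacG : (Nat.card G).factorization p = (Nat.card (G ⧸ A)).factorization p + m := by
        rw [hcardG, Nat.factorization_mul hQne hAne, Finsupp.add_apply, hAcard,
          hp.factorization_pow]
        simp
      rw [ncard_snSet_quot_pgroup A (IsPGroup.of_card hAcard) H, ihq', hfacG, hAcard, pow_add]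
      ring

end Chain

end Cfsg.Agent.Helper12
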