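import Cfsg.Agent.Helper12.KEngel
import Cfsg.Agent.Helper12.WCE3

/-!
The lower K-infinity functor: a quadratic element on the centre of `O_p`, and the local
hypothesis for weak closure of elements (`p` odd).
-/

set_option autoImplicit false

namespace Cfsg.Agent.Helper12

universe u

section KQuad

variable {p : ℕ} [Fact p.Prime]

/-- If the lower K-infinity subgroup of a Sylow `p`-subgroup is not normal, some element of the
Sylow subgroup outside `O_p` acts quadratically on the centre of `O_p`. -/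
theorem kInf_quadratic {Y : Type u} [Group Y] [Finite Y] (S : Sylow p Y)
    (hn : ¬ (Cfsg.inducedFunctor Cfsg.kInfLower (S : Subgroup Y)).Normal) :
    ∃ g : Y, g ∈ (S : Subgroup Y) ∧ g ∉ Cfsg.pCore p Y ∧
      Cfsg.iterCommutator (Cfsg.pCore p Y ⊓
        Subgroup.centralizer ((Cfsg.pCore p Y : Subgroup Y) : Set Y))
        (Subgroup.zpowers g) 2 = ⊥ := by
  have hQp : IsPGroup p (Cfsg.pCore p Y) := Cfsg.Agent.Helper9.pCore_isPGroup p
  have hQn : (Cfsg.pCore p Y).Normal := inferInstance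
  have hQS : Cfsg.pCore p Y ≤ (S : Subgroup Y) := hQp.le_sylow_of_normal S
  obtain ⟨A, hAn, hAQ, hA2, hQA, hCA⟩ := exists_critical (Cfsg.pCore p Y) hQn hQp
  have hne : ∃ n : ℕ, ¬ (Cfsg.kSeqEven ↥(S : Subgroup Y) n ≤
        (Cfsg.pCore p Y).subgroupOf (S : Subgroup Y) ∧
      Cfsg.kSeqOdd ↥(S : Subgroup Y) (n + 1) ≤ (Cfsg.pCore p Y).subgroupOf (S : Subgroup Y)) := by
    by_contra hcon
    push Not at hcon
    apply hn
    have hcon' : ∀ n : ℕ, Cfsg.kSeqEven ↥(S : Subgroup Y) n ≤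
        (Cfsg.pCore p Y).subgroupOf (S : Subgroup Y) ∧
      Cfsg.kSeqOdd ↥(S : Subgroup Y) (n + 1) ≤ (Cfsg.pCore p Y).subgroupOf (S : Subgroup Y) :=
      hcon
    rw [inducedFunctor_kInfLower_eq hQS hcon']
    have hconj := isConjugacyFunctor_induced (G := Y) (kInfLower_charP.{u} p)
    refine ⟨fun x hx g => ?_⟩
    have h3 := (hconj (Cfsg.pCore p Y) hQp).2.2 g
    rw [map_conj_eq_of_normal hQn g] at h3
    rw [h3]
    exact Subgroup.mem_map_of_mem _ hx
  have hinj : Function.Injective (S : Subgroup Y).subtype := Subgroup.subtype_injective _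
  have hmapA : (A.subgroupOf (S : Subgroup Y)).map (S : Subgroup Y).subtype = A :=
    Subgroup.map_subgroupOf_eq_of_le (hAQ.trans hQS)
  have hmapQ : ((Cfsg.pCore p Y).subgroupOf (S : Subgroup Y)).map (S : Subgroup Y).subtype =
      Cfsg.pCore p Y := Subgroup.map_subgroupOf_eq_of_le hQS
  have hA'n : (A.subgroupOf (S : Subgroup Y)).Normal := by
    have := hAn
    infer_instance
  have hA'2 : ⁅⁅A.subgroupOf (S : Subgroup Y), A.subgroupOf (S : Subgroup Y)⁆,
      A.subgroupOf (S : Subgroup Y)⁆ = ⊥ := by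
    apply (Subgroup.map_eq_bot_iff_of_injective _ hinj).1
    rw [Subgroup.map_commutator, Subgroup.map_commutator, hmapA]
    exact hA2
  have hQ'A' : ⁅(Cfsg.pCore p Y).subgroupOf (S : Subgroup Y), A.subgroupOf (S : Subgroup Y)⁆ ≤
      A.subgroupOf (S : Subgroup Y) ⊓ Subgroup.centralizer
        ((A.subgroupOf (S : Subgroup Y) : Subgroup ↥(S : Subgroup Y)) : Set ↥(S : Subgroup Y)) := by
    rw [← Subgroup.map_le_map_iff_of_injective hinj, Subgroup.map_commutator,
      map_inf_centralizer _ hinj, hmapA, hmapQ]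
    exact hQA
  obtain ⟨B, hBQ, hB3, hB2⟩ := exists_cubic_of_kSeq (A.subgroupOf (S : Subgroup Y))
    ((Cfsg.pCore p Y).subgroupOf (S : Subgroup Y)) hA'n hA'2 hQ'A' hne
  obtain ⟨g', hg'B, hg'Q⟩ := SetLike.not_le_iff_exists.1 hBQ
  refine ⟨(g' : Y), g'.2, fun h => hg'Q (Subgroup.mem_subgroupOf.2 h), ?_⟩
  have hΓ : Subgroup.zpowers (g' : Y) ≤ B.map (S : Subgroup Y).subtype := by
    rw [Subgroup.zpowers_le]
    exact Subgroup.mem_map_of_mem (S : Subgroup Y).subtype hg'B
  have hZ2 : Cfsg.iterCommutator (A ⊓ Subgroup.centralizer (A : Set Y))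
      (Subgroup.zpowers (g' : Y)) 2 = ⊥ := by
    have h1 := iterCommutator_mono (le_refl (A ⊓ Subgroup.centralizer (A : Set Y))) hΓ 2
    have h2 : Cfsg.iterCommutator (A ⊓ Subgroup.centralizer (A : Set Y))
        (B.map (S : Subgroup Y).subtype) 2 =
        (Cfsg.iterCommutator (A.subgroupOf (S : Subgroup Y) ⊓ Subgroup.centralizer
          ((A.subgroupOf (S : Subgroup Y) : Subgroup ↥(S : Subgroup Y)) :
            Set ↥(S : Subgroup Y))) B 2).map (S : Subgroup Y).subtype := by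
      rw [iterCommutator_map, map_inf_centralizer _ hinj, hmapA]
    have h3 : Cfsg.iterCommutator (A.subgroupOf (S : Subgroup Y) ⊓ Subgroup.centralizer
          ((A.subgroupOf (S : Subgroup Y) : Subgroup ↥(S : Subgroup Y)) :
            Set ↥(S : Subgroup Y))) B 2 = ⊥ := hB2
    rw [h2, h3, Subgroup.map_bot] at h1
    exact le_bot_iff.1 h1
  have hle : Cfsg.pCore p Y ⊓ Subgroup.centralizer ((Cfsg.pCore p Y : Subgroup Y) : Set Y) ≤
      A ⊓ Subgroup.centralizer (A : Set Y) := by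
    intro z hz
    obtain ⟨hz1, hz2⟩ := Subgroup.mem_inf.1 hz
    have hzA : z ∈ Subgroup.centralizer (A : Set Y) :=
      Subgroup.centralizer_le (SetLike.coe_subset_coe.2 hAQ) hz2
    exact Subgroup.mem_inf.2 ⟨hCA (Subgroup.mem_inf.2 ⟨hz1, hzA⟩), hzA⟩
  have h1 := iterCommutator_mono hle (le_refl (Subgroup.zpowers (g' : Y))) 2
  rw [hZ2] at h1
  exact le_bot_iff.1 h1

/-- The local hypothesis of the weak-closure theorem for the lower K-infinity functor, `p` odd. -/
theorem kInf_wce_hloc {G : Type u} [Group G] [Finite G] (hp : p ≠ 2) (H T : Subgroup G)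
    (hTH : T ≤ H) (hTp : IsPGroup p ↥T) (hidx : ¬ p ∣ T.relIndex H)
    (hnn : ¬ H ≤ Subgroup.normalizer
      ((Cfsg.inducedFunctor Cfsg.kInfLower T : Subgroup G) : Set G)) :
    ∃ g : G, g ∈ T ∧ g ∉ Cfsg.pCoreOf p H ∧ ∀ U V : Subgroup ↥H, Cfsg.IsChiefFactor U V →
      U.map H.subtype ≤ Cfsg.pCoreOf p H ⊓
        Subgroup.centralizer ((Cfsg.pCoreOf p H : Subgroup G) : Set G) →
      Cfsg.iterCommutator (U.map H.subtype) (Subgroup.zpowers g) (p - 1) ≤ V.map H.subtype := by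
  have hcp : Cfsg.IsCharPFunctor.{u} p Cfsg.kInfLower := kInfLower_charP p
  have hT'p : IsPGroup p ↥(T.subgroupOf H) := hTp.comap_subtype
  have hT'idx : ¬ p ∣ (T.subgroupOf H).index := hidx
  obtain ⟨S', hS'⟩ : ∃ S' : Sylow p ↥H, (S' : Subgroup ↥H) = T.subgroupOf H :=
    ⟨hT'p.toSylow hT'idx, IsPGroup.toSylow_coe _ _⟩
  have hS'map : (S' : Subgroup ↥H).map H.subtype = T := by
    rw [hS']; exact Subgroup.map_subgroupOf_eq_of_le hTH
  have hWmap : Cfsg.inducedFunctor Cfsg.kInfLower T =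
      (Cfsg.inducedFunctor Cfsg.kInfLower (S' : Subgroup ↥H)).map H.subtype := by
    rw [← hS'map]
    exact inducedFunctor_map hcp H.subtype (S' : Subgroup ↥H) S'.isPGroup'
      (fun x _ hx => Subtype.ext hx)
  have hn : ¬ (Cfsg.inducedFunctor Cfsg.kInfLower (S' : Subgroup ↥H)).Normal := by
    intro hnorm
    apply hnn
    intro h hh
    apply mem_normalizer_of_conj_mem
    intro w hw
    rw [hWmap] at hw ⊢
    obtain ⟨w', hw', rfl⟩ := Subgroup.mem_map.1 hw
    exact Subgroup.mem_map.2 ⟨⟨h, hh⟩ * w' * ⟨h, hh⟩⁻¹, hnorm.conj_mem w' hw' ⟨h, hh⟩, rfl⟩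
  obtain ⟨g', hg'S, hg'Q, hquad⟩ := kInf_quadratic S' hn
  have hPo : Cfsg.pCoreOf p H = (Cfsg.pCore p ↥H).map H.subtype := rfl
  refine ⟨(g' : G), ?_, ?_, ?_⟩
  · rw [hS', Subgroup.mem_subgroupOf] at hg'S; exact hg'S
  · rw [hPo]
    intro hmem
    obtain ⟨k, hk, hkg⟩ := Subgroup.mem_map.1 hmem
    have hkg' : k = g' := Subtype.ext hkg
    rw [hkg'] at hk
    exact hg'Q hk
  · intro U V hch hU
    rw [hPo] at hU
    have hUZ : U ≤ Cfsg.pCore p ↥H ⊓
        Subgroup.centralizer ((Cfsg.pCore p ↥H : Subgroup ↥H) : Set ↥H) := by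
      intro u hu
      obtain ⟨hu1, hu2⟩ := Subgroup.mem_inf.1 (hU (Subgroup.mem_map_of_mem H.subtype hu))
      obtain ⟨k, hk, hku⟩ := Subgroup.mem_map.1 hu1
      have hku' : k = u := Subtype.ext hku
      rw [hku'] at hk
      refine Subgroup.mem_inf.2 ⟨hk, ?_⟩
      rw [Subgroup.mem_centralizer_iff]
      intro c hc
      exact Subtype.ext (Subgroup.mem_centralizer_iff.1 hu2 (c : G)
        (Subgroup.mem_map_of_mem H.subtype hc))
    have h2 : Cfsg.iterCommutator U (Subgroup.zpowers g') 2 ≤ V := by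
      have h1 := iterCommutator_mono hUZ (le_refl (Subgroup.zpowers g')) 2
      rw [hquad] at h1
      exact h1.trans bot_le
    have hp2 : 2 ≤ p := (Fact.out : p.Prime).two_le
    obtain ⟨k, hk⟩ : ∃ k, p - 1 = 2 + k := ⟨p - 3, by omega⟩
    have h3 : Cfsg.iterCommutator U (Subgroup.zpowers g') (p - 1) ≤ V := by
      rw [hk, iterCommutator_add]
      exact (iterCommutator_mono h2 le_rfl k).trans (iterCommutator_le_of_normal hch.2.2.1 _ k)
    have h4 := Subgroup.map_mono (f := H.subtype) h3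
    rw [iterCommutator_map, MonoidHom.map_zpowers] at h4
    exact h4

end KQuad

end Cfsg.Agent.Helper12
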