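import Mathlib
import Cfsg.Prelude.Def_Local
import Cfsg.Agent.Helper1.SZ
import Cfsg.Agent.Helper9.Fitting
import Cfsg.Agent.Helper20.PSolvHall
import Cfsg.Agent.Helper20.HallHigman

/-!
`p`-solvable groups all of whose maximal subgroups have a normal `p`-complement or prime index:
modulo `O_{p'}`, the quotient by `O_p` has a normal `p`-complement, so the `p`-length is at most 2.
-/

set_option autoImplicit false

namespace Cfsg.Agent.Helper12

open Pointwise

universe u

/-- Every maximal subgroup has a normal `p`-complement or prime index. -/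
def MaxPN (p : ℕ) (G : Type*) [Group G] : Prop :=
  ∀ M : Subgroup G, IsCoatom M →
    (∃ K : Subgroup ↥M, K.Normal ∧ ¬ p ∣ Nat.card K ∧ ∃ k : ℕ, K.index = p ^ k) ∨ (M.index).Prime

/-- A normal chain `A ≤ B ≤ C ≤ D` with factors `p'`, `p`, `p'`, `p`, `p'`. -/
def PChain2 (p : ℕ) (G : Type*) [Group G] : Prop :=
  ∃ A B C D : Subgroup G, A.Normal ∧ B.Normal ∧ C.Normal ∧ D.Normal ∧ A ≤ B ∧ B ≤ C ∧ C ≤ D ∧
    ¬ p ∣ Nat.card A ∧ (∃ k : ℕ, A.relIndex B = p ^ k) ∧ ¬ p ∣ B.relIndex C ∧
    (∃ k : ℕ, C.relIndex D = p ^ k) ∧ ¬ p ∣ D.index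

section Quot

variable {G : Type*} [Group G]

theorem le_comap_mk (N : Subgroup G) [N.Normal] (X : Subgroup (G ⧸ N)) :
    N ≤ X.comap (QuotientGroup.mk' N) := by
  intro n hn
  rw [Subgroup.mem_comap]
  have : (QuotientGroup.mk' N) n = 1 := (QuotientGroup.eq_one_iff n).2 hn
  rw [this]
  exact one_mem _

theorem isCoatom_comap_mk (N : Subgroup G) [N.Normal] {M : Subgroup (G ⧸ N)} (hM : IsCoatom M) :
    IsCoatom (M.comap (QuotientGroup.mk' N)) := by
  have hsurj := QuotientGroup.mk'_surjective N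
  refine ⟨?_, ?_⟩
  · intro h
    apply hM.1
    rw [← Subgroup.map_comap_eq_self_of_surjective hsurj M, h]
    exact Subgroup.map_top_of_surjective _ hsurj
  · intro X hX
    have hNX : N ≤ X := (le_comap_mk N M).trans hX.le
    have h1 : M < X.map (QuotientGroup.mk' N) := by
      refine lt_of_le_of_ne ?_ ?_
      · have := Subgroup.map_mono (f := QuotientGroup.mk' N) hX.le
        rwa [Subgroup.map_comap_eq_self_of_surjective hsurj M] at this
      · intro h
        have h2 : X ≤ M.comap (QuotientGroup.mk' N) := by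
          rw [h]
          exact Subgroup.le_comap_map _ _
        exact lt_irrefl _ (lt_of_lt_of_le hX h2)
    have h2 := hM.2 _ h1
    have h3 : (X.map (QuotientGroup.mk' N)).comap (QuotientGroup.mk' N) = X := by
      rw [Subgroup.comap_map_eq, QuotientGroup.ker_mk', sup_eq_left.2 hNX]
    rw [← h3, h2, Subgroup.comap_top]

theorem relIndex_comap_comap (N : Subgroup G) [N.Normal] (X Y : Subgroup (G ⧸ N)) :
    (X.comap (QuotientGroup.mk' N)).relIndex (Y.comap (QuotientGroup.mk' N)) = X.relIndex Y := by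
  rw [Subgroup.relIndex_comap,
    Subgroup.map_comap_eq_self_of_surjective (QuotientGroup.mk'_surjective N)]

theorem relIndex_comap_mk (N : Subgroup G) [N.Normal] (X : Subgroup (G ⧸ N)) :
    N.relIndex (X.comap (QuotientGroup.mk' N)) = Nat.card X := by
  have h : (⊥ : Subgroup (G ⧸ N)).comap (QuotientGroup.mk' N) = N := by
    rw [MonoidHom.comap_bot, QuotientGroup.ker_mk']
  calc N.relIndex (X.comap (QuotientGroup.mk' N))
      = ((⊥ : Subgroup (G ⧸ N)).comap (QuotientGroup.mk' N)).relIndex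
          (X.comap (QuotientGroup.mk' N)) := by rw [h]
    _ = (⊥ : Subgroup (G ⧸ N)).relIndex X := relIndex_comap_comap N ⊥ X
    _ = Nat.card X := Subgroup.relIndex_bot_left _

theorem card_comap_mk (N : Subgroup G) [N.Normal] (X : Subgroup (G ⧸ N)) :
    Nat.card (X.comap (QuotientGroup.mk' N)) = Nat.card N * Nat.card X := by
  have h1 : (⊥ : Subgroup G).relIndex N * N.relIndex (X.comap (QuotientGroup.mk' N))
      = (⊥ : Subgroup G).relIndex (X.comap (QuotientGroup.mk' N)) :=
    Subgroup.relIndex_mul_relIndex ⊥ N _ bot_le (le_comap_mk N X)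
  rw [Subgroup.relIndex_bot_left, Subgroup.relIndex_bot_left, relIndex_comap_mk] at h1
  exact h1.symm

theorem maxPN_quot [Finite G] (p : ℕ) [Fact p.Prime] (h : MaxPN p G) (N : Subgroup G)
    [N.Normal] : MaxPN p (G ⧸ N) := by
  intro M hM
  have hsurj := QuotientGroup.mk'_surjective N
  rcases h _ (isCoatom_comap_mk N hM) with ⟨K, hKn, hKc, k, hKi⟩ | hpr
  · left
    have hs : Function.Surjective ((QuotientGroup.mk' N).subgroupComap M) :=
      (QuotientGroup.mk' N).subgroupComap_surjective_of_surjective M hsurj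
    refine ⟨K.map ((QuotientGroup.mk' N).subgroupComap M), hKn.map _ hs, ?_, ?_⟩
    · intro hd
      exact hKc (dvd_trans hd (Subgroup.card_map_dvd (H := K) _))
    · have hd := Subgroup.index_map_dvd (H := K) hs
      rw [hKi] at hd
      obtain ⟨j, -, hj⟩ := (Nat.dvd_prime_pow (Fact.out : p.Prime)).1 hd
      exact ⟨j, hj⟩
  · right
    rwa [Subgroup.index_comap_of_surjective (H := M) hsurj] at hpr

theorem pchain2_of_quot [Finite G] (p : ℕ) [Fact p.Prime] (N : Subgroup G) [N.Normal]
    (hN : ¬ p ∣ Nat.card N) (h : PChain2 p (G ⧸ N)) : PChain2 p G := by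
  obtain ⟨A, B, C, D, hA, hB, hC, hD, hAB, hBC, hCD, hcA, hAB', hBC', hCD', hDi⟩ := h
  refine ⟨A.comap (QuotientGroup.mk' N), B.comap (QuotientGroup.mk' N),
    C.comap (QuotientGroup.mk' N), D.comap (QuotientGroup.mk' N), hA.comap _, hB.comap _,
    hC.comap _, hD.comap _, Subgroup.comap_mono hAB, Subgroup.comap_mono hBC,
    Subgroup.comap_mono hCD, ?_, ?_, ?_, ?_, ?_⟩
  · rw [card_comap_mk]
    intro hd
    rcases (Nat.Prime.dvd_mul (Fact.out : p.Prime)).1 hd with h1 | h1
    · exact hN h1
    · exact hcA h1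
  · rw [relIndex_comap_comap]; exact hAB'
  · rw [relIndex_comap_comap]; exact hBC'
  · rw [relIndex_comap_comap]; exact hCD'
  · rw [Subgroup.index_comap_of_surjective (H := D) (QuotientGroup.mk'_surjective N)]; exact hDi

theorem pchain2_of_quot_p [Finite G] (p : ℕ) [Fact p.Prime] (N : Subgroup G) [N.Normal]
    (a : ℕ) (hN : Nat.card N = p ^ a) (h : PChain2 p (G ⧸ N))
    (hX : ∀ X : Subgroup G, X.Normal → N ≤ X → ¬ p ∣ N.relIndex X → X = N) : PChain2 p G := by
  obtain ⟨A, B, C, D, hA, hB, hC, hD, hAB, hBC, hCD, hcA, ⟨k, hAB'⟩, hBC', hCD', hDi⟩ := h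
  have hsurj := QuotientGroup.mk'_surjective N
  have hA1 : A.comap (QuotientGroup.mk' N) = N :=
    hX _ (hA.comap _) (le_comap_mk N A) (by rw [relIndex_comap_mk]; exact hcA)
  have hAbot : A = ⊥ := by
    apply Subgroup.comap_injective hsurj
    rw [hA1, MonoidHom.comap_bot, QuotientGroup.ker_mk']
  have hB' : Nat.card B = p ^ k := by
    rw [← hAB', hAbot, Subgroup.relIndex_bot_left]
  refine ⟨⊥, B.comap (QuotientGroup.mk' N), C.comap (QuotientGroup.mk' N),
    D.comap (QuotientGroup.mk' N), inferInstance, hB.comap _, hC.comap _, hD.comap _, bot_le,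
    Subgroup.comap_mono hBC, Subgroup.comap_mono hCD, ?_, ⟨a + k, ?_⟩, ?_, ?_, ?_⟩
  · rw [Subgroup.card_bot]
    exact (Fact.out : p.Prime).not_dvd_one
  · rw [Subgroup.relIndex_bot_left, card_comap_mk, hN, hB', pow_add]
  · rw [relIndex_comap_comap]; exact hBC'
  · rw [relIndex_comap_comap]; exact hCD'
  · rw [Subgroup.index_comap_of_surjective (H := D) hsurj]; exact hDi

end Quot

/-- A normal subgroup `X` containing a normal `p`-subgroup `N ≤ Φ(G)` with `p'` index over it
equals `N`, when `G` has no nontrivial normal `p'`-subgroup. -/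
theorem eq_of_frattini_pPrime {G : Type u} [Group G] [Finite G] (p : ℕ) [Fact p.Prime]
    (hO : ∀ K : Subgroup G, K.Normal → ¬ p ∣ Nat.card K → K = ⊥)
    (N : Subgroup G) [N.Normal] (hNp : IsPGroup p N) (hNF : N ≤ frattini G)
    (X : Subgroup G) (hX : X.Normal) (hNX : N ≤ X) (hidx : ¬ p ∣ N.relIndex X) : X = N := by
  haveI := hX
  have hp := (Fact.out : p.Prime)
  haveI hN'n : (N.subgroupOf X).Normal := Subgroup.Normal.subgroupOf inferInstance X
  have hN'p : IsPGroup p (N.subgroupOf X) := hNp.comap_subtype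
  obtain ⟨a, ha⟩ := IsPGroup.iff_card.1 hN'p
  have hidx' : (N.subgroupOf X).index = N.relIndex X := rfl
  have hcop : (Nat.card (N.subgroupOf X)).Coprime (N.subgroupOf X).index := by
    rw [ha, hidx']
    exact Nat.Coprime.pow_left _ ((Nat.Prime.coprime_iff_not_dvd hp).2 hidx)
  obtain ⟨K', hK'⟩ := Subgroup.exists_right_complement'_of_coprime hcop
  have hK'card : Nat.card K' = N.relIndex X := by
    rw [← hidx']
    exact (hK'.symm.index_eq_card).symm
  haveI : Group.IsSolvable (N.subgroupOf X) := by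
    haveI := hN'p.isNilpotent
    infer_instance
  have hnorm : Subgroup.normalizer ((K'.map X.subtype : Subgroup G) : Set G) ⊔ frattini G = ⊤ := by
    rw [eq_top_iff]
    intro g _
    have hinj : Function.Injective ((MulAut.conjNormal g : MulAut X).toMonoidHom) :=
      (MulAut.conjNormal g : MulAut X).injective
    have hKg : Subgroup.IsComplement' (N.subgroupOf X)
        (K'.map (MulAut.conjNormal g : MulAut X).toMonoidHom) := by
      apply Subgroup.isComplement'_of_coprime
      · rw [Subgroup.card_map_of_injective hinj]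
        exact hK'.card_mul_card
      · rw [Subgroup.card_map_of_injective hinj, hK'card, ha]
        exact Nat.Coprime.pow_left _ ((Nat.Prime.coprime_iff_not_dvd hp).2 hidx)
    obtain ⟨n, hn, hnK⟩ := Cfsg.Agent.Helper1.sz_conj_mem (N.subgroupOf X) hcop K' _
      (Or.inl inferInstance) hK' hKg
    have hy : (n : G)⁻¹ * g ∈ Subgroup.normalizer ((K'.map X.subtype : Subgroup G) : Set G) := by
      rw [Subgroup.mem_normalizer_iff]
      intro h
      constructor
      · rintro ⟨k, hk, rfl⟩
        have h1 : (MulAut.conjNormal g : MulAut X) k ∈ MulAut.conj n • K' := by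
          rw [hnK]
          exact Subgroup.mem_map_of_mem _ hk
        rw [Cfsg.Agent.Helper1.mem_conj_smul] at h1
        refine ⟨_, h1, ?_⟩
        show ((n⁻¹ * (MulAut.conjNormal g : MulAut X) k * n : X) : G) = _
        rw [Subgroup.coe_mul, Subgroup.coe_mul, Subgroup.coe_inv, MulAut.conjNormal_apply]
        show _ = (n : G)⁻¹ * g * (k : G) * ((n : G)⁻¹ * g)⁻¹
        group
      · intro hmem
        obtain ⟨k, hk, hkeq⟩ := hmem
        have hk' : (k : G) = (n : G)⁻¹ * g * h * ((n : G)⁻¹ * g)⁻¹ := hkeq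
        have hhX : h ∈ X := by
          have h1 : (n : G)⁻¹ * g * h * ((n : G)⁻¹ * g)⁻¹ ∈ X := by
            rw [← hk']
            exact k.2
          have h2 := hX.conj_mem _ h1 ((n : G)⁻¹ * g)⁻¹
          have h3 : h = ((n : G)⁻¹ * g)⁻¹ * ((n : G)⁻¹ * g * h * ((n : G)⁻¹ * g)⁻¹) *
              ((n : G)⁻¹ * g)⁻¹⁻¹ := by group
          rw [h3]
          exact h2
        have h3 : k = n⁻¹ * (MulAut.conjNormal g : MulAut X) ⟨h, hhX⟩ * n := by
          apply Subtype.ext
          rw [Subgroup.coe_mul, Subgroup.coe_mul, Subgroup.coe_inv, MulAut.conjNormal_apply, hk']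
          show _ = (n : G)⁻¹ * (g * h * g⁻¹) * (n : G)
          group
        have h4 : (MulAut.conjNormal g : MulAut X) ⟨h, hhX⟩ ∈ MulAut.conj n • K' := by
          rw [Cfsg.Agent.Helper1.mem_conj_smul, ← h3]
          exact hk
        rw [hnK] at h4
        have h5 : (⟨h, hhX⟩ : X) ∈ K' := (Subgroup.mem_map_iff_mem hinj).1 h4
        exact ⟨⟨h, hhX⟩, h5, rfl⟩
    have hg : g = (n : G) * ((n : G)⁻¹ * g) := by group
    rw [hg]
    exact Subgroup.mul_mem _ (Subgroup.mem_sup_right (hNF (Subgroup.mem_subgroupOf.1 hn)))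
      (Subgroup.mem_sup_left hy)
  have hKtop : Subgroup.normalizer ((K'.map X.subtype : Subgroup G) : Set G) = ⊤ :=
    frattini_nongenerating hnorm
  have hKn : (K'.map X.subtype).Normal := Subgroup.normalizer_eq_top_iff.1 hKtop
  have hKcard : Nat.card (K'.map X.subtype) = N.relIndex X := by
    rw [Subgroup.card_map_of_injective X.subtype_injective, hK'card]
  have hKbot : K'.map X.subtype = ⊥ := hO _ hKn (by rw [hKcard]; exact hidx)
  have hK'bot : K' = ⊥ := (Subgroup.map_eq_bot_iff_of_injective _ X.subtype_injective).1 hKbot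
  have h1 : N.relIndex X = 1 := by
    rw [← hK'card, hK'bot, Subgroup.card_bot]
  exact le_antisymm (Subgroup.relIndex_eq_one.1 h1) hNX

/-- For a maximal subgroup `M` of index `p` not containing the normal `p`-subgroup `V`, the
`(p-1)`-st power of any element acts trivially on `V / (M ∩ V)`. -/
theorem hyper_pow {G : Type*} [Group G] [Finite G] (p : ℕ) [Fact p.Prime] (V : Subgroup G)
    [hVn : V.Normal] (a : ℕ) (ha : Nat.card V = p ^ a) (M : Subgroup G) (hM : IsCoatom M)
    (hVM : ¬ V ≤ M) (hpr : (M.index).Prime) (g v : G) (hv : v ∈ V) :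
    v⁻¹ * (g ^ (p - 1) * v * (g ^ (p - 1))⁻¹) ∈ M := by
  have hp := (Fact.out : p.Prime)
  have hsup : M ⊔ V = ⊤ :=
    hM.2 _ (lt_of_le_of_ne le_sup_left (fun h => hVM (by rw [h]; exact le_sup_right)))
  have hidx : (M ⊓ V).relIndex V = M.index := by
    have h1 : V.relIndex M = V.index := by
      have := Subgroup.relIndex_sup_right (H := M) (K := V)
      rw [hsup, Subgroup.relIndex_top_right] at this
      exact this.symm
    have h2 : Nat.card V * V.index = Nat.card G := Subgroup.card_mul_index V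
    have h3 : Nat.card M * M.index = Nat.card G := Subgroup.card_mul_index M
    have h4 : Nat.card ↥(M ⊓ V) * (M ⊓ V).relIndex M = Nat.card M := by
      have := Subgroup.relIndex_mul_relIndex ⊥ (M ⊓ V) M bot_le inf_le_left
      rwa [Subgroup.relIndex_bot_left, Subgroup.relIndex_bot_left] at this
    have h5 : Nat.card ↥(M ⊓ V) * (M ⊓ V).relIndex V = Nat.card V := by
      have := Subgroup.relIndex_mul_relIndex ⊥ (M ⊓ V) V bot_le inf_le_right
      rwa [Subgroup.relIndex_bot_left, Subgroup.relIndex_bot_left] at this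
    have h6 : (M ⊓ V).relIndex M = V.relIndex M := by
      rw [inf_comm, Subgroup.inf_relIndex_right]
    have h7 : 0 < Nat.card ↥(M ⊓ V) := Nat.card_pos
    have h8 : 0 < V.index := Nat.pos_of_ne_zero Subgroup.index_ne_zero_of_finite
    have h9 : Nat.card ↥(M ⊓ V) * (M ⊓ V).relIndex V * V.index
        = Nat.card ↥(M ⊓ V) * V.index * M.index := by
      rw [h5, h2, ← h1, ← h6, h4, h3]
    have h10 : Nat.card ↥(M ⊓ V) * V.index * (M ⊓ V).relIndex V
        = Nat.card ↥(M ⊓ V) * V.index * M.index := by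
      rw [← h9]; ring
    exact Nat.eq_of_mul_eq_mul_left (Nat.mul_pos h7 h8) h10
  have hMp : M.index = p := by
    have h1 : M.index ∣ Nat.card V := by
      rw [← hidx]; exact Subgroup.relIndex_dvd_card (M ⊓ V) V
    rw [ha] at h1
    exact (Nat.prime_dvd_prime_iff_eq hpr hp).1 (hpr.dvd_of_dvd_pow h1)
  obtain ⟨W, hWdef⟩ : ∃ W : Subgroup G, W = M ⊓ V := ⟨_, rfl⟩
  have hWV : W ≤ V := by rw [hWdef]; exact inf_le_right
  have hWM : W ≤ M := by rw [hWdef]; exact inf_le_left
  have hWidx : (W.subgroupOf V).index = p := by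
    show W.relIndex V = p
    rw [hWdef, hidx, hMp]
  have ha0 : a ≠ 0 := by
    rintro rfl
    rw [pow_zero] at ha
    have h1 : (W.subgroupOf V).index ∣ Nat.card V := Subgroup.index_dvd_card _
    rw [hWidx, ha] at h1
    exact hp.one_lt.ne' (Nat.dvd_one.1 h1)
  haveI hW'n : (W.subgroupOf V).Normal := by
    apply Subgroup.normal_of_index_eq_minFac_card
    rw [hWidx, ha, Nat.pow_minFac ha0, hp.minFac_eq]
  have hWn : W.Normal := by
    rw [← Subgroup.normalizer_eq_top_iff, eq_top_iff, ← hsup]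
    refine sup_le ?_ ?_
    · intro m hm
      rw [Subgroup.mem_normalizer_iff]
      intro x
      rw [hWdef, Subgroup.mem_inf, Subgroup.mem_inf]
      constructor
      · rintro ⟨hxM, hxV⟩
        exact ⟨M.mul_mem (M.mul_mem hm hxM) (M.inv_mem hm), hVn.conj_mem x hxV m⟩
      · rintro ⟨hxM, hxV⟩
        refine ⟨?_, ?_⟩
        · have h1 := M.mul_mem (M.mul_mem (M.inv_mem hm) hxM) hm
          have h2 : m⁻¹ * (m * x * m⁻¹) * m = x := by group
          rwa [h2] at h1
        · have h1 := hVn.conj_mem _ hxV m⁻¹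
          have h2 : m⁻¹ * (m * x * m⁻¹) * m⁻¹⁻¹ = x := by group
          rwa [h2] at h1
    · exact (Subgroup.normal_subgroupOf_iff_le_normalizer hWV).1 hW'n
  have hcardQ : Nat.card (↥V ⧸ W.subgroupOf V) = p := hWidx
  haveI : IsCyclic (↥V ⧸ W.subgroupOf V) := isCyclic_of_prime_card hcardQ
  have hAut : ∀ β : MulAut (↥V ⧸ W.subgroupOf V), β ^ (p - 1) = 1 := by
    intro β
    have h1 : Nat.card (MulAut (↥V ⧸ W.subgroupOf V)) = p - 1 := by
      rw [IsCyclic.card_mulAut, hcardQ, Nat.totient_prime hp]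
    rw [← h1]
    exact pow_card_eq_one'
  have hmap : (W.subgroupOf V).map ((MulAut.conjNormal g : ↥V ≃* ↥V) : ↥V →* ↥V)
      = W.subgroupOf V := by
    ext x
    constructor
    · rintro ⟨y, hy, rfl⟩
      show ((MulAut.conjNormal g : MulAut V) y : G) ∈ W
      rw [MulAut.conjNormal_apply]
      exact hWn.conj_mem _ (Subgroup.mem_subgroupOf.1 hy) g
    · intro hx
      refine ⟨(MulAut.conjNormal g : MulAut V).symm x, ?_, ?_⟩
      · show (((MulAut.conjNormal g : MulAut V).symm x : V) : G) ∈ W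
        rw [MulAut.conjNormal_symm_apply]
        have h1 := hWn.conj_mem _ (Subgroup.mem_subgroupOf.1 hx) g⁻¹
        rwa [inv_inv] at h1
      · exact MulEquiv.apply_symm_apply _ x
  obtain ⟨β, hβ⟩ : ∃ β : MulAut (↥V ⧸ W.subgroupOf V), ∀ w : ↥V,
      β (QuotientGroup.mk w) = QuotientGroup.mk ((MulAut.conjNormal g : MulAut V) w) :=
    ⟨QuotientGroup.congr (W.subgroupOf V) (W.subgroupOf V) (MulAut.conjNormal g : ↥V ≃* ↥V) hmap,
      fun w => rfl⟩
  have hiter : ∀ n : ℕ, ∀ w : ↥V, (β ^ n) (QuotientGroup.mk w)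
      = QuotientGroup.mk ((MulAut.conjNormal (g ^ n) : MulAut V) w) := by
    intro n
    induction n with
    | zero =>
      intro w
      rw [pow_zero, pow_zero, map_one]
      rfl
    | succ n ih =>
      intro w
      rw [pow_succ, MulAut.mul_apply, hβ, ih, pow_succ, map_mul, MulAut.mul_apply]
  have h1 := hiter (p - 1) ⟨v, hv⟩
  rw [hAut β, MulAut.one_apply] at h1
  have h2 : (⟨v, hv⟩ : V)⁻¹ * (MulAut.conjNormal (g ^ (p - 1)) : MulAut V) ⟨v, hv⟩
      ∈ W.subgroupOf V := QuotientGroup.eq.1 h1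
  have h3 : v⁻¹ * (g ^ (p - 1) * v * (g ^ (p - 1))⁻¹) ∈ W := by
    have := Subgroup.mem_subgroupOf.1 h2
    rwa [Subgroup.coe_mul, Subgroup.coe_inv, MulAut.conjNormal_apply] at this
  exact hWM h3

/-- A maximal subgroup with a normal `p`-complement supplementing the normal `p`-subgroup `V`
gives the chain `1 ≤ V ≤ C ≤ G`. -/
theorem pchain2_of_pnil {G : Type*} [Group G] [Finite G] (p : ℕ) [Fact p.Prime] (V : Subgroup G)
    [hVn : V.Normal] (a : ℕ) (ha : Nat.card V = p ^ a) (M : Subgroup G) (hsup : M ⊔ V = ⊤)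
    (K : Subgroup ↥M) (hKn : K.Normal) (hKc : ¬ p ∣ Nat.card K) (k : ℕ) (hKi : K.index = p ^ k) :
    PChain2 p G := by
  have hp := (Fact.out : p.Prime)
  have hs : Function.Surjective ((QuotientGroup.mk' V).comp M.subtype) := by
    intro x
    obtain ⟨g, rfl⟩ := QuotientGroup.mk'_surjective V x
    have hg : g ∈ ((M ⊔ V : Subgroup G) : Set G) := by
      rw [hsup]; exact Subgroup.mem_top g
    rw [Subgroup.mul_normal] at hg
    obtain ⟨m, hm, w, hw, hmw⟩ := hg
    have hmw' : m * w = g := hmw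
    refine ⟨⟨m, hm⟩, ?_⟩
    show (QuotientGroup.mk m : G ⧸ V) = QuotientGroup.mk g
    rw [QuotientGroup.eq, ← hmw']
    have h2 : m⁻¹ * (m * w) = w := by group
    rw [h2]
    exact hw
  obtain ⟨Kb, hKb⟩ : ∃ Kb : Subgroup (G ⧸ V),
      Kb = K.map ((QuotientGroup.mk' V).comp M.subtype) := ⟨_, rfl⟩
  have hKbn : Kb.Normal := by rw [hKb]; exact hKn.map _ hs
  have hKbc : ¬ p ∣ Nat.card Kb := by
    intro hd
    rw [hKb] at hd
    exact hKc (dvd_trans hd (Subgroup.card_map_dvd (H := K) _))
  have hKbi : ∃ j : ℕ, Kb.index = p ^ j := by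
    have hd := Subgroup.index_map_dvd (H := K) hs
    rw [hKi, ← hKb] at hd
    obtain ⟨j, -, hj⟩ := (Nat.dvd_prime_pow hp).1 hd
    exact ⟨j, hj⟩
  obtain ⟨j, hj⟩ := hKbi
  refine ⟨⊥, V, Kb.comap (QuotientGroup.mk' V), ⊤, inferInstance, hVn, hKbn.comap _,
    inferInstance, bot_le, le_comap_mk V Kb, le_top, ?_, ⟨a, ?_⟩, ?_, ⟨j, ?_⟩, ?_⟩
  · rw [Subgroup.card_bot]; exact hp.not_dvd_one
  · rw [Subgroup.relIndex_bot_left]; exact ha
  · rw [relIndex_comap_mk]; exact hKbc
  · rw [Subgroup.relIndex_top_right,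
      Subgroup.index_comap_of_surjective (H := Kb) (QuotientGroup.mk'_surjective V)]
    exact hj
  · rw [Subgroup.index_top]; exact hp.not_dvd_one

/-- Main induction. -/
theorem pchain2_aux (p : ℕ) [Fact p.Prime] : ∀ (n : ℕ) (G : Type u) [Group G] [Finite G],
    Nat.card G = n → Cfsg.IsPSolvable p G → MaxPN p G → PChain2 p G := by
  intro n
  induction n using Nat.strong_induction_on with
  | _ n IH =>
    intro G _ _ hn hsol hmax
    have hp := (Fact.out : p.Prime)
    by_cases hO : ∃ K : Subgroup G, K.Normal ∧ ¬ p ∣ Nat.card K ∧ K ≠ ⊥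
    · obtain ⟨K, hKn, hKc, hK1⟩ := hO
      haveI := hKn
      have hlt : Nat.card (G ⧸ K) < n := by
        rw [← hn]
        exact Cfsg.Agent.Helper1.card_quotient_lt_of_ne_bot K hK1
      exact pchain2_of_quot p K hKc (IH _ hlt (G ⧸ K) rfl
        (Cfsg.Agent.Helper20.isPSolvable_quotient p hsol K) (maxPN_quot p hmax K))
    · have hO' : ∀ K : Subgroup G, K.Normal → ¬ p ∣ Nat.card K → K = ⊥ := by
        intro K hKn hKc
        by_contra h
        exact hO ⟨K, hKn, hKc, h⟩
      have hpp : Cfsg.pPrimeCore p G = ⊥ := by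
        unfold Cfsg.pPrimeCore
        rw [sSup_eq_bot]
        rintro K ⟨hKn, hKc⟩
        exact hO' K hKn ((Nat.Prime.coprime_iff_not_dvd hp).1 hKc.symm)
      obtain ⟨V, hVdef⟩ : ∃ V : Subgroup G, V = Cfsg.pCore p G := ⟨_, rfl⟩
      haveI hVn : V.Normal := by rw [hVdef]; infer_instance
      have hVp : IsPGroup p V := by rw [hVdef]; exact Cfsg.Agent.Helper9.pCore_isPGroup p
      have hCV : Subgroup.centralizer (V : Set G) ≤ V := by
        rw [hVdef]
        exact Cfsg.Agent.Helper20.PLen.centralizer_pCore_le_of_psolvable p hsol hpp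
      obtain ⟨a, ha⟩ := IsPGroup.iff_card.1 hVp
      by_cases h2a : ∃ M : Subgroup G, IsCoatom M ∧ ¬ V ≤ M ∧
          ∃ K : Subgroup ↥M, K.Normal ∧ ¬ p ∣ Nat.card K ∧ ∃ k : ℕ, K.index = p ^ k
      · obtain ⟨M, hM, hVM, K, hKn, hKc, k, hKi⟩ := h2a
        have hsup : M ⊔ V = ⊤ :=
          hM.2 _ (lt_of_le_of_ne le_sup_left (fun h => hVM (by rw [h]; exact le_sup_right)))
        exact pchain2_of_pnil p V a ha M hsup K hKn hKc k hKi
      · have hprime : ∀ M : Subgroup G, IsCoatom M → ¬ V ≤ M → (M.index).Prime := by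
          intro M hM hVM
          rcases hmax M hM with h | h
          · exact absurd ⟨M, hM, hVM, h⟩ h2a
          · exact h
        by_cases hΦ : V ⊓ frattini G = ⊥
        · have key : ∀ g : G, g ^ (p - 1) ∈ V := by
            intro g
            apply hCV
            rw [Subgroup.mem_centralizer_iff]
            intro v hv
            have hv' : v ∈ V := hv
            have h1 : v⁻¹ * (g ^ (p - 1) * v * (g ^ (p - 1))⁻¹) ∈ V ⊓ frattini G := by
              refine Subgroup.mem_inf.2 ⟨V.mul_mem (V.inv_mem hv') (hVn.conj_mem v hv' _), ?_⟩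
              have hall : ∀ M : Subgroup G, IsCoatom M →
                  v⁻¹ * (g ^ (p - 1) * v * (g ^ (p - 1))⁻¹) ∈ M := by
                intro M hM
                by_cases hVM : V ≤ M
                · exact hVM (V.mul_mem (V.inv_mem hv') (hVn.conj_mem v hv' _))
                · exact hyper_pow p V a ha M hM hVM (hprime M hM hVM) g v hv'
              rw [frattini, Order.radical]
              simp only [Subgroup.mem_iInf]
              intro M hM
              exact hall M hM
            rw [hΦ, Subgroup.mem_bot] at h1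
            have h2 : g ^ (p - 1) * v * (g ^ (p - 1))⁻¹ = v := by
              have h3 : g ^ (p - 1) * v * (g ^ (p - 1))⁻¹
                  = v * (v⁻¹ * (g ^ (p - 1) * v * (g ^ (p - 1))⁻¹)) := by group
              rw [h3, h1, mul_one]
            calc v * g ^ (p - 1) = (g ^ (p - 1) * v * (g ^ (p - 1))⁻¹) * g ^ (p - 1) := by
                  rw [h2]
              _ = g ^ (p - 1) * v := by group
          have hidx : ¬ p ∣ V.index := by
            intro hd
            rw [Subgroup.index_eq_card] at hd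
            obtain ⟨x, hx⟩ := exists_prime_orderOf_dvd_card' p hd
            obtain ⟨g, rfl⟩ := QuotientGroup.mk_surjective x
            have h1 : (QuotientGroup.mk g : G ⧸ V) ^ (p - 1) = 1 := by
              rw [← QuotientGroup.mk_pow, QuotientGroup.eq_one_iff]
              exact key g
            have h2 := orderOf_dvd_of_pow_eq_one h1
            rw [hx] at h2
            have h3 := Nat.le_of_dvd (Nat.sub_pos_of_lt hp.one_lt) h2
            have h4 := hp.one_lt
            omega
          refine ⟨⊥, V, ⊤, ⊤, inferInstance, hVn, inferInstance, inferInstance, bot_le, le_top,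
            le_rfl, ?_, ⟨a, ?_⟩, ?_, ⟨0, ?_⟩, ?_⟩
          · rw [Subgroup.card_bot]; exact hp.not_dvd_one
          · rw [Subgroup.relIndex_bot_left]; exact ha
          · rw [Subgroup.relIndex_top_right]; exact hidx
          · rw [Subgroup.relIndex_self, pow_zero]
          · rw [Subgroup.index_top]; exact hp.not_dvd_one
        · have hNp : IsPGroup p ↥(V ⊓ frattini G) := hVp.to_le inf_le_left
          obtain ⟨b, hb⟩ := IsPGroup.iff_card.1 hNp
          have hlt : Nat.card (G ⧸ (V ⊓ frattini G)) < n := by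
            rw [← hn]
            exact Cfsg.Agent.Helper1.card_quotient_lt_of_ne_bot _ hΦ
          have hq := IH _ hlt (G ⧸ (V ⊓ frattini G)) rfl
            (Cfsg.Agent.Helper20.isPSolvable_quotient p hsol _) (maxPN_quot p hmax _)
          exact pchain2_of_quot_p p (V ⊓ frattini G) b hb hq
            (fun X hX hNX hidx =>
              eq_of_frattini_pPrime p hO' (V ⊓ frattini G) hNp inf_le_right X hX hNX hidx)

end Cfsg.Agent.Helper12
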