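import Mathlib
import Cfsg.Agent.Helper12.MaxPNil

/-!
Three-term version of `MaxPNil`: the chain `A ≤ B ≤ C` with `G / C` a `p`-group.
-/

set_option autoImplicit false

namespace Cfsg.Agent.Helper12

open Pointwise

universe u

/-- A normal chain `A ≤ B ≤ C` with factors `p'`, `p`, `p'` and `G / C` a `p`-group. -/
def PChain3 (p : ℕ) (G : Type*) [Group G] : Prop :=
  ∃ A B C : Subgroup G, A.Normal ∧ B.Normal ∧ C.Normal ∧ A ≤ B ∧ B ≤ C ∧
    ¬ p ∣ Nat.card A ∧ (∃ k : ℕ, A.relIndex B = p ^ k) ∧ ¬ p ∣ B.relIndex C ∧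
    ∃ k : ℕ, C.index = p ^ k

section Quot

variable {G : Type*} [Group G]

theorem pchain3_of_quot [Finite G] (p : ℕ) [Fact p.Prime] (N : Subgroup G) [N.Normal]
    (hN : ¬ p ∣ Nat.card N) (h : PChain3 p (G ⧸ N)) : PChain3 p G := by
  obtain ⟨A, B, C, hA, hB, hC, hAB, hBC, hcA, hAB', hBC', hCi⟩ := h
  refine ⟨A.comap (QuotientGroup.mk' N), B.comap (QuotientGroup.mk' N),
    C.comap (QuotientGroup.mk' N), hA.comap _, hB.comap _, hC.comap _,
    Subgroup.comap_mono hAB, Subgroup.comap_mono hBC, ?_, ?_, ?_, ?_⟩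
  · rw [card_comap_mk]
    intro hd
    rcases (Nat.Prime.dvd_mul (Fact.out : p.Prime)).1 hd with h1 | h1
    · exact hN h1
    · exact hcA h1
  · rw [relIndex_comap_comap]; exact hAB'
  · rw [relIndex_comap_comap]; exact hBC'
  · rw [Subgroup.index_comap_of_surjective (H := C) (QuotientGroup.mk'_surjective N)]; exact hCi

theorem pchain3_of_quot_p [Finite G] (p : ℕ) [Fact p.Prime] (N : Subgroup G) [N.Normal]
    (a : ℕ) (hN : Nat.card N = p ^ a) (h : PChain3 p (G ⧸ N))
    (hX : ∀ X : Subgroup G, X.Normal → N ≤ X → ¬ p ∣ N.relIndex X → X = N) : PChain3 p G := by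
  obtain ⟨A, B, C, hA, hB, hC, hAB, hBC, hcA, ⟨k, hAB'⟩, hBC', hCi⟩ := h
  have hsurj := QuotientGroup.mk'_surjective N
  have hA1 : A.comap (QuotientGroup.mk' N) = N :=
    hX _ (hA.comap _) (le_comap_mk N A) (by rw [relIndex_comap_mk]; exact hcA)
  have hAbot : A = ⊥ := by
    apply Subgroup.comap_injective hsurj
    rw [hA1, MonoidHom.comap_bot, QuotientGroup.ker_mk']
  have hB' : Nat.card B = p ^ k := by
    rw [← hAB', hAbot, Subgroup.relIndex_bot_left]
  refine ⟨⊥, B.comap (QuotientGroup.mk' N), C.comap (QuotientGroup.mk' N), inferInstance,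
    hB.comap _, hC.comap _, bot_le, Subgroup.comap_mono hBC, ?_, ⟨a + k, ?_⟩, ?_, ?_⟩
  · rw [Subgroup.card_bot]
    exact (Fact.out : p.Prime).not_dvd_one
  · rw [Subgroup.relIndex_bot_left, card_comap_mk, hN, hB', pow_add]
  · rw [relIndex_comap_comap]; exact hBC'
  · rw [Subgroup.index_comap_of_surjective (H := C) hsurj]; exact hCi

end Quot

theorem pchain3_of_pnil {G : Type*} [Group G] [Finite G] (p : ℕ) [Fact p.Prime] (V : Subgroup G)
    [hVn : V.Normal] (a : ℕ) (ha : Nat.card V = p ^ a) (M : Subgroup G) (hsup : M ⊔ V = ⊤)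
    (K : Subgroup ↥M) (hKn : K.Normal) (hKc : ¬ p ∣ Nat.card K) (k : ℕ) (hKi : K.index = p ^ k) :
    PChain3 p G := by
  have hp := (Fact.out : p.Prime)
  have hs : Function.Surjective ((QuotientGroup.mk' V).comp M.subtype) := by
    intro x
    obtain ⟨g, rfl⟩ := QuotientGroup.mk'_surjective V x
    have hg : g ∈ ((M ⊔ V : Subgroup G) : Set G) := by
      rw [hsup]; exact Subgroup.mem_top g
    rw [Subgroup.mul_normal] at hg
    obtain ⟨m, hm, w, hw, hmw⟩ := hg
    have hmw' : m * w = g := hmw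
    refine ⟨⟨m, hm⟩, ?_⟩
    show (QuotientGroup.mk m : G ⧸ V) = QuotientGroup.mk g
    rw [QuotientGroup.eq, ← hmw']
    have h2 : m⁻¹ * (m * w) = w := by group
    rw [h2]
    exact hw
  obtain ⟨Kb, hKb⟩ : ∃ Kb : Subgroup (G ⧸ V),
      Kb = K.map ((QuotientGroup.mk' V).comp M.subtype) := ⟨_, rfl⟩
  have hKbn : Kb.Normal := by rw [hKb]; exact hKn.map _ hs
  have hKbc : ¬ p ∣ Nat.card Kb := by
    intro hd
    rw [hKb] at hd
    exact hKc (dvd_trans hd (Subgroup.card_map_dvd (H := K) _))
  have hKbi : ∃ j : ℕ, Kb.index = p ^ j := by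
    have hd := Subgroup.index_map_dvd (H := K) hs
    rw [hKi, ← hKb] at hd
    obtain ⟨j, -, hj⟩ := (Nat.dvd_prime_pow hp).1 hd
    exact ⟨j, hj⟩
  obtain ⟨j, hj⟩ := hKbi
  refine ⟨⊥, V, Kb.comap (QuotientGroup.mk' V), inferInstance, hVn, hKbn.comap _,
    bot_le, le_comap_mk V Kb, ?_, ⟨a, ?_⟩, ?_, ⟨j, ?_⟩⟩
  · rw [Subgroup.card_bot]; exact hp.not_dvd_one
  · rw [Subgroup.relIndex_bot_left]; exact ha
  · rw [relIndex_comap_mk]; exact hKbc
  · rw [Subgroup.index_comap_of_surjective (H := Kb) (QuotientGroup.mk'_surjective V)]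
    exact hj

/-- Main induction, three-term chain. -/
theorem pchain3_aux (p : ℕ) [Fact p.Prime] : ∀ (n : ℕ) (G : Type u) [Group G] [Finite G],
    Nat.card G = n → Cfsg.IsPSolvable p G → MaxPN p G → PChain3 p G := by
  intro n
  induction n using Nat.strong_induction_on with
  | _ n IH =>
    intro G _ _ hn hsol hmax
    have hp := (Fact.out : p.Prime)
    by_cases hO : ∃ K : Subgroup G, K.Normal ∧ ¬ p ∣ Nat.card K ∧ K ≠ ⊥
    · obtain ⟨K, hKn, hKc, hK1⟩ := hO
      haveI := hKn
      have hlt : Nat.card (G ⧸ K) < n := by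
        rw [← hn]
        exact Cfsg.Agent.Helper1.card_quotient_lt_of_ne_bot K hK1
      exact pchain3_of_quot p K hKc (IH _ hlt (G ⧸ K) rfl
        (Cfsg.Agent.Helper20.isPSolvable_quotient p hsol K) (maxPN_quot p hmax K))
    · have hO' : ∀ K : Subgroup G, K.Normal → ¬ p ∣ Nat.card K → K = ⊥ := by
        intro K hKn hKc
        by_contra h
        exact hO ⟨K, hKn, hKc, h⟩
      have hpp : Cfsg.pPrimeCore p G = ⊥ := by
        unfold Cfsg.pPrimeCore
        rw [sSup_eq_bot]
        rintro K ⟨hKn, hKc⟩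
        exact hO' K hKn ((Nat.Prime.coprime_iff_not_dvd hp).1 hKc.symm)
      obtain ⟨V, hVdef⟩ : ∃ V : Subgroup G, V = Cfsg.pCore p G := ⟨_, rfl⟩
      haveI hVn : V.Normal := by rw [hVdef]; infer_instance
      have hVp : IsPGroup p V := by rw [hVdef]; exact Cfsg.Agent.Helper9.pCore_isPGroup p
      have hCV : Subgroup.centralizer (V : Set G) ≤ V := by
        rw [hVdef]
        exact Cfsg.Agent.Helper20.PLen.centralizer_pCore_le_of_psolvable p hsol hpp
      obtain ⟨a, ha⟩ := IsPGroup.iff_card.1 hVp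
      by_cases h2a : ∃ M : Subgroup G, IsCoatom M ∧ ¬ V ≤ M ∧
          ∃ K : Subgroup ↥M, K.Normal ∧ ¬ p ∣ Nat.card K ∧ ∃ k : ℕ, K.index = p ^ k
      · obtain ⟨M, hM, hVM, K, hKn, hKc, k, hKi⟩ := h2a
        have hsup : M ⊔ V = ⊤ :=
          hM.2 _ (lt_of_le_of_ne le_sup_left (fun h => hVM (by rw [h]; exact le_sup_right)))
        exact pchain3_of_pnil p V a ha M hsup K hKn hKc k hKi
      · have hprime : ∀ M : Subgroup G, IsCoatom M → ¬ V ≤ M → (M.index).Prime := by
          intro M hM hVM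
          rcases hmax M hM with h | h
          · exact absurd ⟨M, hM, hVM, h⟩ h2a
          · exact h
        by_cases hΦ : V ⊓ frattini G = ⊥
        · have key : ∀ g : G, g ^ (p - 1) ∈ V := by
            intro g
            apply hCV
            rw [Subgroup.mem_centralizer_iff]
            intro v hv
            have hv' : v ∈ V := hv
            have h1 : v⁻¹ * (g ^ (p - 1) * v * (g ^ (p - 1))⁻¹) ∈ V ⊓ frattini G := by
              refine Subgroup.mem_inf.2 ⟨V.mul_mem (V.inv_mem hv') (hVn.conj_mem v hv' _), ?_⟩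
              have hall : ∀ M : Subgroup G, IsCoatom M →
                  v⁻¹ * (g ^ (p - 1) * v * (g ^ (p - 1))⁻¹) ∈ M := by
                intro M hM
                by_cases hVM : V ≤ M
                · exact hVM (V.mul_mem (V.inv_mem hv') (hVn.conj_mem v hv' _))
                · exact hyper_pow p V a ha M hM hVM (hprime M hM hVM) g v hv'
              rw [frattini, Order.radical]
              simp only [Subgroup.mem_iInf]
              intro M hM
              exact hall M hM
            rw [hΦ, Subgroup.mem_bot] at h1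
            have h2 : g ^ (p - 1) * v * (g ^ (p - 1))⁻¹ = v := by
              have h3 : g ^ (p - 1) * v * (g ^ (p - 1))⁻¹
                  = v * (v⁻¹ * (g ^ (p - 1) * v * (g ^ (p - 1))⁻¹)) := by group
              rw [h3, h1, mul_one]
            calc v * g ^ (p - 1) = (g ^ (p - 1) * v * (g ^ (p - 1))⁻¹) * g ^ (p - 1) := by
                  rw [h2]
              _ = g ^ (p - 1) * v := by group
          have hidx : ¬ p ∣ V.index := by
            intro hd
            rw [Subgroup.index_eq_card] at hd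
            obtain ⟨x, hx⟩ := exists_prime_orderOf_dvd_card' p hd
            obtain ⟨g, rfl⟩ := QuotientGroup.mk_surjective x
            have h1 : (QuotientGroup.mk g : G ⧸ V) ^ (p - 1) = 1 := by
              rw [← QuotientGroup.mk_pow, QuotientGroup.eq_one_iff]
              exact key g
            have h2 := orderOf_dvd_of_pow_eq_one h1
            rw [hx] at h2
            have h3 := Nat.le_of_dvd (Nat.sub_pos_of_lt hp.one_lt) h2
            have h4 := hp.one_lt
            omega
          refine ⟨⊥, V, ⊤, inferInstance, hVn, inferInstance, bot_le, le_top,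
            ?_, ⟨a, ?_⟩, ?_, ⟨0, ?_⟩⟩
          · rw [Subgroup.card_bot]; exact hp.not_dvd_one
          · rw [Subgroup.relIndex_bot_left]; exact ha
          · rw [Subgroup.relIndex_top_right]; exact hidx
          · rw [Subgroup.index_top, pow_zero]
        · have hNp : IsPGroup p ↥(V ⊓ frattini G) := hVp.to_le inf_le_left
          obtain ⟨b, hb⟩ := IsPGroup.iff_card.1 hNp
          have hlt : Nat.card (G ⧸ (V ⊓ frattini G)) < n := by
            rw [← hn]
            exact Cfsg.Agent.Helper1.card_quotient_lt_of_ne_bot _ hΦ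
          have hq := IH _ hlt (G ⧸ (V ⊓ frattini G)) rfl
            (Cfsg.Agent.Helper20.isPSolvable_quotient p hsol _) (maxPN_quot p hmax _)
          exact pchain3_of_quot_p p (V ⊓ frattini G) b hb hq
            (fun X hX hNX hidx =>
              eq_of_frattini_pPrime p hO' (V ⊓ frattini G) hNp inf_le_right X hX hNX hidx)

end Cfsg.Agent.Helper12
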