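import Cfsg.Agent.Helper12.SL2Free

/-!
The quadratic-action theorem for a faithful action on a `p`-group, and sections inside a subgroup.
-/

set_option autoImplicit false

universe u

namespace Cfsg.Agent.Helper12

/-- Faithful action version of `pstab_gen_normalP`: an element acting quadratically on a
`p`-group on which the group acts faithfully lies in `O_p`. -/
theorem pstab_gen_faithful {N : Type u} [Group N] [Finite N] (p : ℕ) [Fact p.Prime]
    (hcore : ∀ H : Subgroup N, GL2CoreP p H) (hp : p ≠ 2) {P : Type u} [Group P] [Finite P]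
    (hP : IsPGroup p P) (ψ : N →* MulAut P) (hinj : Function.Injective ψ)
    (a : N) (hq : ∀ u : P, ψ a (ψ a u * u⁻¹) = ψ a u * u⁻¹) :
    a ∈ Cfsg.pCore p N := by
  classical
  obtain ⟨X, hX⟩ : ∃ X : Set N, X = {q | ∃ g : N, q = g * a * g⁻¹} := ⟨_, rfl⟩
  have hXn : ∀ (q x : N), x ∈ X → q * x * q⁻¹ ∈ X := by
    intro q x hx
    rw [hX] at hx ⊢
    obtain ⟨g, rfl⟩ := hx
    exact ⟨q * g, by group⟩
  have hXp : ∀ x ∈ X, ∀ y ∈ X, IsPGroup p (Subgroup.closure ({x, y} : Set N)) := by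
    intro x hx y hy
    rw [hX] at hx hy
    obtain ⟨g₁, rfl⟩ := hx
    obtain ⟨g₂, rfl⟩ := hy
    obtain ⟨b₁, hb₁⟩ : ∃ b₁ : N, b₁ = g₁ * a * g₁⁻¹ := ⟨_, rfl⟩
    obtain ⟨b₂, hb₂⟩ : ∃ b₂ : N, b₂ = g₂ * a * g₂⁻¹ := ⟨_, rfl⟩
    rw [← hb₁, ← hb₂]
    obtain ⟨H, hH⟩ : ∃ H : Subgroup N, H = Subgroup.closure ({b₁, b₂} : Set N) := ⟨_, rfl⟩
    have hb₁H : b₁ ∈ H := by rw [hH]; exact Subgroup.subset_closure (by simp)
    have hb₂H : b₂ ∈ H := by rw [hH]; exact Subgroup.subset_closure (by simp)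
    have hgen : Subgroup.closure ({⟨b₁, hb₁H⟩, ⟨b₂, hb₂H⟩} : Set H) = ⊤ := by
      subst hH
      have h1 := Subgroup.closure_closure_coe_preimage (k := ({b₁, b₂} : Set N))
      have h2 : ((↑) : Subgroup.closure ({b₁, b₂} : Set N) → N) ⁻¹' ({b₁, b₂} : Set N) =
          ({⟨b₁, hb₁H⟩, ⟨b₂, hb₂H⟩} : Set (Subgroup.closure ({b₁, b₂} : Set N))) := by
        ext z
        simp [Subtype.ext_iff]
      rw [h2] at h1
      exact h1
    have hqc : ∀ g : N, ∀ u : P,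
        ψ (g * a * g⁻¹) (ψ (g * a * g⁻¹) u * u⁻¹) = ψ (g * a * g⁻¹) u * u⁻¹ := by
      intro g u
      have h1 := hq ((ψ g)⁻¹ u)
      have h2 : ∀ w : P, ψ (g * a * g⁻¹) w = ψ g (ψ a ((ψ g)⁻¹ w)) := by
        intro w
        rw [map_mul, map_mul, map_inv]
        rfl
      rw [h2, h2]
      have h3 : (ψ g)⁻¹ (ψ g (ψ a ((ψ g)⁻¹ u)) * u⁻¹) = ψ a ((ψ g)⁻¹ u) * ((ψ g)⁻¹ u)⁻¹ := by
        rw [map_mul, map_inv, MulAut.inv_apply_self]
      rw [h3, h1, map_mul, map_inv, MulAut.apply_inv_self]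
    have key := quad_pgroup_genP p hp (hcore H) ⟨b₁, hb₁H⟩ ⟨b₂, hb₂H⟩ hgen (Nat.card P) P rfl hP
      (ψ.comp H.subtype)
      (by intro u; show ψ b₁ (ψ b₁ u * u⁻¹) = ψ b₁ u * u⁻¹; rw [hb₁]; exact hqc g₁ u)
      (by intro u; show ψ b₂ (ψ b₂ u * u⁻¹) = ψ b₂ u * u⁻¹; rw [hb₂]; exact hqc g₂ u)
    rw [← hH]
    intro h
    obtain ⟨k, hk⟩ := key h
    refine ⟨k, ?_⟩
    apply Subtype.ext
    apply hinj
    rw [Subgroup.coe_pow, map_pow, Subgroup.coe_one, map_one]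
    exact hk
  obtain ⟨M, hMn, hMp, hXM⟩ := Cfsg.Agent.Helper21.baer_suzuki_normal X hXn hXp
  apply Cfsg.Agent.Helper27.le_pCore hMn hMp
  apply hXM
  rw [hX]
  exact ⟨1, by simp⟩

/-- A surjection from a subgroup gives a section on that very subgroup. -/
theorem section_of_surj {H : Type*} [Group H] {G : Type*} [Group G] (K : Subgroup G)
    (f : K →* H) (hf : Function.Surjective f) :
    ∃ (L : Subgroup G) (_ : (L.subgroupOf K).Normal), Nonempty (K ⧸ L.subgroupOf K ≃* H) := by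
  have h : (f.ker.map K.subtype).subgroupOf K = f.ker :=
    Subgroup.comap_map_eq_self_of_injective K.subtype_injective _
  suffices hs : ∀ N' : Subgroup K, N' = f.ker → ∃ (_ : N'.Normal), Nonempty (K ⧸ N' ≃* H) from
    ⟨f.ker.map K.subtype, hs _ h⟩
  intro N' hN'
  subst hN'
  exact ⟨inferInstance, ⟨QuotientGroup.quotientKerEquivOfSurjective f hf⟩⟩

/-- A section of a subgroup of a subgroup `M`, realised inside `M`. -/
theorem section_le_of_involves {H : Type*} [Group H] {G : Type*} [Group G] (M : Subgroup G)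
    (M' : Subgroup M) (h : Cfsg.Involves H M') :
    ∃ (K L : Subgroup G) (_ : (L.subgroupOf K).Normal),
      K ≤ M ∧ Nonempty (K ⧸ L.subgroupOf K ≃* H) := by
  obtain ⟨K₀, f, hf⟩ := Cfsg.Agent.Helper27.involves_exists_surj h
  have hj : Function.Injective (M.subtype.comp M'.subtype) :=
    M.subtype_injective.comp M'.subtype_injective
  obtain ⟨L, hL, e⟩ := section_of_surj (K₀.map (M.subtype.comp M'.subtype))
    (f.comp (K₀.equivMapOfInjective _ hj).symm.toMonoidHom)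
    (hf.comp (K₀.equivMapOfInjective _ hj).symm.surjective)
  refine ⟨_, L, hL, ?_, e⟩
  rintro _ ⟨k, -, rfl⟩
  exact (M'.subtype k).2

end Cfsg.Agent.Helper12
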