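import Mathlib
import Cfsg.Agent.Helper10.PStabOdd

/-!
`p`-stability from a `GL₂` obstruction restricted to finite fields of characteristic `p`
(variants of the statements of `Helper10/QuadIrr`, `Helper10/QuadP`, `Helper10/PStabOdd`
with a weaker obstruction hypothesis).
-/

set_option autoImplicit false

universe u

namespace Cfsg.Agent.Helper12

open Cfsg.Agent.Helper10
open Polynomial
open scoped commutatorElement
open scoped IsMulCommutative

/-- The `GL₂` obstruction for finite fields of characteristic `p`: no representation of `H` by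
matrices of determinant one over a finite field of characteristic `p` contains both a nontrivial
upper and a nontrivial lower unitriangular matrix. -/
def GL2CoreP (p : ℕ) (H : Type*) [Group H] : Prop :=
  ∀ (F : Type) [Field F] [Finite F] [CharP F p] (ρ : H →* Matrix (Fin 2) (Fin 2) F),
    (∀ k, (ρ k).det = 1) → ∀ (x y : H) (a b : F), ρ x = !![1, a; 0, 1] → ρ y = !![1, 0; b, 1] →
    a ≠ 0 → b ≠ 0 → False

/-- The irreducible case. -/
theorem quad_irr_genP {W : Type*} [AddCommGroup W] [Finite W] {H : Type*} [Group H] [Finite H]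
    (p : ℕ) [Fact p.Prime] (hp : p ≠ 2) (hW : ∀ w : W, p • w = 0)
    (hcore : GL2CoreP p H) (φ : H →* AddMonoid.End W) (x y : H)
    (hgen : Subgroup.closure ({x, y} : Set H) = ⊤)
    (hx : ∀ w : W, φ x (φ x w - w) = φ x w - w) (hy : ∀ w : W, φ y (φ y w - w) = φ y w - w)
    (hirr : ∀ U : AddSubgroup W, (∀ h : H, ∀ u ∈ U, φ h u ∈ U) → U = ⊥ ∨ U = ⊤) :
    φ x = 1 ∧ φ y = 1 := by
  classical
  have hpp : p.Prime := Fact.out
  obtain ⟨A, hA⟩ : ∃ A : W →+ W, ∀ w, A w = φ x w - w :=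
    ⟨(φ x - 1 : AddMonoid.End W), fun w => rfl⟩
  obtain ⟨B, hB⟩ : ∃ B : W →+ W, ∀ w, B w = φ y w - w :=
    ⟨(φ y - 1 : AddMonoid.End W), fun w => rfl⟩
  have hφx : ∀ w, φ x w = w + A w := by intro w; rw [hA]; abel
  have hφy : ∀ w, φ y w = w + B w := by intro w; rw [hB]; abel
  have hAA : ∀ w, A (A w) = 0 := by
    intro w
    have h1 := hx w
    rw [← hA w, hφx (A w)] at h1
    exact add_eq_left.1 h1
  have hBB : ∀ w, B (B w) = 0 := by
    intro w
    have h1 := hy w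
    rw [← hB w, hφy (B w)] at h1
    exact add_eq_left.1 h1
  have hdone : (∀ w, A w = 0) → (∀ w, B w = 0) → φ x = 1 ∧ φ y = 1 := by
    intro h1 h2
    constructor
    · apply AddMonoidHom.ext; intro w; have h3 := hφx w; rw [h1 w, add_zero] at h3; exact h3
    · apply AddMonoidHom.ext; intro w; have h3 := hφy w; rw [h2 w, add_zero] at h3; exact h3
  have hinv : ∀ U : AddSubgroup W, (∀ u ∈ U, φ x u ∈ U) → (∀ u ∈ U, φ y u ∈ U) →
      ∀ h : H, ∀ u ∈ U, φ h u ∈ U := by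
    intro U h1 h2
    exact closure_pair_induction x y hgen (fun h => ∀ u ∈ U, φ h u ∈ U)
      (by intro u hu; rw [map_one]; exact hu)
      (by intro a b ha hb u hu; rw [map_mul]; exact ha _ (hb u hu)) h1 h2
  obtain ⟨W₁, hW₁⟩ : ∃ W₁ : AddSubgroup W, W₁ = AddMonoidHom.range A := ⟨_, rfl⟩
  obtain ⟨W₂, hW₂⟩ : ∃ W₂ : AddSubgroup W, W₂ = AddMonoidHom.range B := ⟨_, rfl⟩
  obtain ⟨C₁, hC₁⟩ : ∃ C₁ : AddSubgroup W, C₁ = AddMonoidHom.ker A := ⟨_, rfl⟩
  obtain ⟨C₂, hC₂⟩ : ∃ C₂ : AddSubgroup W, C₂ = AddMonoidHom.ker B := ⟨_, rfl⟩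
  have hmemW₁ : ∀ w, A w ∈ W₁ := fun w => by rw [hW₁]; exact ⟨w, rfl⟩
  have hmemW₂ : ∀ w, B w ∈ W₂ := fun w => by rw [hW₂]; exact ⟨w, rfl⟩
  have hmemC₁ : ∀ w, w ∈ C₁ ↔ A w = 0 := fun w => by rw [hC₁, AddMonoidHom.mem_ker]
  have hmemC₂ : ∀ w, w ∈ C₂ ↔ B w = 0 := fun w => by rw [hC₂, AddMonoidHom.mem_ker]
  have h11 : W₁ ≤ C₁ := by
    rw [hW₁]; rintro _ ⟨w, rfl⟩; rw [hmemC₁]; exact hAA w
  have h22 : W₂ ≤ C₂ := by
    rw [hW₂]; rintro _ ⟨w, rfl⟩; rw [hmemC₂]; exact hBB w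
  have hUx : ∀ u ∈ W₁ ⊔ W₂, φ x u ∈ W₁ ⊔ W₂ := by
    intro u hu
    obtain ⟨a, ha, b, hb, rfl⟩ := AddSubgroup.mem_sup.1 hu
    rw [hφx, map_add, (hmemC₁ a).1 (h11 ha), zero_add]
    have h3 : a + b + A b = (a + A b) + b := by abel
    rw [h3]
    exact AddSubgroup.add_mem_sup (W₁.add_mem ha (hmemW₁ b)) hb
  have hUy : ∀ u ∈ W₁ ⊔ W₂, φ y u ∈ W₁ ⊔ W₂ := by
    intro u hu
    obtain ⟨a, ha, b, hb, rfl⟩ := AddSubgroup.mem_sup.1 hu
    rw [hφy, map_add, (hmemC₂ b).1 (h22 hb), add_zero]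
    have h3 : a + b + B a = a + (b + B a) := by abel
    rw [h3]
    exact AddSubgroup.add_mem_sup ha (W₂.add_mem hb (hmemW₂ a))
  rcases hirr _ (hinv _ hUx hUy) with hbot | htop
  · apply hdone
    · intro w
      have h3 : W₁ ≤ W₁ ⊔ W₂ := le_sup_left
      rw [hbot] at h3
      exact AddSubgroup.mem_bot.1 (h3 (hmemW₁ w))
    · intro w
      have h3 : W₂ ≤ W₁ ⊔ W₂ := le_sup_right
      rw [hbot] at h3
      exact AddSubgroup.mem_bot.1 (h3 (hmemW₂ w))
  have hCx : ∀ u ∈ C₁ ⊓ C₂, φ x u ∈ C₁ ⊓ C₂ := by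
    intro u hu
    rw [hφx, (hmemC₁ u).1 (AddSubgroup.mem_inf.1 hu).1, add_zero]; exact hu
  have hCy : ∀ u ∈ C₁ ⊓ C₂, φ y u ∈ C₁ ⊓ C₂ := by
    intro u hu
    rw [hφy, (hmemC₂ u).1 (AddSubgroup.mem_inf.1 hu).2, add_zero]; exact hu
  rcases hirr _ (hinv _ hCx hCy) with hbot2 | htop2
  swap
  · apply hdone
    · intro w
      have h3 : w ∈ C₁ ⊓ C₂ := by rw [htop2]; trivial
      exact (hmemC₁ w).1 (AddSubgroup.mem_inf.1 h3).1
    · intro w
      have h3 : w ∈ C₁ ⊓ C₂ := by rw [htop2]; trivial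
      exact (hmemC₂ w).1 (AddSubgroup.mem_inf.1 h3).2
  -- cardinalities
  have c1 : Nat.card W₁ * Nat.card C₁ = Nat.card W := by
    have h1 := AddSubgroup.card_mul_index C₁
    have h2 : C₁.index = Nat.card W₁ := by rw [hC₁, hW₁]; exact AddSubgroup.index_ker A
    rw [h2] at h1; rw [mul_comm]; exact h1
  have c2 : Nat.card W₂ * Nat.card C₂ = Nat.card W := by
    have h1 := AddSubgroup.card_mul_index C₂
    have h2 : C₂.index = Nat.card W₂ := by rw [hC₂, hW₂]; exact AddSubgroup.index_ker B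
    rw [h2] at h1; rw [mul_comm]; exact h1
  have c3 : Nat.card W ≤ Nat.card W₁ * Nat.card W₂ := by
    rw [← Nat.card_prod]
    apply Nat.card_le_card_of_surjective (fun ab : W₁ × W₂ => (ab.1 : W) + (ab.2 : W))
    intro w
    have hw : w ∈ W₁ ⊔ W₂ := by rw [htop]; trivial
    obtain ⟨a, ha, b, hb, rfl⟩ := AddSubgroup.mem_sup.1 hw
    exact ⟨(⟨a, ha⟩, ⟨b, hb⟩), rfl⟩
  have c4 : Nat.card C₁ * Nat.card C₂ ≤ Nat.card W := by
    rw [← Nat.card_prod]
    apply Nat.card_le_card_of_injective (fun ab : C₁ × C₂ => (ab.1 : W) + (ab.2 : W))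
    rintro ⟨a, b⟩ ⟨a', b'⟩ hab
    have hab' : (a : W) + (b : W) = (a' : W) + (b' : W) := hab
    have h1 : (a : W) - a' = b' - b := by
      rw [sub_eq_sub_iff_add_eq_add, hab', add_comm]
    have h2 : (a : W) - a' ∈ C₁ ⊓ C₂ :=
      AddSubgroup.mem_inf.2 ⟨C₁.sub_mem a.2 a'.2, by rw [h1]; exact C₂.sub_mem b'.2 b.2⟩
    rw [hbot2, AddSubgroup.mem_bot, sub_eq_zero] at h2
    have h3 : (b : W) = b' := by rw [h2] at hab'; exact add_left_cancel hab'
    exact Prod.ext (Subtype.ext h2) (Subtype.ext h3)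
  have c5 : Nat.card W₁ ≤ Nat.card C₁ := AddSubgroup.card_le_of_le h11
  have c6 : Nat.card W₂ ≤ Nat.card C₂ := AddSubgroup.card_le_of_le h22
  have e1 : Nat.card W₁ = Nat.card C₁ := by
    have h1 : Nat.card C₁ * Nat.card W₂ ≤ Nat.card W₁ * Nat.card W₂ :=
      le_trans (Nat.mul_le_mul_left _ c6) (le_trans c4 c3)
    exact le_antisymm c5 (Nat.le_of_mul_le_mul_right h1 Nat.card_pos)
  have e2 : Nat.card W₂ = Nat.card C₂ := by
    have h1 : Nat.card W₁ * Nat.card C₂ ≤ Nat.card W₁ * Nat.card W₂ :=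
      le_trans (Nat.mul_le_mul_right _ c5) (le_trans c4 c3)
    exact le_antisymm c6 (Nat.le_of_mul_le_mul_left h1 Nat.card_pos)
  have hWC₁ : W₁ = C₁ := AddSubgroup.eq_of_le_of_card_ge h11 e1.ge
  have hWC₂ : W₂ = C₂ := AddSubgroup.eq_of_le_of_card_ge h22 e2.ge
  have f1 : ∀ w, A w = 0 → w ∈ W₁ := fun w hw => by rw [hWC₁, hmemC₁]; exact hw
  have f1' : ∀ w, w ∈ W₁ → A w = 0 := fun w hw => (hmemC₁ w).1 (h11 hw)
  have f2 : ∀ w, B w = 0 → w ∈ W₂ := fun w hw => by rw [hWC₂, hmemC₂]; exact hw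
  have f2' : ∀ w, w ∈ W₂ → B w = 0 := fun w hw => (hmemC₂ w).1 (h22 hw)
  have f3 : ∀ w, w ∈ W₁ → w ∈ W₂ → w = 0 := by
    intro w h1 h2
    have h3 : w ∈ C₁ ⊓ C₂ := AddSubgroup.mem_inf.2 ⟨h11 h1, h22 h2⟩
    rw [hbot2] at h3
    exact AddSubgroup.mem_bot.1 h3
  -- trivial module
  by_cases hsub : Subsingleton W
  · exact hdone (fun w => Subsingleton.elim _ _) (fun w => Subsingleton.elim _ _)
  rw [not_subsingleton_iff_nontrivial] at hsub
  have hW₂nt : Nontrivial W₂ := by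
    rw [← Finite.one_lt_card_iff_nontrivial]
    have h1 : 1 < Nat.card W := Finite.one_lt_card_iff_nontrivial.2 hsub
    rw [← c2, ← e2] at h1
    by_contra h3
    have h4 : Nat.card W₂ = 1 := le_antisymm (not_lt.1 h3) Nat.card_pos
    rw [h4] at h1
    exact absurd h1 (by norm_num)
  -- the operator T = B A on W₂
  obtain ⟨T, hT⟩ : ∃ T : AddMonoid.End W₂, ∀ w : W₂, ((T w : W₂) : W) = B (A (w : W)) :=
    ⟨AddMonoidHom.codRestrict ((B.comp A).comp W₂.subtype) W₂ (fun w => hmemW₂ _), fun w => rfl⟩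
  have hTinj : Function.Injective T := by
    apply (injective_iff_map_eq_zero T).2
    intro w hw
    have h1 : B (A (w : W)) = 0 := by rw [← hT, hw]; rfl
    have h3 : A (w : W) = 0 := f3 _ (hmemW₁ _) (f2 _ h1)
    exact Subtype.ext (f3 _ (f1 _ h3) w.2)
  obtain ⟨n, hn0, hTn⟩ : ∃ n : ℕ, 0 < n ∧ T ^ n = 1 := by
    haveI : Finite (AddMonoid.End W₂) :=
      Finite.of_injective (fun f : AddMonoid.End W₂ => (f : W₂ → W₂)) DFunLike.coe_injective
    have hpowinj : ∀ k : ℕ, Function.Injective (T ^ k) := by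
      intro k
      induction k with
      | zero => rw [pow_zero]; exact fun a b h => h
      | succ k ih => rw [pow_succ]; exact fun a b h => hTinj (ih h)
    have hex : ∃ i j : ℕ, i < j ∧ T ^ i = T ^ j := by
      obtain ⟨i, j, hij, hTij⟩ := Finite.exists_ne_map_eq_of_infinite (fun k : ℕ => T ^ k)
      have hTij' : T ^ i = T ^ j := hTij
      rcases lt_or_gt_of_ne hij with h | h
      · exact ⟨i, j, h, hTij'⟩
      · exact ⟨j, i, h, hTij'.symm⟩
    obtain ⟨i, j, hlt, hTij⟩ := hex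
    refine ⟨j - i, Nat.sub_pos_of_lt hlt, ?_⟩
    apply AddMonoidHom.ext
    intro w
    apply hpowinj i
    have h3 : T ^ i * T ^ (j - i) = T ^ j := by rw [← pow_add, Nat.add_sub_cancel' hlt.le]
    calc (T ^ i) ((T ^ (j - i)) w) = (T ^ i * T ^ (j - i)) w := rfl
      _ = (T ^ j) w := by rw [h3]
      _ = (T ^ i) w := by rw [hTij]
  -- polynomial action
  obtain ⟨ev, hevX⟩ : ∃ ev : ℤ[X] →+* AddMonoid.End W₂, ev X = T :=
    ⟨(Polynomial.aeval T).toRingHom, Polynomial.aeval_X T⟩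
  have hIne : RingHom.ker ev ≠ ⊤ := by
    intro h
    have h1 : (1 : ℤ[X]) ∈ RingHom.ker ev := by rw [h]; trivial
    rw [RingHom.mem_ker, map_one] at h1
    obtain ⟨w₀, hw₀⟩ : ∃ w₀ : W₂, w₀ ≠ 0 := exists_ne 0
    exact hw₀ (DFunLike.congr_fun h1 w₀)
  obtain ⟨𝔫, h𝔫max, hI𝔫⟩ := Ideal.exists_le_maximal _ hIne
  haveI := h𝔫max
  letI : Field (ℤ[X] ⧸ 𝔫) := Ideal.Quotient.field 𝔫
  have hker : ∀ f g : ℤ[X], ev f = ev g → Ideal.Quotient.mk 𝔫 f = Ideal.Quotient.mk 𝔫 g := by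
    intro f g hfg
    rw [Ideal.Quotient.eq]
    apply hI𝔫
    rw [RingHom.mem_ker, map_sub, hfg, sub_self]
  have ht : Ideal.Quotient.mk 𝔫 (X : ℤ[X]) ≠ 0 := by
    intro h
    have h1 : Ideal.Quotient.mk 𝔫 ((X : ℤ[X]) ^ n) = Ideal.Quotient.mk 𝔫 1 :=
      hker _ _ (by rw [map_pow, hevX, hTn, map_one])
    rw [map_pow, h, zero_pow hn0.ne', map_one] at h1
    exact zero_ne_one h1
  have h2E : (2 : ℤ[X] ⧸ 𝔫) ≠ 0 := by
    intro h
    have h1 : Ideal.Quotient.mk 𝔫 ((p : ℕ) : ℤ[X]) = Ideal.Quotient.mk 𝔫 0 := by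
      apply hker
      rw [map_natCast, map_zero]
      apply AddMonoidHom.ext
      intro w
      show p • w = 0
      exact Subtype.ext (hW (w : W))
    rw [map_natCast, map_zero] at h1
    obtain ⟨m, hm⟩ := hpp.eq_two_or_odd'.resolve_left hp
    rw [hm] at h1
    push_cast at h1
    rw [h, zero_mul, zero_add] at h1
    exact one_ne_zero h1
  -- representing matrices
  have hΘinj : ∀ u u' v v' : W₂, (u : W) + A (u' : W) = (v : W) + A (v' : W) → u = v ∧ u' = v' := by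
    intro u u' v v' h
    have h1 : (u : W) - v = A ((v' : W) - u') := by
      rw [map_sub, sub_eq_sub_iff_add_eq_add, h, add_comm]
    have h3 : (u : W) - v = 0 := f3 _ (by rw [h1]; exact hmemW₁ _) (W₂.sub_mem u.2 v.2)
    have h4 : (v' : W) - u' = 0 := by
      apply f3 _ (f1 _ _) (W₂.sub_mem v'.2 u'.2)
      rw [← h1, h3]
    exact ⟨Subtype.ext (sub_eq_zero.1 h3), Subtype.ext (sub_eq_zero.1 h4).symm⟩
  have hRx : QuadRep W₂ A ev (φ x) !![1, 0; 1, 1] := by
    intro w w'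
    have e1 : ev ((!![1, 0; 1, 1] : Matrix (Fin 2) (Fin 2) ℤ[X]) 0 0) = 1 := by simp
    have e2 : ev ((!![1, 0; 1, 1] : Matrix (Fin 2) (Fin 2) ℤ[X]) 0 1) = 0 := by simp
    have e3 : ev ((!![1, 0; 1, 1] : Matrix (Fin 2) (Fin 2) ℤ[X]) 1 0) = 1 := by simp
    have e4 : ev ((!![1, 0; 1, 1] : Matrix (Fin 2) (Fin 2) ℤ[X]) 1 1) = 1 := by simp
    rw [e1, e2, e3, e4]
    have h3 := hφx ((w : W) + A (w' : W))
    rw [map_add A, hAA, add_zero] at h3
    refine h3.trans ?_
    show (w : W) + A (w' : W) + A (w : W) = ((w + 0 : W₂) : W) + A ((w + w' : W₂) : W)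
    rw [add_zero, AddSubgroup.coe_add, map_add]
    abel
  have hRy : QuadRep W₂ A ev (φ y) !![1, X; 0, 1] := by
    intro w w'
    have e1 : ev ((!![1, X; 0, 1] : Matrix (Fin 2) (Fin 2) ℤ[X]) 0 0) = 1 := by simp
    have e2 : ev ((!![1, X; 0, 1] : Matrix (Fin 2) (Fin 2) ℤ[X]) 0 1) = T := by simp [hevX]
    have e3 : ev ((!![1, X; 0, 1] : Matrix (Fin 2) (Fin 2) ℤ[X]) 1 0) = 0 := by simp
    have e4 : ev ((!![1, X; 0, 1] : Matrix (Fin 2) (Fin 2) ℤ[X]) 1 1) = 1 := by simp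
    rw [e1, e2, e3, e4]
    have h3 := hφy ((w : W) + A (w' : W))
    rw [map_add B, f2' _ w.2, zero_add] at h3
    refine h3.trans ?_
    show (w : W) + A (w' : W) + B (A (w' : W)) = ((w + T w' : W₂) : W) + A ((0 + w' : W₂) : W)
    rw [zero_add, AddSubgroup.coe_add, hT]
    abel
  have hex : ∀ h : H, ∃ M : Matrix (Fin 2) (Fin 2) ℤ[X], QuadRep W₂ A ev (φ h) M := by
    apply closure_pair_induction x y hgen
    · exact ⟨1, by rw [map_one]; exact quadRep_one W₂ A ev⟩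
    · rintro a b ⟨M, hM⟩ ⟨M', hM'⟩
      exact ⟨M * M', by rw [map_mul]; exact quadRep_mul W₂ A ev _ _ M M' hM hM'⟩
    · exact ⟨_, hRx⟩
    · exact ⟨_, hRy⟩
  have huniq : ∀ (h : H) (M M' : Matrix (Fin 2) (Fin 2) ℤ[X]), QuadRep W₂ A ev (φ h) M →
      QuadRep W₂ A ev (φ h) M' →
      (Ideal.Quotient.mk 𝔫).mapMatrix M = (Ideal.Quotient.mk 𝔫).mapMatrix M' := by
    intro h M M' hM hM'
    have hrow : ∀ i : Fin 2, ev (M i 0) = ev (M' i 0) ∧ ev (M i 1) = ev (M' i 1) := by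
      have h0 : ∀ w w' : W₂, (ev (M 0 0) w + ev (M 0 1) w' = ev (M' 0 0) w + ev (M' 0 1) w') ∧
          (ev (M 1 0) w + ev (M 1 1) w' = ev (M' 1 0) w + ev (M' 1 1) w') := by
        intro w w'
        exact hΘinj _ _ _ _ ((hM w w').symm.trans (hM' w w'))
      have hrow' : ∀ i : Fin 2, ∀ w w' : W₂,
          ev (M i 0) w + ev (M i 1) w' = ev (M' i 0) w + ev (M' i 1) w' := by
        intro i
        revert i
        rw [Fin.forall_fin_two]
        exact ⟨fun w w' => (h0 w w').1, fun w w' => (h0 w w').2⟩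
      intro i
      constructor
      · apply AddMonoidHom.ext
        intro w
        have h3 := hrow' i w 0
        rw [map_zero, map_zero, add_zero, add_zero] at h3
        exact h3
      · apply AddMonoidHom.ext
        intro w'
        have h3 := hrow' i 0 w'
        rw [map_zero, map_zero, zero_add, zero_add] at h3
        exact h3
    ext i j
    rw [RingHom.mapMatrix_apply, RingHom.mapMatrix_apply, Matrix.map_apply, Matrix.map_apply]
    revert j
    rw [Fin.forall_fin_two]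
    exact ⟨hker _ _ (hrow i).1, hker _ _ (hrow i).2⟩
  obtain ⟨ρ, hρ⟩ : ∃ ρ : H →* Matrix (Fin 2) (Fin 2) (ℤ[X] ⧸ 𝔫),
      ∀ (h : H) (M : Matrix (Fin 2) (Fin 2) ℤ[X]), QuadRep W₂ A ev (φ h) M →
        ρ h = (Ideal.Quotient.mk 𝔫).mapMatrix M := by
    refine ⟨{ toFun := fun h => (Ideal.Quotient.mk 𝔫).mapMatrix (Classical.choose (hex h))
              map_one' := ?_
              map_mul' := ?_ }, ?_⟩
    · have h1 := huniq 1 _ 1 (Classical.choose_spec (hex 1))
        (by rw [map_one]; exact quadRep_one W₂ A ev)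
      rw [h1, map_one]
    · intro a b
      have h0 : QuadRep W₂ A ev (φ (a * b))
          (Classical.choose (hex a) * Classical.choose (hex b)) := by
        rw [map_mul]
        exact quadRep_mul W₂ A ev _ _ _ _ (Classical.choose_spec (hex a))
          (Classical.choose_spec (hex b))
      have h1 := huniq (a * b) _ _ (Classical.choose_spec (hex (a * b))) h0
      rw [h1, map_mul]
    · intro h M hM
      exact huniq h _ M (Classical.choose_spec (hex h)) hM
  have hρx : ρ x = !![1, 0; 1, 1] := by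
    rw [hρ x _ hRx]
    ext i j
    revert i j
    simp [Fin.forall_fin_two]
  have hρy : ρ y = !![1, Ideal.Quotient.mk 𝔫 X; 0, 1] := by
    rw [hρ y _ hRy]
    ext i j
    revert i j
    simp [Fin.forall_fin_two]
  have hdet : ∀ h : H, (ρ h).det = 1 := by
    apply closure_pair_induction x y hgen
    · rw [map_one, Matrix.det_one]
    · intro a b ha hb
      rw [map_mul, Matrix.det_mul, ha, hb, one_mul]
    · rw [hρx, Matrix.det_fin_two_of]; ring
    · rw [hρy, Matrix.det_fin_two_of]; ring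
  have hp0 : ((p : ℕ) : ℤ[X] ⧸ 𝔫) = 0 := by
    have h1 : Ideal.Quotient.mk 𝔫 ((p : ℕ) : ℤ[X]) = Ideal.Quotient.mk 𝔫 0 := by
      apply hker
      rw [map_natCast, map_zero]
      apply AddMonoidHom.ext
      intro w
      show p • w = 0
      exact Subtype.ext (hW (w : W))
    rw [map_natCast, map_zero] at h1
    exact h1
  haveI hcharE : CharP (ℤ[X] ⧸ 𝔫) p := by
    obtain ⟨q, hq⟩ := CharP.exists (ℤ[X] ⧸ 𝔫)
    have hdvd : q ∣ p := (CharP.cast_eq_zero_iff (ℤ[X] ⧸ 𝔫) q p).1 hp0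
    rcases (Nat.dvd_prime hpp).1 hdvd with h1 | h1
    · exact absurd h1 (CharP.char_ne_one (ℤ[X] ⧸ 𝔫) q)
    · rw [← h1]; exact hq
  haveI hfinE : Finite (ℤ[X] ⧸ 𝔫) := by
    haveI : Finite (AddMonoid.End W₂) :=
      Finite.of_injective (fun f : AddMonoid.End W₂ => (f : W₂ → W₂)) DFunLike.coe_injective
    apply Finite.of_surjective
      (fun r : Set.range ev => Ideal.Quotient.mk 𝔫 (Classical.choose r.2))
    intro e
    obtain ⟨f, rfl⟩ := Ideal.Quotient.mk_surjective e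
    refine ⟨⟨ev f, f, rfl⟩, ?_⟩
    exact hker _ _ (Classical.choose_spec (⟨ev f, f, rfl⟩ : Set.range ev).2)
  exact (hcore _ ρ hdet y x _ 1 hρy hρx ht one_ne_zero).elim

/-- Two quadratic generators induce a `p`-group. -/
theorem quad_pgroup_genP (p : ℕ) [Fact p.Prime] (hp : p ≠ 2) {H : Type*} [Group H] [Finite H]
    (hcore : GL2CoreP p H) (x y : H) (hgen : Subgroup.closure ({x, y} : Set H) = ⊤) :
    ∀ (n : ℕ) (P : Type u) [Group P] [Finite P], Nat.card P = n → IsPGroup p P →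
      ∀ (φ : H →* MulAut P),
      (∀ u : P, φ x (φ x u * u⁻¹) = φ x u * u⁻¹) → (∀ u : P, φ y (φ y u * u⁻¹) = φ y u * u⁻¹) →
      ∀ h : H, ∃ k : ℕ, (φ h) ^ (p ^ k) = 1 := by
  intro n
  induction n using Nat.strong_induction_on with
  | _ n ih =>
  intro P _ _ hn hP φ hqx hqy
  classical
  have hpp : p.Prime := Fact.out
  by_cases hred : ∃ P₁ : Subgroup P, P₁.Normal ∧ P₁ ≠ ⊥ ∧ P₁ ≠ ⊤ ∧
      ∀ h : H, ∀ u ∈ P₁, φ h u ∈ P₁
  · obtain ⟨P₁, hP₁n, hP₁bot, hP₁top, hinv⟩ := hred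
    haveI := hP₁n
    have hc1 : Nat.card P₁ < n := by
      rw [← hn]
      by_contra hcon
      exact hP₁top (Subgroup.eq_top_of_card_eq P₁
        (le_antisymm (Subgroup.card_le_card_group P₁) (not_lt.1 hcon)))
    have hc2 : Nat.card (P ⧸ P₁) < n := by
      rw [← hn, ← Subgroup.card_mul_index P₁]
      have h1 : 1 < Nat.card P₁ := by
        by_contra hcon
        exact hP₁bot (Subgroup.eq_bot_of_card_le P₁ (not_lt.1 hcon))
      have h2 : 0 < P₁.index := Nat.pos_of_ne_zero (Subgroup.index_ne_zero_of_finite)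
      rw [Subgroup.index_eq_card] at h2 ⊢
      nlinarith
    have ih1 := ih _ hc1 P₁ rfl (hP.to_subgroup P₁) (restrictAct φ P₁ hinv)
      (by intro u; apply Subtype.ext; exact hqx u) (by intro u; apply Subtype.ext; exact hqy u)
    have ih2 := ih _ hc2 (P ⧸ P₁) rfl (hP.to_quotient P₁) (quotAct φ P₁ hinv)
      (by
        intro q
        induction q using QuotientGroup.induction_on with | _ u =>
        rw [quotAct_mk, ← QuotientGroup.mk_inv, ← QuotientGroup.mk_mul, quotAct_mk, hqx u])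
      (by
        intro q
        induction q using QuotientGroup.induction_on with | _ u =>
        rw [quotAct_mk, ← QuotientGroup.mk_inv, ← QuotientGroup.mk_mul, quotAct_mk, hqy u])
    intro h
    obtain ⟨k₁, hk₁⟩ := ih1 h
    obtain ⟨k₂, hk₂⟩ := ih2 h
    obtain ⟨j, hj⟩ := IsPGroup.iff_card.1 hP
    refine ⟨k₁ + k₂ + j, ?_⟩
    obtain ⟨g, hg⟩ : ∃ g : H, g = h ^ p ^ (k₁ + k₂) := ⟨_, rfl⟩
    have hg1 : ∀ u ∈ P₁, φ g u = u := by
      intro u hu
      have h1 : restrictAct φ P₁ hinv g = 1 := by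
        rw [hg, map_pow, pow_add, pow_mul, hk₁, one_pow]
      exact congrArg (fun e : MulAut P₁ => ((e ⟨u, hu⟩ : P₁) : P)) h1
    have hg2 : ∀ u : P, u⁻¹ * φ g u ∈ P₁ := by
      intro u
      have h1 : quotAct φ P₁ hinv g = 1 := by
        rw [hg, map_pow, pow_add, pow_mul', hk₂, one_pow]
      have h3 := congrArg (fun e : MulAut (P ⧸ P₁) => e (QuotientGroup.mk u)) h1
      simp only [quotAct_mk, MulAut.one_apply] at h3
      exact QuotientGroup.eq.1 h3.symm
    have hpow : ∀ (m : ℕ) (u : P), ((φ g) ^ m) u = u * (u⁻¹ * φ g u) ^ m := by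
      intro m
      induction m with
      | zero => intro u; simp
      | succ m ihm =>
        intro u
        rw [pow_succ', MulAut.mul_apply, ihm u, map_mul, map_pow, hg1 _ (hg2 u),
          pow_succ' (u⁻¹ * φ g u) m, ← mul_assoc u, mul_inv_cancel_left]
    apply MulEquiv.ext
    intro u
    have h1 : (φ h) ^ p ^ (k₁ + k₂ + j) = (φ g) ^ (p ^ j) := by
      rw [hg, map_pow, ← pow_mul, ← pow_add]
    rw [h1, hpow, ← hj, pow_card_eq_one', mul_one]; rfl
  · have hnone : ∀ P₁ : Subgroup P, P₁.Normal → (∀ h : H, ∀ u ∈ P₁, φ h u ∈ P₁) →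
        P₁ = ⊥ ∨ P₁ = ⊤ := by
      intro P₁ h1 h2
      by_contra hcon
      rw [not_or] at hcon
      exact hred ⟨P₁, h1, hcon.1, hcon.2, h2⟩
    by_cases hsub : Subsingleton P
    · intro h
      exact ⟨0, by apply MulEquiv.ext; intro u; exact Subsingleton.elim _ _⟩
    rw [not_subsingleton_iff_nontrivial] at hsub
    have hZinv : ∀ h : H, ∀ u ∈ Subgroup.center P, φ h u ∈ Subgroup.center P := by
      intro h u hu
      rw [Subgroup.mem_center_iff] at hu ⊢
      intro g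
      have hg : g = φ h ((φ h)⁻¹ g) := by simp
      rw [hg, ← map_mul, ← map_mul, hu]
    have hZtop : Subgroup.center P = ⊤ := by
      rcases hnone _ inferInstance hZinv with h | h
      · have h1 := hP.center_nontrivial
        exact absurd h ((Subgroup.nontrivial_iff_ne_bot _).1 h1)
      · exact h
    have hmemZ : ∀ u : P, u ∈ Subgroup.center P := fun u => by rw [hZtop]; trivial
    have hcomm : ∀ a b : P, a * b = b * a := fun a b => Subgroup.mem_center_iff.1 (hmemZ b) a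
    have hexp : ∀ u : P, u ^ p = 1 := by
      obtain ⟨Ω, hΩ⟩ : ∃ Ω : Subgroup P, ∀ u, u ∈ Ω ↔ u ^ p = 1 :=
        ⟨{ carrier := {u | u ^ p = 1}
           mul_mem' := fun {a b} ha hb => by
             show (a * b) ^ p = 1
             rw [Commute.mul_pow (hcomm a b) p, ha, hb, one_mul]
           one_mem' := one_pow p
           inv_mem' := fun {a} ha => by
             show a⁻¹ ^ p = 1
             rw [inv_pow, ha, inv_one] }, fun u => Iff.rfl⟩
      have hΩn : Ω.Normal := by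
        refine ⟨fun u hu g => ?_⟩
        rw [hΩ] at hu ⊢
        rw [conj_pow, hu, mul_one, mul_inv_cancel]
      have hΩinv : ∀ h : H, ∀ u ∈ Ω, φ h u ∈ Ω := by
        intro h u hu
        rw [hΩ] at hu ⊢
        rw [← map_pow, hu, map_one]
      rcases hnone Ω hΩn hΩinv with h | h
      · exfalso
        have hdvd : p ∣ Nat.card P := by
          rcases hP.card_eq_or_dvd with h1 | h1
          · exact absurd (Finite.one_lt_card_iff_nontrivial.2 hsub) (by rw [h1]; exact lt_irrefl 1)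
          · exact h1
        obtain ⟨u, hu⟩ := exists_prime_orderOf_dvd_card' p hdvd
        have hu1 : u ∈ Ω := by rw [hΩ, ← hu]; exact pow_orderOf_eq_one u
        rw [h, Subgroup.mem_bot] at hu1
        rw [hu1, orderOf_one] at hu
        exact hpp.one_lt.ne hu
      · intro u
        have hu : u ∈ Ω := by rw [h]; trivial
        exact (hΩ u).1 hu
    -- the linearised action on the centre
    obtain ⟨φ', hφ'⟩ : ∃ φ' : H →* AddMonoid.End (Additive (Subgroup.center P)),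
        ∀ (h : H) (w : Additive (Subgroup.center P)),
          φ' h w = Additive.ofMul (restrictAct φ (Subgroup.center P) hZinv h (Additive.toMul w)) :=
      ⟨(Cfsg.Agent.Helper1.autToEnd (Subgroup.center P)).comp
        (restrictAct φ (Subgroup.center P) hZinv), fun h w => rfl⟩
    have hW : ∀ w : Additive (Subgroup.center P), p • w = 0 := by
      intro w
      apply Additive.toMul.injective
      rw [toMul_nsmul, toMul_zero]
      exact Subtype.ext (hexp _)
    have hquad : ∀ z : H, (∀ u : P, φ z (φ z u * u⁻¹) = φ z u * u⁻¹) →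
        ∀ w : Additive (Subgroup.center P), φ' z (φ' z w - w) = φ' z w - w := by
      intro z hz w
      rw [hφ', hφ']
      apply Additive.toMul.injective
      show restrictAct φ (Subgroup.center P) hZinv z
          (restrictAct φ (Subgroup.center P) hZinv z (Additive.toMul w) / Additive.toMul w) =
        restrictAct φ (Subgroup.center P) hZinv z (Additive.toMul w) / Additive.toMul w
      rw [div_eq_mul_inv]
      apply Subtype.ext
      exact hz ((Additive.toMul w : Subgroup.center P) : P)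
    have hirr : ∀ U : AddSubgroup (Additive (Subgroup.center P)),
        (∀ h : H, ∀ u ∈ U, φ' h u ∈ U) → U = ⊥ ∨ U = ⊤ := by
      intro U hU
      obtain ⟨P₁, hP₁⟩ : ∃ P₁ : Subgroup P, ∀ u : P, u ∈ P₁ ↔
          ∃ hu : u ∈ Subgroup.center P, Additive.ofMul (⟨u, hu⟩ : Subgroup.center P) ∈ U := by
        refine ⟨(Subgroup.toAddSubgroup.symm U).map (Subgroup.center P).subtype, fun u => ?_⟩
        constructor
        · rintro ⟨z, hz, rfl⟩
          exact ⟨z.2, hz⟩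
        · rintro ⟨hu, hz⟩
          exact ⟨⟨u, hu⟩, hz, rfl⟩
      have hP₁n : P₁.Normal := by
        refine ⟨fun u hu g => ?_⟩
        have h1 : g * u * g⁻¹ = u := by rw [hcomm g u, mul_inv_cancel_right]
        rw [h1]; exact hu
      have hP₁inv : ∀ h : H, ∀ u ∈ P₁, φ h u ∈ P₁ := by
        intro h u hu
        rw [hP₁] at hu ⊢
        obtain ⟨hu1, hu2⟩ := hu
        refine ⟨hZinv h u hu1, ?_⟩
        have h1 := hU h _ hu2
        rw [hφ'] at h1
        exact h1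
      rcases hnone P₁ hP₁n hP₁inv with h | h
      · left
        rw [eq_bot_iff]
        intro w hw
        have h1 : ((Additive.toMul w : Subgroup.center P) : P) ∈ P₁ := by
          rw [hP₁]; exact ⟨(Additive.toMul w).2, hw⟩
        rw [h, Subgroup.mem_bot] at h1
        rw [AddSubgroup.mem_bot]
        apply Additive.toMul.injective
        exact Subtype.ext h1
      · right
        rw [eq_top_iff]
        intro w _
        have h1 : ((Additive.toMul w : Subgroup.center P) : P) ∈ P₁ := by rw [h]; trivial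
        rw [hP₁] at h1
        obtain ⟨_, h2⟩ := h1
        exact h2
    obtain ⟨h1, h2⟩ := quad_irr_genP p hp hW hcore φ' x y hgen (hquad x hqx) (hquad y hqy) hirr
    have hone : ∀ z : H, φ' z = 1 → φ z = 1 := by
      intro z hz
      apply MulEquiv.ext
      intro u
      have h3 := DFunLike.congr_fun hz (Additive.ofMul (⟨u, hmemZ u⟩ : Subgroup.center P))
      rw [hφ'] at h3
      exact congrArg (fun w : Additive (Subgroup.center P) =>
        ((Additive.toMul w : Subgroup.center P) : P)) h3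
    have hall : ∀ h : H, φ h = 1 := by
      apply closure_pair_induction x y hgen
      · exact map_one φ
      · intro a b ha hb; rw [map_mul, ha, hb, one_mul]
      · exact hone x h1
      · exact hone y h2
    intro h
    exact ⟨0, by rw [hall h, one_pow]⟩

/-- `p`-stability for a normal `p`-subgroup. -/
theorem pstab_gen_normalP {N : Type u} [Group N] [Finite N] (p : ℕ)
    [Fact p.Prime] (hcore : ∀ H : Subgroup N, GL2CoreP p H) (hp : p ≠ 2) (P : Subgroup N) [hPn : P.Normal] (hP : IsPGroup p P)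
    (C : Subgroup N) [C.Normal] (hC : ∀ g : N, (∀ u ∈ P, g * u * g⁻¹ = u) → g ∈ C)
    (a : N) (hq : ∀ u ∈ P, a * (a * u * a⁻¹ * u⁻¹) * a⁻¹ = a * u * a⁻¹ * u⁻¹) :
    (QuotientGroup.mk a : N ⧸ C) ∈ Cfsg.pCore p (N ⧸ C) := by
  classical
  obtain ⟨X, hX⟩ : ∃ X : Set (N ⧸ C), X = {q | ∃ g : N, q = QuotientGroup.mk (g * a * g⁻¹)} :=
    ⟨_, rfl⟩
  have hXn : ∀ (q x : N ⧸ C), x ∈ X → q * x * q⁻¹ ∈ X := by
    intro q x hx
    rw [hX] at hx ⊢
    obtain ⟨g, rfl⟩ := hx
    induction q using QuotientGroup.induction_on with | _ g' =>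
    refine ⟨g' * g, ?_⟩
    rw [← QuotientGroup.mk_inv, ← QuotientGroup.mk_mul, ← QuotientGroup.mk_mul]
    congr 1
    group
  have hXp : ∀ x ∈ X, ∀ y ∈ X, IsPGroup p (Subgroup.closure ({x, y} : Set (N ⧸ C))) := by
    intro x hx y hy
    rw [hX] at hx hy
    obtain ⟨g₁, rfl⟩ := hx
    obtain ⟨g₂, rfl⟩ := hy
    obtain ⟨b₁, hb₁⟩ : ∃ b₁ : N, b₁ = g₁ * a * g₁⁻¹ := ⟨_, rfl⟩
    obtain ⟨b₂, hb₂⟩ : ∃ b₂ : N, b₂ = g₂ * a * g₂⁻¹ := ⟨_, rfl⟩
    rw [← hb₁, ← hb₂]
    obtain ⟨H, hH⟩ : ∃ H : Subgroup N, H = Subgroup.closure ({b₁, b₂} : Set N) := ⟨_, rfl⟩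
    have hb₁H : b₁ ∈ H := by rw [hH]; exact Subgroup.subset_closure (by simp)
    have hb₂H : b₂ ∈ H := by rw [hH]; exact Subgroup.subset_closure (by simp)
    have hgen : Subgroup.closure ({⟨b₁, hb₁H⟩, ⟨b₂, hb₂H⟩} : Set H) = ⊤ := by
      subst hH
      have h1 := Subgroup.closure_closure_coe_preimage (k := ({b₁, b₂} : Set N))
      have h2 : ((↑) : Subgroup.closure ({b₁, b₂} : Set N) → N) ⁻¹' ({b₁, b₂} : Set N) =
          ({⟨b₁, hb₁H⟩, ⟨b₂, hb₂H⟩} : Set (Subgroup.closure ({b₁, b₂} : Set N))) := by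
        ext z
        simp [Subtype.ext_iff]
      rw [h2] at h1
      exact h1
    obtain ⟨φ, hφ⟩ : ∃ φ : H →* MulAut P, ∀ (h : H) (u : P),
        ((φ h u : P) : N) = (h : N) * (u : N) * (h : N)⁻¹ :=
      ⟨(MulAut.conjNormal (H := P)).comp H.subtype, fun h u => rfl⟩
    have hconjmem : ∀ g : N, ∀ u ∈ P, g⁻¹ * u * g ∈ P := by
      intro g u hu
      have h1 := hPn.conj_mem u hu g⁻¹
      rwa [inv_inv] at h1
    have hqb : ∀ (b : N) (hb : b ∈ H),
        (∀ u ∈ P, b * (b * u * b⁻¹ * u⁻¹) * b⁻¹ = b * u * b⁻¹ * u⁻¹) →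
        ∀ u : P, φ ⟨b, hb⟩ (φ ⟨b, hb⟩ u * u⁻¹) = φ ⟨b, hb⟩ u * u⁻¹ := by
      intro b hb hqb' u
      apply Subtype.ext
      rw [hφ, Subgroup.coe_mul, hφ, Subgroup.coe_inv]
      exact hqb' u u.2
    have key := quad_pgroup_genP p hp (hcore H) ⟨b₁, hb₁H⟩ ⟨b₂, hb₂H⟩ hgen (Nat.card P) P rfl hP φ
      (hqb b₁ hb₁H (by rw [hb₁]; exact quad_conj P a g₁ hq (hconjmem g₁)))
      (hqb b₂ hb₂H (by rw [hb₂]; exact quad_conj P a g₂ hq (hconjmem g₂)))
    have hmap : Subgroup.closure ({(QuotientGroup.mk b₁ : N ⧸ C), QuotientGroup.mk b₂} :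
        Set (N ⧸ C)) = H.map (QuotientGroup.mk' C) := by
      rw [hH, MonoidHom.map_closure, Set.image_pair]
      rfl
    rw [hmap]
    rintro ⟨_, h, hh, rfl⟩
    obtain ⟨k, hk⟩ := key ⟨h, hh⟩
    refine ⟨k, Subtype.ext ?_⟩
    show (QuotientGroup.mk' C h) ^ p ^ k = 1
    rw [← map_pow, QuotientGroup.mk'_apply, QuotientGroup.eq_one_iff]
    apply hC
    intro u hu
    have h1 : φ (⟨h, hh⟩ ^ p ^ k) = 1 := by rw [map_pow, hk]
    have h3 := congrArg (fun e : MulAut P => ((e ⟨u, hu⟩ : P) : N)) h1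
    simp only [hφ] at h3
    exact h3
  obtain ⟨M, hMn, hMp, hXM⟩ := Cfsg.Agent.Helper21.baer_suzuki_normal X hXn hXp
  apply Cfsg.Agent.Helper27.le_pCore hMn hMp
  apply hXM
  rw [hX]
  exact ⟨1, by simp⟩

end Cfsg.Agent.Helper12
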