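import Cfsg.Agent.Helper12.QuadPP
import Cfsg.Agent.Helper12.Syl
import Cfsg.Agent.Helper1.Dickson
import Cfsg.Agent.Helper27.Involves

/-!
Groups not involving `SL₂(p)` satisfy the `GL₂` obstruction in characteristic `p`.
-/

set_option autoImplicit false

universe u

namespace Cfsg.Agent.Helper12

theorem upper_pow_char {F : Type*} [Field F] (p : ℕ) [CharP F p]
    (M A : Matrix (Fin 2) (Fin 2) F) (hM : M = 1 + A) (hA : A * A = 0) : M ^ p = 1 := by
  rw [hM, Cfsg.Agent.Helper1.one_add_pow_sq_zero A hA p,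
    CharP.cast_eq_zero (Matrix (Fin 2) (Fin 2) F) p, zero_mul, add_zero]

theorem gl2CoreP_of_not_involves {p : ℕ} [Fact p.Prime] (hp : p ≠ 2) {H : Type*} [Group H]
    [Finite H] (h : ¬ Cfsg.Involves (Matrix.SpecialLinearGroup (Fin 2) (ZMod p)) H) :
    GL2CoreP p H := by
  intro F _ _ _ ρ hdet x y a b hx hy ha hb
  classical
  haveI : Fintype F := Fintype.ofFinite F
  have hpp : p.Prime := Fact.out
  obtain ⟨σ, hσ⟩ : ∃ σ : H →* Matrix.SpecialLinearGroup (Fin 2) F,
      ∀ k, ((σ k : Matrix.SpecialLinearGroup (Fin 2) F) : Matrix (Fin 2) (Fin 2) F) = ρ k :=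
    ⟨{ toFun := fun k => ⟨ρ k, hdet k⟩
       map_one' := Subtype.ext (map_one ρ)
       map_mul' := fun k l => Subtype.ext (map_mul ρ k l) }, fun k => rfl⟩
  apply h
  haveI : Finite σ.range := Finite.of_surjective σ.rangeRestrict σ.rangeRestrict_surjective
  have hxp : (ρ x) ^ p = 1 := by
    refine upper_pow_char p (ρ x) !![0, a; 0, 0] ?_ ?_
    · rw [hx]
      ext i j
      fin_cases i <;> fin_cases j <;> simp
    · rw [Matrix.mul_fin_two]
      ext i j
      fin_cases i <;> fin_cases j <;> simp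
  have hyp : (ρ y) ^ p = 1 := by
    refine upper_pow_char p (ρ y) !![0, 0; b, 0] ?_ ?_
    · rw [hy]
      ext i j
      fin_cases i <;> fin_cases j <;> simp
    · rw [Matrix.mul_fin_two]
      ext i j
      fin_cases i <;> fin_cases j <;> simp
  have hσp : ∀ z : H, (ρ z) ^ p = 1 → (σ.rangeRestrict z) ^ p ^ 1 = 1 := by
    intro z hz
    apply Subtype.ext
    apply Subtype.ext
    show (((σ z) ^ p ^ 1 : Matrix.SpecialLinearGroup (Fin 2) F) : Matrix (Fin 2) (Fin 2) F) = 1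
    rw [pow_one, Matrix.SpecialLinearGroup.coe_pow, hσ, hz]
  have hS : 1 < Nat.card (Sylow p σ.range) := by
    by_contra hcon
    haveI : Subsingleton (Sylow p σ.range) :=
      Finite.card_le_one_iff_subsingleton.1 (not_lt.1 hcon)
    obtain ⟨P₁, hP₁⟩ := (isPGroup_zpowers_of_pow_eq_one (hσp x hxp)).exists_le_sylow
    obtain ⟨P₂, hP₂⟩ := (isPGroup_zpowers_of_pow_eq_one (hσp y hyp)).exists_le_sylow
    have hx1 : σ.rangeRestrict x ∈ (P₁ : Subgroup σ.range) := hP₁ (Subgroup.mem_zpowers _)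
    have hy1 : σ.rangeRestrict y ∈ (P₁ : Subgroup σ.range) := by
      rw [Subsingleton.elim P₁ P₂]; exact hP₂ (Subgroup.mem_zpowers _)
    obtain ⟨k, hk⟩ := P₁.isPGroup' ⟨_, mul_mem hx1 hy1⟩
    have hk1 : (σ.rangeRestrict x * σ.rangeRestrict y) ^ p ^ k = 1 := congrArg Subtype.val hk
    have hk2 : (ρ x * ρ y) ^ p ^ k = 1 := by
      have h1 := congrArg (fun z : σ.range =>
        (((z : Matrix.SpecialLinearGroup (Fin 2) F)) : Matrix (Fin 2) (Fin 2) F)) hk1
      simp only [Subgroup.coe_pow, Subgroup.coe_mul, Matrix.SpecialLinearGroup.coe_pow,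
        Matrix.SpecialLinearGroup.coe_mul, Subgroup.coe_one, Matrix.SpecialLinearGroup.coe_one,
        MonoidHom.coe_rangeRestrict, hσ] at h1
      exact h1
    have hnil : (ρ x * ρ y - 1) ^ p ^ k = 0 := by
      rw [sub_pow_char_pow_of_commute p k (Commute.one_right _), hk2, one_pow, sub_self]
    have hsq := Cfsg.Agent.Helper10.gl2_nilpotent_sq _ (p ^ k) hnil
    obtain ⟨h11, -⟩ := Cfsg.Agent.Helper1.sq_zero_two _ hsq
    rw [hx, hy, Matrix.mul_fin_two] at h11
    simp at h11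
    rcases h11 with h0 | h0
    · exact ha h0
    · exact hb h0
  obtain ⟨K, hKle, ⟨e⟩⟩ := Cfsg.Agent.Helper1.dickson_sl2 p hp σ.range hS
  refine Cfsg.Agent.Helper27.involves_of_surj (K.comap σ)
    (e.toMonoidHom.comp (σ.subgroupComap K)) ?_
  refine e.surjective.comp ?_
  rintro ⟨k, hk⟩
  obtain ⟨z, rfl⟩ := hKle hk
  exact ⟨⟨z, hk⟩, rfl⟩

end Cfsg.Agent.Helper12
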