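import Cfsg.Agent.Helper12.SL2Free
import Cfsg.Agent.Helper12.NormCtl
import Cfsg.Agent.Helper16.DihInvolved

/-!
If `SL₂(p)` is not involved in the normalizer of any nonidentity `p`-subgroup, every section is
`p`-stable in the normalizer form.
-/

set_option autoImplicit false

universe u

namespace Cfsg.Agent.Helper12

open scoped commutatorElement

theorem section_nps_of_sl2_free {G : Type*} [Group G] [Finite G] {p : ℕ} [Fact p.Prime]
    (hp : p ≠ 2)
    (h : ∀ P : Subgroup G, IsPGroup p ↥P → P ≠ ⊥ →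
      ¬ Cfsg.Involves (Matrix.SpecialLinearGroup (Fin 2) (ZMod p))
        ↥(Subgroup.normalizer ((P : Subgroup G) : Set G)))
    (K R : Subgroup G) [hR : (R.subgroupOf K).Normal] :
    Cfsg.IsNormalizerPStable p (↥K ⧸ R.subgroupOf K) := by
  intro Q hQ g hg hquad
  by_cases hQbot : Q = ⊥
  · subst hQbot
    have hmem : (⟨g, hg⟩ : ↥(Subgroup.normalizer
        (((⊥ : Subgroup (↥K ⧸ R.subgroupOf K)) : Set (↥K ⧸ R.subgroupOf K))))) ∈
        (Subgroup.centralizer (((⊥ : Subgroup (↥K ⧸ R.subgroupOf K)) :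
          Set (↥K ⧸ R.subgroupOf K)))).subgroupOf
          (Subgroup.normalizer (((⊥ : Subgroup (↥K ⧸ R.subgroupOf K)) :
            Set (↥K ⧸ R.subgroupOf K)))) := by
      rw [Subgroup.mem_subgroupOf, Subgroup.mem_centralizer_iff]
      intro u hu
      have hu1 : u = 1 := Subgroup.mem_bot.1 hu
      rw [hu1, one_mul, mul_one]
    rw [(QuotientGroup.eq_one_iff _).2 hmem]
    exact one_mem _
  · have hq : ∀ x ∈ Q, g * (g * x * g⁻¹ * x⁻¹) * g⁻¹ = g * x * g⁻¹ * x⁻¹ := by
      intro x hx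
      have h1 : ⁅⁅x, g⁆, g⁆ ∈ (⁅⁅Q, Subgroup.zpowers g⁆, Subgroup.zpowers g⁆ :
          Subgroup (↥K ⧸ R.subgroupOf K)) :=
        Subgroup.commutator_mem_commutator
          (Subgroup.commutator_mem_commutator hx (Subgroup.mem_zpowers g))
          (Subgroup.mem_zpowers g)
      rw [hquad, Subgroup.mem_bot] at h1
      have h2 : (x * g * x⁻¹ * g⁻¹) * g * (x * g * x⁻¹ * g⁻¹)⁻¹ * g⁻¹ = 1 := h1
      calc g * (g * x * g⁻¹ * x⁻¹) * g⁻¹
          = (g * x * g⁻¹ * x⁻¹) * ((x * g * x⁻¹ * g⁻¹) * g * (x * g * x⁻¹ * g⁻¹)⁻¹ * g⁻¹) := by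
            group
        _ = g * x * g⁻¹ * x⁻¹ := by rw [h2, mul_one]
    obtain ⟨π, hπ⟩ : ∃ π : ↥K →* ↥K ⧸ R.subgroupOf K, π = QuotientGroup.mk' (R.subgroupOf K) :=
      ⟨_, rfl⟩
    have hπs : Function.Surjective π := by rw [hπ]; exact QuotientGroup.mk'_surjective _
    obtain ⟨Q₁, -, hQ₁L, hQ₁p, hQ₁idx⟩ := exists_sylow_ge_of_le (p := p)
      (R := (⊥ : Subgroup ↥K)) (H := Q.comap π) IsPGroup.of_bot bot_le
    have hmap : Q₁.map π = Q := by
      apply le_antisymm
      · rw [Subgroup.map_le_iff_le_comap]; exact hQ₁L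
      · have h1 : ((Q₁.map π).comap π).relIndex (Q.comap π) = (Q₁.map π).relIndex Q := by
          rw [Subgroup.relIndex_comap, Subgroup.map_comap_eq_self_of_surjective hπs]
        have h2 : ((Q₁.map π).comap π).relIndex (Q.comap π) ∣ Q₁.relIndex (Q.comap π) :=
          Subgroup.relIndex_dvd_of_le_left _ (Subgroup.le_comap_map π Q₁)
        have h3 : ¬ p ∣ (Q₁.map π).relIndex Q := by
          intro hd
          rw [← h1] at hd
          exact hQ₁idx (dvd_trans hd h2)
        obtain ⟨n, hn⟩ := IsPGroup.index hQ ((Q₁.map π).subgroupOf Q)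
        have h4 : (Q₁.map π).relIndex Q = p ^ n := hn
        have hn0 : n = 0 := by
          by_contra hne
          apply h3
          rw [h4]
          exact dvd_pow_self p hne
        rw [hn0, pow_zero] at h4
        exact Subgroup.relIndex_eq_one.1 h4
    have hQ₀p : IsPGroup p ↥(Q₁.map K.subtype) := hQ₁p.map _
    have hQ₀ne : Q₁.map K.subtype ≠ ⊥ := by
      intro h0
      rw [Subgroup.map_eq_bot_iff_of_injective _ K.subtype_injective] at h0
      apply hQbot
      rw [← hmap, h0, Subgroup.map_bot]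
    have hnotinv : ¬ Cfsg.Involves (Matrix.SpecialLinearGroup (Fin 2) (ZMod p))
        ↥(Subgroup.normalizer (Q : Set (↥K ⧸ R.subgroupOf K))) := by
      intro hinv
      have hφmem : ∀ k : ↥(Subgroup.normalizer (Q₁ : Set ↥K)),
          (π.comp (Subgroup.normalizer (Q₁ : Set ↥K)).subtype) k ∈
            Subgroup.normalizer (Q : Set (↥K ⧸ R.subgroupOf K)) := by
        intro k
        have := Subgroup.le_normalizer_map π (Subgroup.mem_map_of_mem π k.2)
        rwa [hmap] at this
      obtain ⟨φ, hφ⟩ : ∃ φ : ↥(Subgroup.normalizer (Q₁ : Set ↥K)) →*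
          ↥(Subgroup.normalizer (Q : Set (↥K ⧸ R.subgroupOf K))),
          ∀ k, ((φ k : ↥(Subgroup.normalizer (Q : Set (↥K ⧸ R.subgroupOf K)))) :
            ↥K ⧸ R.subgroupOf K) = π (k : ↥K) :=
        ⟨(π.comp (Subgroup.normalizer (Q₁ : Set ↥K)).subtype).codRestrict _ hφmem, fun _ => rfl⟩
      have hφs : Function.Surjective φ := by
        rintro ⟨z, hz⟩
        obtain ⟨k, rfl⟩ := hπs z
        have hkL : k ∈ Subgroup.normalizer ((Q.comap π : Subgroup ↥K) : Set ↥K) := by
          rw [← Subgroup.comap_normalizer_eq_of_surjective Q hπs]; exact hz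
        obtain ⟨l, hl, y, hy, rfl⟩ := frattini_rel
          (H := Subgroup.normalizer ((Q.comap π : Subgroup ↥K) : Set ↥K)) (K := Q.comap π)
          (T := Q₁) (fun x hx => cjs_eq_of_mem_normalizer hx) hQ₁L hQ₁p hQ₁idx hkL
        have hl' : π l ∈ Q₁.map π := by rw [hmap]; exact hl
        obtain ⟨q, hq, hql⟩ := hl'
        refine ⟨⟨q * y, mul_mem (Subgroup.le_normalizer hq) hy⟩, ?_⟩
        apply Subtype.ext
        rw [hφ]
        show π (q * y) = π (l * y)
        rw [map_mul, map_mul, hql]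
      have h1 : Cfsg.Involves (Matrix.SpecialLinearGroup (Fin 2) (ZMod p))
          ↥(Subgroup.normalizer (Q₁ : Set ↥K)) :=
        Cfsg.Agent.Helper16.involves_of_section (⊤ : Subgroup ↥(Subgroup.normalizer (Q₁ : Set ↥K)))
          (φ.comp (⊤ : Subgroup ↥(Subgroup.normalizer (Q₁ : Set ↥K))).subtype)
          (hφs.comp (fun x => ⟨⟨x, Subgroup.mem_top x⟩, rfl⟩)) hinv
      have hjmem : ∀ k : ↥(Subgroup.normalizer (Q₁ : Set ↥K)),
          (K.subtype.comp (Subgroup.normalizer (Q₁ : Set ↥K)).subtype) k ∈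
            Subgroup.normalizer ((Q₁.map K.subtype : Subgroup G) : Set G) := fun k =>
        Subgroup.le_normalizer_map K.subtype (Subgroup.mem_map_of_mem K.subtype k.2)
      have hjinj : Function.Injective
          ((K.subtype.comp (Subgroup.normalizer (Q₁ : Set ↥K)).subtype).codRestrict _ hjmem) := by
        intro a b hab
        have h2 : ((a : ↥K) : G) = ((b : ↥K) : G) := by
          have h3 := congrArg (fun z : ↥(Subgroup.normalizer
            ((Q₁.map K.subtype : Subgroup G) : Set G)) => (z : G)) hab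
          exact h3
        exact Subtype.ext (Subtype.ext h2)
      exact h _ hQ₀p hQ₀ne (Cfsg.Agent.Helper27.involves_of_injective _ hjinj h1)
    have hcore : ∀ H : Subgroup ↥(Subgroup.normalizer (Q : Set (↥K ⧸ R.subgroupOf K))),
        GL2CoreP p ↥H := fun H =>
      gl2CoreP_of_not_involves hp (fun hinv => hnotinv
        (Cfsg.Agent.Helper27.involves_of_injective H.subtype H.subtype_injective hinv))
    apply pstab_gen_normalP p hcore hp
      (Q.subgroupOf (Subgroup.normalizer (Q : Set (↥K ⧸ R.subgroupOf K))))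
      (IsPGroup.comap_subtype hQ)
    · intro g' hg'
      rw [Subgroup.mem_subgroupOf, Subgroup.mem_centralizer_iff]
      intro u hu
      have h1 := hg' ⟨u, Subgroup.le_normalizer hu⟩ hu
      have h2 : (g' : ↥K ⧸ R.subgroupOf K) * u * (g' : ↥K ⧸ R.subgroupOf K)⁻¹ = u :=
        congrArg Subtype.val h1
      exact (mul_inv_eq_iff_eq_mul.1 h2).symm
    · intro u hu
      apply Subtype.ext
      exact hq (u : ↥K ⧸ R.subgroupOf K) hu

end Cfsg.Agent.Helper12
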