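import Cfsg.Agent.S2015
import Cfsg.Agent.Helper12.WCE3

/-!
Groups with self-normalizing Sylow subgroups: for `p ≥ 5` a nontrivial self-normalizing Sylow
`p`-subgroup is not contained in the derived subgroup (transfer control by the lower K-infinity
functor), and the Frattini argument.
-/

set_option autoImplicit false

namespace Cfsg.Agent.Helper12

universe u

section SelfNorm

/-- For `p ≥ 5`, a nontrivial self-normalizing Sylow `p`-subgroup is not contained in the
derived subgroup. -/
theorem not_le_commutator_of_self_normalizing (p : ℕ) [Fact p.Prime] (hp : 5 ≤ p) :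
    ∀ (n : ℕ) (G : Type u) [Group G] [Finite G], Nat.card G ≤ n → ∀ S : Sylow p G,
      (S : Subgroup G) ≠ ⊥ → Subgroup.normalizer ((S : Subgroup G) : Set G) = S →
      ¬ (S : Subgroup G) ≤ commutator G := by
  intro n
  induction n with
  | zero =>
    intro G _ _ hcard
    have := Nat.card_pos (α := G)
    omega
  | succ n ih =>
    intro G _ _ hcard S hS hN hle
    obtain ⟨K₀, hK₀char, hK₀cen, hK₀⟩ :=
      Cfsg.Agent.S2015.result p hp ↥(S : Subgroup G) S.isPGroup'
    have heq := hK₀ G (S : Subgroup G).subtype (Subgroup.subtype_injective _)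
      ⟨S, (Subgroup.range_subtype _).symm⟩
    rw [Subgroup.range_subtype] at heq
    have hKS : K₀.map (S : Subgroup G).subtype ≤ (S : Subgroup G) := Subgroup.map_subtype_le _
    have hKne : K₀.map (S : Subgroup G).subtype ≠ ⊥ := by
      have hnt : Nontrivial ↥(S : Subgroup G) := (Subgroup.nontrivial_iff_ne_bot _).mpr hS
      have hcn := S.isPGroup'.center_nontrivial
      obtain ⟨z, hz⟩ := exists_ne (1 : ↥(Subgroup.center ↥(S : Subgroup G)))
      intro hbot
      have h1 : ((z : ↥(S : Subgroup G)) : G) ∈ K₀.map (S : Subgroup G).subtype :=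
        Subgroup.mem_map_of_mem _ (hK₀cen z.2)
      rw [hbot, Subgroup.mem_bot] at h1
      apply hz
      apply Subtype.ext
      apply Subtype.ext
      exact h1
    have hK₀n : K₀.Normal := Subgroup.normal_of_characteristic K₀
    have hSNK : (S : Subgroup G) ≤
        Subgroup.normalizer ((K₀.map (S : Subgroup G).subtype : Subgroup G) : Set G) := by
      intro s hs
      apply mem_normalizer_of_conj_mem
      rintro _ ⟨k, hk, rfl⟩
      exact ⟨⟨s, hs⟩ * k * ⟨s, hs⟩⁻¹, hK₀n.conj_mem k hk _, rfl⟩
    by_cases hNK :
        Subgroup.normalizer ((K₀.map (S : Subgroup G).subtype : Subgroup G) : Set G) = ⊤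
    · have hKn : (K₀.map (S : Subgroup G).subtype).Normal :=
        Subgroup.normalizer_eq_top_iff.mp hNK
      by_cases hSbar : (S : Subgroup G).map
          (QuotientGroup.mk' (K₀.map (S : Subgroup G).subtype)) = ⊥
      · have hSK : (S : Subgroup G) ≤ K₀.map (S : Subgroup G).subtype := by
          rw [Subgroup.map_eq_bot_iff, QuotientGroup.ker_mk'] at hSbar
          exact hSbar
        have hSeq : (S : Subgroup G) = K₀.map (S : Subgroup G).subtype := le_antisymm hSK hKS
        have hStop : (S : Subgroup G) = ⊤ := by
          calc (S : Subgroup G) = Subgroup.normalizer ((S : Subgroup G) : Set G) := hN.symm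
            _ = Subgroup.normalizer ((K₀.map (S : Subgroup G).subtype : Subgroup G) : Set G) := by
              rw [← hSeq]
            _ = ⊤ := hNK
        have hGp : IsPGroup p G := by
          intro g
          obtain ⟨k, hk⟩ := S.isPGroup' ⟨g, by rw [hStop]; exact Subgroup.mem_top g⟩
          exact ⟨k, congrArg Subtype.val hk⟩
        have hnil := hGp.isNilpotent
        have hntG : Nontrivial G := by
          obtain ⟨a, ha⟩ := Subgroup.ne_bot_iff_exists_ne_one.1 hS
          exact ⟨⟨(a : G), 1, fun h => ha (Subtype.ext h)⟩⟩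
        have hlt := Group.IsSolvable.commutator_lt_top_of_nontrivial G
        rw [hStop] at hle
        exact hlt.ne (top_le_iff.1 hle)
      · have hcard' : Nat.card (G ⧸ K₀.map (S : Subgroup G).subtype) ≤ n := by
          have := card_quotient_lt (K₀.map (S : Subgroup G).subtype) hKne
          omega
        obtain ⟨Sb, hSb⟩ : ∃ Sb : Sylow p (G ⧸ K₀.map (S : Subgroup G).subtype),
            (Sb : Subgroup (G ⧸ K₀.map (S : Subgroup G).subtype)) =
              (S : Subgroup G).map (QuotientGroup.mk' (K₀.map (S : Subgroup G).subtype)) :=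
          ⟨S.mapSurjective (QuotientGroup.mk'_surjective _), Sylow.coe_mapSurjective _ _⟩
        have hN' : Subgroup.normalizer
            ((Sb : Subgroup (G ⧸ K₀.map (S : Subgroup G).subtype)) :
              Set (G ⧸ K₀.map (S : Subgroup G).subtype)) = Sb := by
          apply le_antisymm _ Subgroup.le_normalizer
          intro x hx
          obtain ⟨g, rfl⟩ := QuotientGroup.mk'_surjective _ x
          rw [hSb] at hx ⊢
          have hg : g ∈ Subgroup.normalizer ((S : Subgroup G) : Set G) := by
            apply mem_normalizer_of_conj_mem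
            intro s hs
            have h1 := (Subgroup.mem_normalizer_iff.1 hx (QuotientGroup.mk' _ s)).1
              (Subgroup.mem_map_of_mem _ hs)
            obtain ⟨s', hs', h2⟩ := Subgroup.mem_map.1 h1
            have h2' : ((s' : G) : G ⧸ K₀.map (S : Subgroup G).subtype) =
                ((g * s * g⁻¹ : G) : G ⧸ K₀.map (S : Subgroup G).subtype) := h2
            have h3 := QuotientGroup.eq.1 h2'
            have h4 := mul_mem hs' (hKS h3)
            rwa [mul_inv_cancel_left] at h4
          rw [hN] at hg
          exact Subgroup.mem_map_of_mem _ hg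
        refine ih _ hcard' Sb ?_ hN' ?_
        · rw [hSb]; exact hSbar
        · rw [hSb]
          have h1 := Subgroup.map_mono
            (f := QuotientGroup.mk' (K₀.map (S : Subgroup G).subtype)) hle
          refine h1.trans ?_
          rw [commutator_def, commutator_def, Subgroup.map_commutator]
          exact Subgroup.commutator_mono le_top le_top
    · have hcardN : Nat.card ↥(Subgroup.normalizer
          ((K₀.map (S : Subgroup G).subtype : Subgroup G) : Set G)) ≤ n := by
        have h1 : Nat.card ↥(Subgroup.normalizer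
            ((K₀.map (S : Subgroup G).subtype : Subgroup G) : Set G)) < Nat.card G := by
          by_contra hcon
          push Not at hcon
          exact hNK (Subgroup.eq_top_of_le_card _ hcon)
        omega
      obtain ⟨SN, hSNc⟩ : ∃ SN : Sylow p ↥(Subgroup.normalizer
          ((K₀.map (S : Subgroup G).subtype : Subgroup G) : Set G)),
          (SN : Subgroup ↥(Subgroup.normalizer
            ((K₀.map (S : Subgroup G).subtype : Subgroup G) : Set G))) =
            (S : Subgroup G).subgroupOf _ := ⟨S.subtype hSNK, Sylow.coe_subtype _ _⟩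
      have hSN' : Subgroup.normalizer ((SN : Subgroup ↥(Subgroup.normalizer
            ((K₀.map (S : Subgroup G).subtype : Subgroup G) : Set G))) :
            Set ↥(Subgroup.normalizer
            ((K₀.map (S : Subgroup G).subtype : Subgroup G) : Set G))) = SN := by
        apply le_antisymm _ Subgroup.le_normalizer
        intro x hx
        rw [hSNc] at hx ⊢
        have h1 := coe_mem_normalizer_of_subgroupOf _ (S : Subgroup G) hSNK x hx
        rw [hN] at h1
        exact Subgroup.mem_subgroupOf.2 h1
      refine ih _ hcardN SN ?_ hSN' ?_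
      · rw [hSNc]
        obtain ⟨a, ha⟩ := Subgroup.ne_bot_iff_exists_ne_one.1 hS
        intro hbot
        have h1 : (⟨(a : G), hSNK a.2⟩ : ↥(Subgroup.normalizer
            ((K₀.map (S : Subgroup G).subtype : Subgroup G) : Set G))) ∈
            (S : Subgroup G).subgroupOf _ := Subgroup.mem_subgroupOf.2 a.2
        rw [hbot, Subgroup.mem_bot] at h1
        have h2 : (a : G) = 1 := congrArg Subtype.val h1
        exact ha (Subtype.ext h2)
      · rw [hSNc]
        have h1 : (S : Subgroup G) ≤ (commutator ↥(Subgroup.normalizer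
            ((K₀.map (S : Subgroup G).subtype : Subgroup G) : Set G))).map
            (Subgroup.subtype _) := by
          have h2 : (S : Subgroup G) ⊓ commutator G = S := inf_eq_left.2 hle
          rw [heq] at h2
          exact inf_eq_left.1 h2
        intro x hx
        obtain ⟨c, hc, hcx⟩ := Subgroup.mem_map.1 (h1 (Subgroup.mem_subgroupOf.1 hx))
        have hcx' : c = x := Subtype.ext hcx
        rw [← hcx']; exact hc

/-- A nontrivial `p`-element of the abelianization gives a proper normal subgroup with
`p`-group quotient. -/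
theorem exists_pQuot_of_abelianization {G : Type*} [Group G] [Finite G] (p : ℕ) [Fact p.Prime]
    (y : Abelianization G) (hy : y ≠ 1) (k : ℕ) (hyk : y ^ p ^ k = 1) :
    ∃ M : Subgroup G, ∃ _ : M.Normal, M ≠ ⊤ ∧ IsPGroup p (G ⧸ M) := by
  have hp : p.Prime := Fact.out
  have hne : Nat.card G ≠ 0 := Nat.card_pos.ne'
  obtain ⟨v, m, hpm, hm⟩ := Nat.exists_eq_pow_mul_and_not_dvd hne p hp.ne_one
  have hcop : Nat.Coprime m (p ^ k) :=
    (((Nat.Prime.coprime_iff_not_dvd hp).2 hpm).symm).pow_right k
  refine ⟨((powMonoidHom m).comp (Abelianization.of (G := G))).ker, inferInstance, ?_, ?_⟩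
  · intro htop
    obtain ⟨g, hg⟩ : ∃ g : G, Abelianization.of g = y := QuotientGroup.mk_surjective y
    subst hg
    have h1 : g ∈ ((powMonoidHom m).comp (Abelianization.of (G := G))).ker := by
      rw [htop]; exact Subgroup.mem_top g
    rw [MonoidHom.mem_ker] at h1
    have h2 : (Abelianization.of g) ^ m = 1 := h1
    have h3 : orderOf (Abelianization.of g) ∣ Nat.gcd m (p ^ k) :=
      Nat.dvd_gcd (orderOf_dvd_of_pow_eq_one h2) (orderOf_dvd_of_pow_eq_one hyk)
    rw [hcop.gcd_eq_one] at h3
    exact hy (orderOf_eq_one_iff.1 (Nat.dvd_one.1 h3))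
  · intro x
    obtain ⟨g, rfl⟩ := QuotientGroup.mk_surjective x
    refine ⟨v, ?_⟩
    rw [← QuotientGroup.mk_pow, QuotientGroup.eq_one_iff, MonoidHom.mem_ker]
    show (Abelianization.of (g ^ p ^ v)) ^ m = 1
    rw [← map_pow, ← pow_mul, ← hm, pow_card_eq_one', map_one]

/-- The Frattini argument: if every Sylow subgroup is self-normalizing and `G` has a proper
normal subgroup with `p`-group quotient, then `G` is a `p`-group. -/
theorem isPGroup_of_pQuot {G : Type*} [Group G] [Finite G] (p : ℕ) [Fact p.Prime]
    (h : ∀ q : ℕ, q.Prime → q ∣ Nat.card G → ∀ Q : Sylow q G,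
      Subgroup.normalizer ((Q : Subgroup G) : Set G) = Q)
    (M : Subgroup G) [M.Normal] (hM : M ≠ ⊤) (hq : IsPGroup p (G ⧸ M)) : IsPGroup p G := by
  have hp : p.Prime := Fact.out
  have hcard := Nat.eq_prime_pow_of_unique_prime_dvd (n := Nat.card G) (p := p)
    Nat.card_pos.ne' (fun {d} hd hdvd => by
      by_contra hne
      have : Fact d.Prime := ⟨hd⟩
      obtain ⟨Q⟩ : Nonempty (Sylow d G) := inferInstance
      have hQM : (Q : Subgroup G) ≤ M := by
        intro x hx
        obtain ⟨j, hj⟩ := Q.isPGroup' ⟨x, hx⟩
        have hj' : x ^ d ^ j = 1 := congrArg Subtype.val hj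
        obtain ⟨k, hk⟩ := hq (x : G ⧸ M)
        have h1 : ((x : G) : G ⧸ M) ^ d ^ j = 1 := by
          rw [← QuotientGroup.mk_pow, hj']; rfl
        have h2 : orderOf ((x : G) : G ⧸ M) ∣ Nat.gcd (p ^ k) (d ^ j) :=
          Nat.dvd_gcd (orderOf_dvd_of_pow_eq_one hk) (orderOf_dvd_of_pow_eq_one h1)
        have hcop : Nat.Coprime (p ^ k) (d ^ j) :=
          Nat.coprime_pow_primes k j hp hd (fun h => hne h.symm)
        rw [hcop.gcd_eq_one] at h2
        exact (QuotientGroup.eq_one_iff x).1 (orderOf_eq_one_iff.1 (Nat.dvd_one.1 h2))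
      have hfr : Subgroup.normalizer ((Q : Subgroup G) : Set G) ⊔ M = ⊤ :=
        Sylow.normalizer_sup_eq_top' Q hQM
      rw [h d hd hdvd Q, sup_eq_right.2 hQM] at hfr
      exact hM hfr)
  exact IsPGroup.of_card hcard

end SelfNorm

end Cfsg.Agent.Helper12
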