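import Cfsg.Agent.Helper12.Tight
import Cfsg.Agent.Helper12.PRes

/-!
Transfer by the sign of the permutation action on cosets (Thompson transfer, in the cyclic
form), and a chain of index two subgroups cutting a dihedral complement off a Sylow 2-subgroup.
-/

namespace Cfsg.Agent.Helper12

theorem neg_one_ne_one_units : (-1 : ℤˣ) ≠ 1 := by decide

theorem zmod_two_eq_one_of_ne_zero : ∀ i : ZMod 2, i ≠ 0 → i = 1 := by decide

open Equiv in
/-- If `u` has order dividing `2 ^ k`, `M` has index `2 ^ k * m` with `m` odd, and no conjugate of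
`u ^ 2 ^ (k - 1)` lies in `M`, then `u` acts as an odd permutation on the cosets of `M`. -/
theorem exists_sign_char {Γ : Type*} [Group Γ] [Finite Γ] (M : Subgroup Γ) (u : Γ) (k m : ℕ)
    (hk : 1 ≤ k) (hu : u ^ 2 ^ k = 1) (hm : Odd m) (hidx : M.index = 2 ^ k * m)
    (hfree : ∀ g : Γ, g * u ^ 2 ^ (k - 1) * g⁻¹ ∉ M) :
    ∃ χ : Γ →* ℤˣ, χ u = -1 := by
  classical
  haveI : Fintype (Γ ⧸ M) := Fintype.ofFinite _
  let φ : Γ →* Perm (Γ ⧸ M) := MulAction.toPermHom Γ (Γ ⧸ M)
  refine ⟨Perm.sign.comp φ, ?_⟩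
  show Perm.sign (φ u) = -1
  set σ : Perm (Γ ⧸ M) := φ u with hσ
  have hσpow : σ ^ 2 ^ k = 1 := by rw [hσ, ← map_pow, hu, map_one]
  have hnofix : ∀ q : Γ ⧸ M, (σ ^ 2 ^ (k - 1)) q ≠ q := by
    intro q hq
    induction q using QuotientGroup.induction_on with
    | H g =>
      have h1 : (σ ^ 2 ^ (k - 1)) (g : Γ ⧸ M) = ((u ^ 2 ^ (k - 1) * g : Γ) : Γ ⧸ M) := by
        rw [hσ, ← map_pow]; rfl
      rw [h1] at hq
      have h2 : (u ^ 2 ^ (k - 1) * g)⁻¹ * g ∈ M := QuotientGroup.eq.mp hq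
      apply hfree g⁻¹
      have e : g⁻¹ * u ^ 2 ^ (k - 1) * g⁻¹⁻¹ = ((u ^ 2 ^ (k - 1) * g)⁻¹ * g)⁻¹ := by group
      rw [e]; exact inv_mem h2
  have hsupp : σ.support = Finset.univ := by
    ext q
    simp only [Finset.mem_univ, iff_true, Perm.mem_support]
    intro hq
    exact hnofix q (Perm.pow_apply_eq_self_of_apply_eq_self hq _)
  have hct : ∀ c ∈ σ.cycleType, c = 2 ^ k := by
    intro c hc
    have hdvd : c ∣ 2 ^ k :=
      (Perm.dvd_of_mem_cycleType hc).trans (orderOf_dvd_of_pow_eq_one hσpow)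
    obtain ⟨j, hjk, rfl⟩ := (Nat.dvd_prime_pow Nat.prime_two).mp hdvd
    by_contra hne
    have hj : j ≤ k - 1 := by
      have : j ≠ k := fun h => hne (by rw [h])
      omega
    obtain ⟨c', τ, hστ, hdisj, hcyc, hcard⟩ := Perm.mem_cycleType_iff.mp hc
    obtain ⟨a, ha⟩ : c'.support.Nonempty := Finset.card_pos.mp (by rw [hcard]; positivity)
    have hc'pow : c' ^ 2 ^ (k - 1) = 1 := by
      apply orderOf_dvd_iff_pow_eq_one.mp
      rw [hcyc.orderOf, hcard]
      exact pow_dvd_pow 2 hj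
    have hτa : τ a = a := by
      rcases hdisj a with h | h
      · exact absurd h (Perm.mem_support.mp ha)
      · exact h
    apply hnofix a
    rw [hστ, hdisj.commute.mul_pow, hc'pow, one_mul]
    exact Perm.pow_apply_eq_self_of_apply_eq_self hτa _
  have hrep : σ.cycleType = Multiset.replicate (Multiset.card σ.cycleType) (2 ^ k) :=
    Multiset.eq_replicate_card.mpr hct
  have hsum : σ.cycleType.sum = 2 ^ k * m := by
    rw [Perm.sum_cycleType, hsupp, Finset.card_univ, ← hidx, Subgroup.index,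
      Nat.card_eq_fintype_card]
  have hr : Multiset.card σ.cycleType = m := by
    have h1 : σ.cycleType.sum = Multiset.card σ.cycleType * 2 ^ k := by
      conv_lhs => rw [hrep]
      rw [Multiset.sum_replicate, smul_eq_mul]
    rw [hsum] at h1
    have h2 : 0 < 2 ^ k := by positivity
    have h3 : 2 ^ k * Multiset.card σ.cycleType = 2 ^ k * m := by rw [h1]; ring
    exact Nat.eq_of_mul_eq_mul_left h2 h3
  rw [Perm.sign_of_cycleType, hsum, hr]
  apply Odd.neg_one_pow
  obtain ⟨m', rfl⟩ := hm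
  obtain ⟨k', rfl⟩ : ∃ k', k = k' + 1 := ⟨k - 1, by omega⟩
  refine ⟨2 ^ k' * (2 * m' + 1) + m', ?_⟩
  rw [pow_succ]; ring

/-- Subgroup form: a "subgroup of index two" `N` of `G'` not containing `u`. -/
theorem exists_index_two_sub {G : Type*} [Group G] [Finite G] (G' M : Subgroup G) (u : G)
    (huG : u ∈ G') (k m : ℕ) (hk : 1 ≤ k) (hu : u ^ 2 ^ k = 1) (hm : Odd m)
    (hidx : M.relIndex G' = 2 ^ k * m)
    (hfree : ∀ g ∈ G', g * u ^ 2 ^ (k - 1) * g⁻¹ ∉ M) :
    ∃ N : Subgroup G, N ≤ G' ∧ u ∉ N ∧ (∀ x ∈ G', Odd (orderOf x) → x ∈ N) ∧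
      ∀ X : Subgroup G, X ≤ G' → ¬ X ≤ N → Nat.card X = 2 * Nat.card ↥(X ⊓ N) := by
  have hfree' : ∀ g : G', g * (⟨u, huG⟩ : G') ^ 2 ^ (k - 1) * g⁻¹ ∉ M.subgroupOf G' := by
    intro g hg
    rw [Subgroup.mem_subgroupOf] at hg
    exact hfree g g.2 (by simpa using hg)
  obtain ⟨χ, hχ⟩ := exists_sign_char (M.subgroupOf G') (⟨u, huG⟩ : G') k m hk
    (Subtype.ext (by rw [Subgroup.coe_pow]; exact hu)) hm hidx hfree'
  have hpm : ∀ z : ℤˣ, z = 1 ∨ z = -1 := Int.units_eq_one_or
  have hmemN : ∀ x (hx : x ∈ G'), x ∈ χ.ker.map G'.subtype ↔ χ ⟨x, hx⟩ = 1 := by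
    intro x hx
    constructor
    · rintro ⟨y, hy, hyx⟩
      have h1 : y = ⟨x, hx⟩ := Subtype.ext hyx
      rw [← h1]; exact MonoidHom.mem_ker.mp hy
    · intro h
      exact ⟨⟨x, hx⟩, MonoidHom.mem_ker.mpr h, rfl⟩
  refine ⟨χ.ker.map G'.subtype, ?_, ?_, ?_, ?_⟩
  · rintro _ ⟨y, -, rfl⟩; exact y.2
  · intro h
    rw [hmemN u huG, hχ] at h
    exact neg_one_ne_one_units h
  · intro x hx hodd
    rw [hmemN x hx]
    rcases hpm (χ ⟨x, hx⟩) with h | h
    · exact h
    · exfalso
      have h1 : χ ⟨x, hx⟩ ^ orderOf x = 1 := by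
        rw [← map_pow]
        have h2 : (⟨x, hx⟩ : G') ^ orderOf x = 1 :=
          Subtype.ext (by rw [Subgroup.coe_pow]; exact pow_orderOf_eq_one x)
        rw [h2, map_one]
      rw [h, hodd.neg_one_pow] at h1
      exact neg_one_ne_one_units h1
  · intro X hX hXN
    obtain ⟨x₁, hx₁X, hx₁N⟩ : ∃ x₁ ∈ X, x₁ ∉ χ.ker.map G'.subtype := by
      by_contra hcon
      push Not at hcon
      exact hXN hcon
    have hχx₁ : χ ⟨x₁, hX hx₁X⟩ = -1 := by
      rcases hpm (χ ⟨x₁, hX hx₁X⟩) with h | h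
      · exact absurd ((hmemN x₁ (hX hx₁X)).mpr h) hx₁N
      · exact h
    let ψ : ↥X →* ℤˣ := χ.comp (Subgroup.inclusion hX)
    have hψ : ∀ y : X, ψ y = χ ⟨y, hX y.2⟩ := fun y => rfl
    have hidx2 : ψ.ker.index = 2 := by
      rw [Subgroup.index_eq_two_iff]
      refine ⟨⟨x₁, hx₁X⟩, fun b => ?_⟩
      have hb1 : ψ (b * ⟨x₁, hx₁X⟩) = ψ b * -1 := by
        rw [map_mul, hψ ⟨x₁, hx₁X⟩, hχx₁]
      rcases hpm (ψ b) with h | h
      · refine Or.inr ⟨MonoidHom.mem_ker.mpr h, ?_⟩
        rw [MonoidHom.mem_ker, hb1, h, one_mul]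
        exact neg_one_ne_one_units
      · refine Or.inl ⟨?_, ?_⟩
        · rw [MonoidHom.mem_ker, hb1, h]; simp
        · rw [MonoidHom.mem_ker, h]
          exact neg_one_ne_one_units
    have hcard1 := Subgroup.card_mul_index ψ.ker
    have hmap : ψ.ker.map X.subtype = X ⊓ χ.ker.map G'.subtype := by
      ext y
      constructor
      · rintro ⟨z, hz, rfl⟩
        refine Subgroup.mem_inf.mpr ⟨z.2, ?_⟩
        exact (hmemN (z : G) (hX z.2)).mpr (MonoidHom.mem_ker.mp hz)
      · intro hy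
        obtain ⟨hyX, hyN⟩ := Subgroup.mem_inf.mp hy
        refine ⟨⟨y, hyX⟩, ?_, rfl⟩
        rw [SetLike.mem_coe, MonoidHom.mem_ker, hψ]
        exact (hmemN y (hX hyX)).mp hyN
    have hcard2 : Nat.card ↥(X ⊓ χ.ker.map G'.subtype) = Nat.card ψ.ker := by
      rw [← hmap]
      exact Subgroup.card_map_of_injective X.subtype_injective
    rw [hcard2, ← hcard1, hidx2, mul_comm]

/-- In a dihedral group, the elements outside a cyclic subgroup of index two are involutions. -/
theorem orderOf_eq_two_of_not_mem_cyclic {G : Type*} [Group G] (D C : Subgroup G) (hCD : C ≤ D)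
    (n : ℕ) (hn : 2 ≤ n) (e : ↥D ≃* DihedralGroup n) (hC : IsCyclic ↥C)
    (hCi : C.relIndex D = 2) (x : G) (hxD : x ∈ D) (hxC : x ∉ C) : orderOf x = 2 := by
  haveI : NeZero n := ⟨by omega⟩
  have hord : orderOf x = orderOf (e ⟨x, hxD⟩) := by
    rw [MulEquiv.orderOf_eq, Subgroup.orderOf_mk]
  rcases h : e ⟨x, hxD⟩ with i | i
  · by_cases hn2 : n = 2
    · subst hn2
      have hx1 : x ≠ 1 := fun h1 => hxC (by rw [h1]; exact one_mem C)
      have hi : i ≠ 0 := by
        intro hi
        apply hx1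
        have h3 : e ⟨x, hxD⟩ = e 1 := by rw [h, hi, map_one]; rfl
        have h4 := e.injective h3
        exact congrArg Subtype.val h4
      have hi1 : i = 1 := zmod_two_eq_one_of_ne_zero i hi
      rw [hord, h, hi1, DihedralGroup.orderOf_r_one]
    · exfalso
      have hn3 : 3 ≤ n := by omega
      have hcD : Nat.card D = 2 * n := by rw [Nat.card_congr e.toEquiv, DihedralGroup.nat_card]
      have hcC : Nat.card C = n := by
        have h5 := card_mul_relIndex' hCD
        rw [hCi, hcD] at h5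
        omega
      obtain ⟨c₀, hc₀⟩ := hC.exists_generator
      have hoc : orderOf c₀ = n := by rw [orderOf_eq_card_of_forall_mem_zpowers hc₀, hcC]
      have hy : orderOf (e ⟨(c₀ : G), hCD c₀.2⟩) = n := by
        rw [MulEquiv.orderOf_eq, Subgroup.orderOf_mk, Subgroup.orderOf_coe, hoc]
      rcases hyj : e ⟨(c₀ : G), hCD c₀.2⟩ with j | j
      swap
      · rw [hyj, DihedralGroup.orderOf_sr] at hy; omega
      rw [hyj] at hy
      have h1 : Subgroup.zpowers (DihedralGroup.r j : DihedralGroup n) =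
          Subgroup.zpowers (DihedralGroup.r 1) := by
        apply Subgroup.eq_of_le_of_card_ge
        · rw [Subgroup.zpowers_le]
          refine Subgroup.mem_zpowers_iff.mpr ⟨(j.val : ℤ), ?_⟩
          rw [zpow_natCast, DihedralGroup.r_one_pow, ZMod.natCast_zmod_val]
        · rw [Nat.card_zpowers, Nat.card_zpowers, hy, DihedralGroup.orderOf_r_one]
      have h2 : (DihedralGroup.r i : DihedralGroup n) ∈
          Subgroup.zpowers (DihedralGroup.r j) := by
        rw [h1]
        refine Subgroup.mem_zpowers_iff.mpr ⟨(i.val : ℤ), ?_⟩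
        rw [zpow_natCast, DihedralGroup.r_one_pow, ZMod.natCast_zmod_val]
      obtain ⟨z, hz⟩ := Subgroup.mem_zpowers_iff.mp h2
      have h3 : e ⟨x, hxD⟩ = e (⟨(c₀ : G), hCD c₀.2⟩ ^ z) := by
        rw [map_zpow, hyj, h]; exact hz.symm
      have h4 := e.injective h3
      apply hxC
      have h5 : x = (c₀ : G) ^ z := by
        have h6 := congrArg Subtype.val h4
        simpa using h6
      rw [h5]; exact zpow_mem c₀.2 z
  · rw [hord, h]; exact DihedralGroup.orderOf_sr i

theorem card_mul_le_card_sup {G : Type*} [Group G] [Finite G] {A B : Subgroup G}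
    (hd : A ⊓ B = ⊥) : Nat.card A * Nat.card B ≤ Nat.card ↥(A ⊔ B) := by
  rw [← Nat.card_prod]
  apply Nat.card_le_card_of_injective (fun ab : A × B => (⟨(ab.1 : G) * (ab.2 : G),
    mul_mem (Subgroup.mem_sup_left ab.1.2) (Subgroup.mem_sup_right ab.2.2)⟩ : ↥(A ⊔ B)))
  rintro ⟨a, b⟩ ⟨a', b'⟩ h
  have h' : (a : G) * b = a' * b' := congrArg Subtype.val h
  have h1 : (a' : G)⁻¹ * a = b' * (b : G)⁻¹ := by
    calc (a' : G)⁻¹ * a = (a' : G)⁻¹ * (a * b) * (b : G)⁻¹ := by group
      _ = (a' : G)⁻¹ * (a' * b') * (b : G)⁻¹ := by rw [h']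
      _ = b' * (b : G)⁻¹ := by group
  have h2 : (a' : G)⁻¹ * a ∈ A ⊓ B :=
    Subgroup.mem_inf.mpr
      ⟨mul_mem (inv_mem a'.2) a.2, by rw [h1]; exact mul_mem b'.2 (inv_mem b.2)⟩
  rw [hd, Subgroup.mem_bot] at h2
  have ha : (a : G) = a' := by
    calc (a : G) = a' * ((a' : G)⁻¹ * a) := by group
      _ = a' := by rw [h2, mul_one]
  have hb : (b : G) = b' := by
    rw [ha] at h'
    exact mul_left_cancel h'
  exact Prod.ext (Subtype.ext ha) (Subtype.ext hb)

/-- The chain of index two subgroups: cutting the dihedral complement `D` off `S = T D`. -/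
theorem transfer_chain {G : Type*} [Group G] [Finite G] (T D C : Subgroup G)
    (hTK : T ≤ Cfsg.pResidual 2 G) (hDT : D ⊓ T = ⊥) (hC : IsCyclic ↥C)
    (hCi : C.relIndex D = 2)
    (hinvol : ∀ x ∈ D, x ∉ C → orderOf x = 2)
    (h1 : ∀ x ∈ D, x ∉ C → orderOf x = 2 → ∀ g : G, g * x * g⁻¹ ∈ T ⊔ C → False)
    (h2 : ∀ c ∈ C, orderOf c = 2 → ∀ g : G, g * c * g⁻¹ ∈ T → False) :
    ∀ (n : ℕ) (G' D' : Subgroup G), Nat.card D' = n → Cfsg.pResidual 2 G ≤ G' → D' ≤ D →
      (∃ S' : Subgroup G, S' ≤ G' ∧ T ≤ S' ∧ D' ≤ S' ∧ IsPGroup 2 S' ∧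
        Nat.card S' = Nat.card T * Nat.card D' ∧ ¬ 2 ∣ S'.relIndex G') →
      ¬ 2 ∣ T.relIndex (Cfsg.pResidual 2 G) := by
  haveI : Fact (Nat.Prime 2) := ⟨Nat.prime_two⟩
  intro n
  induction n using Nat.strong_induction_on with
  | _ n ih =>
    intro G' D' hn hKG' hD'D ⟨S', hS'G', hTS', hD'S', hS'2, hcard, hsyl⟩
    by_cases hbot : D' = ⊥
    · subst hbot
      have hST : T = S' := by
        apply Subgroup.eq_of_le_of_card_ge hTS'
        rw [hcard, Subgroup.card_bot, mul_one]
      intro h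
      apply hsyl
      rw [← hST, ← Subgroup.relIndex_mul_relIndex T _ G' hTK hKG']
      exact dvd_mul_of_dvd_left h _
    · have hD'2 : IsPGroup 2 D' := hS'2.to_le hD'S'
      have hm : Odd (S'.relIndex G') := Nat.not_even_iff_odd.mp (fun h => hsyl h.two_dvd)
      obtain ⟨u, huD', N, hNG, huN, hodd, hhalf⟩ : ∃ u ∈ D', ∃ N : Subgroup G, N ≤ G' ∧ u ∉ N ∧
          (∀ x ∈ G', Odd (orderOf x) → x ∈ N) ∧
          ∀ X : Subgroup G, X ≤ G' → ¬ X ≤ N → Nat.card X = 2 * Nat.card ↥(X ⊓ N) := by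
        by_cases hD'C : D' ≤ C
        · haveI : IsCyclic ↥D' := Subgroup.isCyclic_of_le hD'C
          obtain ⟨u₀, hu₀⟩ := IsCyclic.exists_generator (α := ↥D')
          have hou : orderOf u₀ = Nat.card D' := orderOf_eq_card_of_forall_mem_zpowers hu₀
          obtain ⟨k, hk⟩ := IsPGroup.exists_card_eq hD'2
          have hk1 : 1 ≤ k := by
            by_contra hk0
            have hk0' : k = 0 := by omega
            rw [hk0', pow_zero] at hk
            exact hbot (Subgroup.eq_bot_of_card_eq D' hk)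
          have hou' : orderOf (u₀ : G) = 2 ^ k := by rw [Subgroup.orderOf_coe, hou, hk]
          have hupow : (u₀ : G) ^ 2 ^ k = 1 := by rw [← hou']; exact pow_orderOf_eq_one _
          have hc2 : orderOf ((u₀ : G) ^ 2 ^ (k - 1)) = 2 := by
            rw [orderOf_pow_of_dvd (by positivity)
              (by rw [hou']; exact pow_dvd_pow 2 (by omega)), hou',
              Nat.pow_div (by omega) (by norm_num)]
            have hkk : k - (k - 1) = 1 := by omega
            rw [hkk, pow_one]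
          have hidx : T.relIndex G' = 2 ^ k * S'.relIndex G' := by
            have e1 := card_mul_relIndex' (hTS'.trans hS'G')
            have e2 := card_mul_relIndex' hS'G'
            rw [hcard, hk] at e2
            have hTpos : 0 < Nat.card T := Nat.card_pos
            apply Nat.eq_of_mul_eq_mul_left hTpos
            rw [e1, ← e2]; ring
          obtain ⟨N, h1', h2', h3', h4'⟩ := exists_index_two_sub G' T (u₀ : G)
            (hS'G' (hD'S' u₀.2)) k (S'.relIndex G') hk1 hupow hm hidx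
            (fun g _ hg => h2 _ (hD'C (pow_mem u₀.2 _)) hc2 g hg)
          exact ⟨u₀, u₀.2, N, h1', h2', h3', h4'⟩
        · obtain ⟨x', hx'D', hx'C⟩ : ∃ x' ∈ D', x' ∉ C := by
            by_contra hcon
            push Not at hcon
            exact hD'C hcon
          have hx'2 : orderOf x' = 2 := hinvol x' (hD'D hx'D') hx'C
          have hM'S' : T ⊔ (D' ⊓ C) ≤ S' := sup_le hTS' (inf_le_left.trans hD'S')
          have hM'TC : T ⊔ (D' ⊓ C) ≤ T ⊔ C := sup_le_sup_left inf_le_right T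
          have hx'M' : x' ∉ T ⊔ (D' ⊓ C) := fun h =>
            h1 x' (hD'D hx'D') hx'C hx'2 1 (by simpa using hM'TC h)
          have hr : (T ⊔ (D' ⊓ C)).relIndex S' = 2 := by
            have ea : Nat.card T * Nat.card ↥(D' ⊓ C) ≤ Nat.card ↥(T ⊔ (D' ⊓ C)) :=
              card_mul_le_card_sup (by
                apply le_antisymm _ bot_le
                rw [← hDT]
                exact le_inf (inf_le_right.trans (inf_le_left.trans hD'D)) inf_le_left)
            have eb : Nat.card D' ≤ Nat.card ↥(D' ⊓ C) * 2 := by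
              have e1 := card_mul_relIndex' (inf_le_left : D' ⊓ C ≤ D')
              have e2 : (D' ⊓ C).relIndex D' = C.relIndex D' := Subgroup.inf_relIndex_left D' C
              have e3 : C.relIndex D' ≤ 2 := by
                rw [← hCi]
                exact Subgroup.relIndex_le_of_le_right hD'D (by rw [hCi]; norm_num)
              rw [e2] at e1
              calc Nat.card D' = Nat.card ↥(D' ⊓ C) * C.relIndex D' := e1.symm
                _ ≤ _ := Nat.mul_le_mul_left _ e3
            have ec := card_mul_relIndex' hM'S'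
            have hM'pos : 0 < Nat.card ↥(T ⊔ (D' ⊓ C)) := Nat.card_pos
            have h_le : (T ⊔ (D' ⊓ C)).relIndex S' ≤ 2 := by
              have h5 : Nat.card ↥(T ⊔ (D' ⊓ C)) * (T ⊔ (D' ⊓ C)).relIndex S' ≤
                  Nat.card ↥(T ⊔ (D' ⊓ C)) * 2 := by
                rw [ec, hcard]
                calc Nat.card T * Nat.card D' ≤ Nat.card T * (Nat.card ↥(D' ⊓ C) * 2) :=
                      Nat.mul_le_mul_left _ eb
                  _ = (Nat.card T * Nat.card ↥(D' ⊓ C)) * 2 := by ring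
                  _ ≤ Nat.card ↥(T ⊔ (D' ⊓ C)) * 2 := Nat.mul_le_mul_right _ ea
              exact Nat.le_of_mul_le_mul_left h5 hM'pos
            have h_ne1 : (T ⊔ (D' ⊓ C)).relIndex S' ≠ 1 := by
              intro h
              exact hx'M' (Subgroup.relIndex_eq_one.mp h (hD'S' hx'D'))
            have h_ne0 : (T ⊔ (D' ⊓ C)).relIndex S' ≠ 0 := by
              intro h
              rw [h, mul_zero] at ec
              exact (Nat.card_pos (α := S')).ne' ec.symm
            omega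
          have hidx : (T ⊔ (D' ⊓ C)).relIndex G' = 2 ^ 1 * S'.relIndex G' := by
            rw [← Subgroup.relIndex_mul_relIndex (T ⊔ (D' ⊓ C)) S' G' hM'S' hS'G', hr, pow_one]
          obtain ⟨N, h1', h2', h3', h4'⟩ := exists_index_two_sub G' (T ⊔ (D' ⊓ C)) x'
            (hS'G' (hD'S' hx'D')) 1 (S'.relIndex G') le_rfl
            (by rw [pow_one, ← hx'2]; exact pow_orderOf_eq_one x') hm hidx
            (fun g _ hg => h1 x' (hD'D hx'D') hx'C hx'2 g (hM'TC (by simpa using hg)))
          exact ⟨x', hx'D', N, h1', h2', h3', h4'⟩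
      have hD'N : ¬ D' ≤ N := fun h => huN (h huD')
      have hS'N : ¬ S' ≤ N := fun h => huN (h (hD'S' huD'))
      have hG'N : ¬ G' ≤ N := fun h => huN (h (hS'G' (hD'S' huD')))
      have eD := hhalf D' (hD'S'.trans hS'G') hD'N
      have eS := hhalf S' hS'G' hS'N
      have eG := hhalf G' le_rfl hG'N
      rw [inf_eq_right.mpr hNG] at eG
      have hKN : Cfsg.pResidual 2 G ≤ N := by
        unfold Cfsg.pResidual
        rw [Subgroup.closure_le]
        intro g hg
        exact hodd g (hKG' (mem_pRes_of_coprime hg)) (Nat.coprime_two_right.mp hg)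
      have hlt : Nat.card ↥(D' ⊓ N) < n := by
        rw [← hn, eD]
        have := Nat.card_pos (α := ↥(D' ⊓ N))
        omega
      refine ih (Nat.card ↥(D' ⊓ N)) hlt N (D' ⊓ N) rfl hKN (inf_le_left.trans hD'D)
        ⟨S' ⊓ N, inf_le_right, le_inf hTS' (hTK.trans hKN), inf_le_inf_right N hD'S',
          hS'2.to_le inf_le_left, ?_, ?_⟩
      · have h5 : 2 * Nat.card ↥(S' ⊓ N) = 2 * (Nat.card T * Nat.card ↥(D' ⊓ N)) := by
          rw [← eS, hcard, eD]; ring
        exact Nat.eq_of_mul_eq_mul_left (by norm_num) h5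
      · have e1 := card_mul_relIndex' (inf_le_right : S' ⊓ N ≤ N)
        have e2 := card_mul_relIndex' hS'G'
        rw [eS, eG] at e2
        have h6 : (S' ⊓ N).relIndex N = S'.relIndex G' := by
          have hpos : 0 < Nat.card ↥(S' ⊓ N) := Nat.card_pos
          apply Nat.eq_of_mul_eq_mul_left hpos
          rw [e1]
          have h7 : 2 * (Nat.card ↥(S' ⊓ N) * S'.relIndex G') = 2 * Nat.card N := by
            rw [← e2]; ring
          exact (Nat.eq_of_mul_eq_mul_left (by norm_num) h7).symm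
        rw [h6]; exact hsyl

end Cfsg.Agent.Helper12
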