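import Cfsg.Agent.Helper12.PPrimeP

/-!
The trace (norm) map on `Z(H) = H ⊓ C_G(H)` from a subgroup `S ≤ N_G(H)` to `N_G(H)`, and the
resulting direct decomposition `C_{Z(H)}(S) = C_{Z(H)}(N_G(H)) × ker`, when `|N_G(H) : S|` is
prime to the orders involved.
-/

namespace Cfsg.Agent.Helper12

open Subgroup

variable {G : Type*} [Group G]

/-- `Z(H)` as a subgroup of `G`. -/
abbrev zOf (H : Subgroup G) : Subgroup G := H ⊓ centralizer (H : Set G)

/-- `Z(H)` is commutative. -/
@[reducible] def zOfCommGroup (H : Subgroup G) : CommGroup ↥(zOf H) :=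
  { (inferInstance : Group ↥(zOf H)) with
    mul_comm := fun a b => Subtype.ext (mem_centralizer_iff.mp b.2.2 a.1 a.2.1) }

attribute [local instance] zOfCommGroup

/-- Conjugation by an element of `N_G(H)`, as an endomorphism of `Z(H)`. -/
def cZ (H : Subgroup G) (n : G) (hn : n ∈ normalizer (H : Set G)) : ↥(zOf H) →* ↥(zOf H) where
  toFun z := ⟨n * z.1 * n⁻¹, ⟨(mem_normalizer_iff.mp hn z.1).mp z.2.1,
    conj_mem_centralizer_of_mem_normalizer hn z.2.2⟩⟩
  map_one' := Subtype.ext (by simp)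
  map_mul' a b := Subtype.ext (by simp [mul_assoc])

theorem cZ_coe (H : Subgroup G) (n : G) (hn : n ∈ normalizer (H : Set G)) (z : ↥(zOf H)) :
    ((cZ H n hn z : ↥(zOf H)) : G) = n * z.1 * n⁻¹ := rfl

/-- The trace map `Z(H) → Z(H)`: product of the conjugates under coset representatives of
`S` in `N_G(H)`. -/
noncomputable def traceZ (H S : Subgroup G)
    [Fintype (↥(normalizer (H : Set G)) ⧸ S.subgroupOf (normalizer (H : Set G)))]
    (z : ↥(zOf H)) : ↥(zOf H) :=
  ∏ q : ↥(normalizer (H : Set G)) ⧸ S.subgroupOf (normalizer (H : Set G)),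
    cZ H (Quotient.out q).1 (Quotient.out q).2 z

theorem traceZ_mul (H S : Subgroup G)
    [Fintype (↥(normalizer (H : Set G)) ⧸ S.subgroupOf (normalizer (H : Set G)))]
    (a b : ↥(zOf H)) : traceZ H S (a * b) = traceZ H S a * traceZ H S b := by
  unfold traceZ
  rw [← Finset.prod_mul_distrib]
  apply Finset.prod_congr rfl
  intro q _
  rw [map_mul]

theorem traceZ_one (H S : Subgroup G)
    [Fintype (↥(normalizer (H : Set G)) ⧸ S.subgroupOf (normalizer (H : Set G)))] :
    traceZ H S 1 = 1 := by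
  unfold traceZ
  apply Finset.prod_eq_one
  intro q _
  rw [map_one]

theorem traceZ_inv (H S : Subgroup G)
    [Fintype (↥(normalizer (H : Set G)) ⧸ S.subgroupOf (normalizer (H : Set G)))]
    (a : ↥(zOf H)) : traceZ H S a⁻¹ = (traceZ H S a)⁻¹ := by
  apply eq_inv_of_mul_eq_one_left
  rw [← traceZ_mul, inv_mul_cancel, traceZ_one]

/-- On elements centralized by `N_G(H)` the trace is the `|N_G(H) : S|`-th power. -/
theorem traceZ_of_central (H S : Subgroup G)
    [Fintype (↥(normalizer (H : Set G)) ⧸ S.subgroupOf (normalizer (H : Set G)))]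
    (z : ↥(zOf H)) (hz : ∀ n ∈ normalizer (H : Set G), n * z.1 = z.1 * n) :
    traceZ H S z = z ^ S.relIndex (normalizer (H : Set G)) := by
  unfold traceZ
  have h1 : ∀ q : ↥(normalizer (H : Set G)) ⧸ S.subgroupOf (normalizer (H : Set G)),
      cZ H (Quotient.out q).1 (Quotient.out q).2 z = z := by
    intro q
    apply Subtype.ext
    rw [cZ_coe, hz _ (Quotient.out q).2]
    group
  rw [Finset.prod_congr rfl (fun q _ => h1 q), Finset.prod_const, Finset.card_univ,
    ← Nat.card_eq_fintype_card]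
  rfl

/-- The trace of an element centralized by `S` is centralized by `N_G(H)`. -/
theorem traceZ_conj (H S : Subgroup G)
    [Fintype (↥(normalizer (H : Set G)) ⧸ S.subgroupOf (normalizer (H : Set G)))]
    (z : ↥(zOf H)) (hz : ∀ s ∈ S, s * z.1 = z.1 * s)
    (n : G) (hn : n ∈ normalizer (H : Set G)) :
    n * (traceZ H S z).1 * n⁻¹ = (traceZ H S z).1 := by
  rw [← cZ_coe H n hn]
  apply congrArg Subtype.val
  unfold traceZ
  rw [map_prod]
  have h1 : ∀ q : ↥(normalizer (H : Set G)) ⧸ S.subgroupOf (normalizer (H : Set G)),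
      cZ H n hn (cZ H (Quotient.out q).1 (Quotient.out q).2 z) =
        cZ H (Quotient.out ((⟨n, hn⟩ : ↥(normalizer (H : Set G))) • q)).1
          (Quotient.out ((⟨n, hn⟩ : ↥(normalizer (H : Set G))) • q)).2 z := by
    intro q
    have e1 : (⟨n, hn⟩ : ↥(normalizer (H : Set G))) • q =
        QuotientGroup.mk ((⟨n, hn⟩ : ↥(normalizer (H : Set G))) * Quotient.out q) := by
      conv_lhs => rw [← QuotientGroup.out_eq' q]
      rfl
    obtain ⟨s, hs⟩ := QuotientGroup.mk_out_eq_mul (S.subgroupOf (normalizer (H : Set G)))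
      ((⟨n, hn⟩ : ↥(normalizer (H : Set G))) * Quotient.out q)
    apply Subtype.ext
    rw [cZ_coe, cZ_coe, cZ_coe, e1]
    have hs' : ((Quotient.out (QuotientGroup.mk ((⟨n, hn⟩ : ↥(normalizer (H : Set G))) *
        Quotient.out q) : ↥(normalizer (H : Set G)) ⧸ S.subgroupOf (normalizer (H : Set G))) :
        ↥(normalizer (H : Set G))) : G) = n * (Quotient.out q).1 * s.1.1 := by
      have := congrArg Subtype.val hs
      simpa using this
    rw [hs']
    have hsS : (s.1.1 : G) ∈ S := Subgroup.mem_subgroupOf.mp s.2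
    have hcomm := hz _ hsS
    calc n * ((Quotient.out q).1 * z.1 * (Quotient.out q).1⁻¹) * n⁻¹
        = n * (Quotient.out q).1 * (z.1 * s.1.1) * (s.1.1)⁻¹ * (Quotient.out q).1⁻¹ * n⁻¹ := by
          group
      _ = n * (Quotient.out q).1 * (s.1.1 * z.1) * (s.1.1)⁻¹ * (Quotient.out q).1⁻¹ * n⁻¹ := by
          rw [hcomm]
      _ = n * (Quotient.out q).1 * s.1.1 * z.1 * (n * (Quotient.out q).1 * s.1.1)⁻¹ := by group
  rw [Finset.prod_congr rfl (fun q _ => h1 q)]
  exact Equiv.prod_comp (MulAction.toPerm (⟨n, hn⟩ : ↥(normalizer (H : Set G))))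
    (fun q : ↥(normalizer (H : Set G)) ⧸ S.subgroupOf (normalizer (H : Set G)) =>
      cZ H (Quotient.out q).1 (Quotient.out q).2 z)

/-- `C_{Z(S)}(N_G(H))` is a direct factor of `Z(S)` when `Z(S) ≤ H ≤ S ≤ N_G(H)`. -/
theorem exists_direct_factor [Finite G] {p : ℕ} [Fact p.Prime] (S : Sylow p G) (H : Subgroup G)
    (hHS : H ≤ (S : Subgroup G)) (hSN : (S : Subgroup G) ≤ normalizer (H : Set G))
    (hZH : (S : Subgroup G) ⊓ centralizer ((S : Subgroup G) : Set G) ≤ H) :
    ∃ K : Subgroup G, K ≤ (S : Subgroup G) ⊓ centralizer ((S : Subgroup G) : Set G) ∧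
      ((S : Subgroup G) ⊓ centralizer ((S : Subgroup G) : Set G) ⊓
        centralizer ((normalizer (H : Set G) : Subgroup G) : Set G)) ⊓ K = ⊥ ∧
      ((S : Subgroup G) ⊓ centralizer ((S : Subgroup G) : Set G) ⊓
        centralizer ((normalizer (H : Set G) : Subgroup G) : Set G)) ⊔ K =
        (S : Subgroup G) ⊓ centralizer ((S : Subgroup G) : Set G) := by
  classical
  let _ : Fintype (↥(normalizer (H : Set G)) ⧸
    (S : Subgroup G).subgroupOf (normalizer (H : Set G))) := Fintype.ofFinite _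
  have hmp : ((S : Subgroup G).relIndex (normalizer (H : Set G))).Coprime p :=
    ((Nat.Prime.coprime_iff_not_dvd Fact.out).mpr (sylow_not_dvd_relIndex S hSN)).symm
  have hZz : (S : Subgroup G) ⊓ centralizer ((S : Subgroup G) : Set G) ≤ zOf H :=
    fun x hx => ⟨hZH hx, centralizer_le (SetLike.coe_subset_coe.mpr hHS) hx.2⟩
  have hCNS : centralizer ((normalizer (H : Set G) : Subgroup G) : Set G) ≤
      centralizer ((S : Subgroup G) : Set G) :=
    centralizer_le (SetLike.coe_subset_coe.mpr hSN)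
  -- the trace lands in W
  have hτW : ∀ z (hz : z ∈ (S : Subgroup G) ⊓ centralizer ((S : Subgroup G) : Set G)),
      (traceZ H (S : Subgroup G) ⟨z, hZz hz⟩).1 ∈ (S : Subgroup G) ⊓
        centralizer ((S : Subgroup G) : Set G) ⊓
        centralizer ((normalizer (H : Set G) : Subgroup G) : Set G) := by
    intro z hz
    have hcN : (traceZ H (S : Subgroup G) ⟨z, hZz hz⟩).1 ∈
        centralizer ((normalizer (H : Set G) : Subgroup G) : Set G) := by
      rw [mem_centralizer_iff]
      intro n hn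
      have h1 := traceZ_conj H (S : Subgroup G) ⟨z, hZz hz⟩
        (fun s hs => mem_centralizer_iff.mp hz.2 s hs) n hn
      calc n * (traceZ H (S : Subgroup G) ⟨z, hZz hz⟩).1
          = n * (traceZ H (S : Subgroup G) ⟨z, hZz hz⟩).1 * n⁻¹ * n := by group
        _ = (traceZ H (S : Subgroup G) ⟨z, hZz hz⟩).1 * n := by rw [h1]
    exact ⟨⟨hHS (traceZ H (S : Subgroup G) ⟨z, hZz hz⟩).2.1, hCNS hcN⟩, hcN⟩
  have hpow : ∀ w (hw : w ∈ (S : Subgroup G) ⊓ centralizer ((S : Subgroup G) : Set G) ⊓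
        centralizer ((normalizer (H : Set G) : Subgroup G) : Set G)),
      traceZ H (S : Subgroup G) ⟨w, hZz hw.1⟩ =
        (⟨w, hZz hw.1⟩ : ↥(zOf H)) ^ (S : Subgroup G).relIndex (normalizer (H : Set G)) := by
    intro w hw
    exact traceZ_of_central H (S : Subgroup G) ⟨w, hZz hw.1⟩
      (fun n hn => mem_centralizer_iff.mp hw.2 n hn)
  refine ⟨(S : Subgroup G) ⊓ centralizer ((S : Subgroup G) : Set G) ⊓
    (MonoidHom.mk' (traceZ H (S : Subgroup G)) (traceZ_mul H (S : Subgroup G))).ker.map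
      (zOf H).subtype, inf_le_left, ?_, ?_⟩
  · rw [eq_bot_iff]
    rintro x ⟨hxW, -, ⟨k, hk, hkx⟩⟩
    rw [mem_bot]
    have hk' : traceZ H (S : Subgroup G) k = 1 := hk
    have hkeq : k = ⟨x, hZz hxW.1⟩ := Subtype.ext hkx
    rw [hkeq, hpow x hxW] at hk'
    have hxm : x ^ (S : Subgroup G).relIndex (normalizer (H : Set G)) = 1 := by
      have := congrArg Subtype.val hk'
      simpa using this
    obtain ⟨j, hj⟩ := exists_orderOf_eq_pow_of_mem S.isPGroup' hxW.1.1
    have h1 : orderOf x ∣ (S : Subgroup G).relIndex (normalizer (H : Set G)) :=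
      orderOf_dvd_of_pow_eq_one hxm
    have h2 : orderOf x ∣ 1 := by
      have h3 : orderOf x ∣ p ^ j := by rw [hj]
      have := Nat.dvd_gcd h1 h3
      rwa [Nat.Coprime.gcd_eq_one (Nat.Coprime.pow_right j hmp)] at this
    exact orderOf_eq_one_iff.mp (Nat.dvd_one.mp h2)
  · apply le_antisymm (sup_le inf_le_left inf_le_left)
    intro z hz
    -- w₀ = trace z ∈ W; take its m-th root in W
    have hcardW : (Nat.card ↥((S : Subgroup G) ⊓ centralizer ((S : Subgroup G) : Set G) ⊓
        centralizer ((normalizer (H : Set G) : Subgroup G) : Set G))).Coprime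
        ((S : Subgroup G).relIndex (normalizer (H : Set G))) := by
      obtain ⟨j, hj⟩ := IsPGroup.iff_card.mp
        (S.isPGroup'.to_le (inf_le_left.trans inf_le_left :
          (S : Subgroup G) ⊓ centralizer ((S : Subgroup G) : Set G) ⊓
          centralizer ((normalizer (H : Set G) : Subgroup G) : Set G) ≤ (S : Subgroup G)))
      rw [hj]
      exact (Nat.Coprime.pow_right j hmp).symm
    obtain ⟨w, hw⟩ := (powCoprime hcardW).surjective ⟨_, hτW z hz⟩
    rw [powCoprime_apply] at hw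
    have hw' : (w : G) ^ (S : Subgroup G).relIndex (normalizer (H : Set G)) =
        (traceZ H (S : Subgroup G) ⟨z, hZz hz⟩).1 := by
      have := congrArg Subtype.val hw
      simpa using this
    have hτw : traceZ H (S : Subgroup G) ⟨w.1, hZz w.2.1⟩ =
        traceZ H (S : Subgroup G) ⟨z, hZz hz⟩ := by
      rw [hpow w.1 w.2]
      apply Subtype.ext
      rw [← hw']
      rfl
    have hk : (⟨w.1, hZz w.2.1⟩ : ↥(zOf H))⁻¹ * ⟨z, hZz hz⟩ ∈
        (MonoidHom.mk' (traceZ H (S : Subgroup G)) (traceZ_mul H (S : Subgroup G))).ker := by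
      rw [MonoidHom.mem_ker]
      show traceZ H (S : Subgroup G) ((⟨w.1, hZz w.2.1⟩ : ↥(zOf H))⁻¹ * ⟨z, hZz hz⟩) = 1
      rw [traceZ_mul, traceZ_inv, hτw, inv_mul_cancel]
    have hz' : z = w.1 * (w.1⁻¹ * z) := by group
    rw [hz']
    apply Subgroup.mul_mem_sup w.2
    refine ⟨Subgroup.mul_mem _ (Subgroup.inv_mem _ w.2.1) hz, ?_⟩
    exact ⟨_, hk, rfl⟩

end Cfsg.Agent.Helper12
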