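import Cfsg.Agent.Helper12.EngelNorm
import Cfsg.Agent.Helper12.Tight

/-!
A `p`-group with an elementary abelian normal subgroup `A` of index `p` and an element of `A`
with non-trivial norm has a quotient of order `p ^ (p + 1)` acting faithfully on `p ^ 2` points.
-/

namespace Cfsg.Agent.Helper12

/-- `v · σ v ⋯ σ^(p-1) v = (σ - 1)^(p-1) v` in an elementary abelian `p`-group. -/
theorem iprod_eq_iter {V : Type*} [CommGroup V] {p : ℕ} [hp : Fact p.Prime]
    (hexp : ∀ v : V, v ^ p = 1) (σ : V →* V) (v : V) :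
    iprod σ v p = (fun w => σ w * w⁻¹)^[p - 1] v := by
  have hexp' : ∀ a : Additive V, p • a = 0 := by
    intro a
    show Additive.ofMul (a.toMul ^ p) = 0
    rw [hexp]; rfl
  have hmod : Module (ZMod p) (Additive V) := AddCommGroup.zmodModule hexp'
  let S : Module.End (ZMod p) (Additive V) := (MonoidHom.toAdditive σ).toZModLinearMap p
  have key : ∑ i ∈ Finset.range p, S ^ i = (S - 1) ^ (p - 1) := by
    have := congrArg (Polynomial.aeval S) (geom_sum_X_eq p)
    simpa using this
  have hS : ∀ (i : ℕ) (a : Additive V), (S ^ i) a = Additive.ofMul (σ^[i] a.toMul) := by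
    intro i
    induction i with
    | zero => intro a; simp
    | succ i ih =>
      intro a
      rw [pow_succ', Module.End.mul_apply, ih, Function.iterate_succ_apply']
      rfl
  have hS1 : ∀ (i : ℕ) (a : Additive V), ((S - 1) ^ i) a =
      Additive.ofMul ((fun w => σ w * w⁻¹)^[i] a.toMul) := by
    intro i
    induction i with
    | zero => intro a; simp
    | succ i ih =>
      intro a
      rw [pow_succ', Module.End.mul_apply, ih, Function.iterate_succ_apply']
      rw [LinearMap.sub_apply, Module.End.one_apply]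
      show Additive.ofMul (σ _) - Additive.ofMul _ = _
      rw [← ofMul_div, div_eq_mul_inv]
      rfl
  have h1 := congrArg (fun T : Module.End (ZMod p) (Additive V) => T (Additive.ofMul v)) key
  simp only [LinearMap.sum_apply, hS, hS1, toMul_ofMul] at h1
  have h2 : ∀ n : ℕ, Additive.ofMul (iprod σ v n) =
      ∑ i ∈ Finset.range n, Additive.ofMul (σ^[i] v) := by
    intro n
    induction n with
    | zero => rfl
    | succ n ih => rw [Finset.sum_range_succ, ← ih]; rfl
  have h3 := (h2 p).trans h1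
  exact Additive.ofMul.injective h3

theorem map_iprod_mul {V : Type*} [CommGroup V] (σ : V →* V) (v : V) (n : ℕ) :
    σ (iprod σ v n) * v = iprod σ v n * σ^[n] v := by
  induction n with
  | zero => simp [iprod]
  | succ n ih =>
    show σ (iprod σ v n * σ^[n] v) * v = iprod σ v n * σ^[n] v * σ^[n + 1] v
    rw [map_mul, mul_right_comm, ih, Function.iterate_succ_apply']

/-- If the norm of `x` is outside the `σ`-invariant subgroup `K`, then `K` has index at least
`p ^ p`. -/
theorem card_ge_of_norm_not_mem {V : Type*} [CommGroup V] [Finite V] {p : ℕ} [hp : Fact p.Prime]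
    (hexp : ∀ v : V, v ^ p = 1) (σ : V →* V) (hσp : ∀ v, σ^[p] v = v) (K : Subgroup V)
    (hK : ∀ v ∈ K, σ v ∈ K) (x : V) (hx : iprod σ x p ∉ K) :
    p ^ p * Nat.card K ≤ Nat.card V := by
  classical
  let δ : V →* V :=
    { toFun := fun w => σ w * w⁻¹
      map_one' := by simp
      map_mul' := fun a b => by rw [map_mul, mul_inv, mul_mul_mul_comm] }
  have hδ : ∀ w, δ w = σ w * w⁻¹ := fun w => rfl
  have hN : iprod σ x p = δ^[p - 1] x := iprod_eq_iter hexp σ x
  have hfix : σ (iprod σ x p) = iprod σ x p := by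
    have h := map_iprod_mul σ x p
    rw [hσp] at h
    exact mul_right_cancel h
  have hp1 : p - 1 + 1 = p := Nat.sub_add_cancel hp.out.one_le
  have hδp : δ^[p - 1 + 1] x = 1 := by
    rw [Function.iterate_succ_apply', ← hN, hδ, hfix, mul_inv_cancel]
  rw [hp1] at hδp
  obtain ⟨B, hB0, hBs⟩ : ∃ B : ℕ → Subgroup V, B 0 = K ∧ ∀ j, B (j + 1) = (B j).comap δ :=
    ⟨fun j => Nat.rec K (fun _ Bj => Bj.comap δ) j, rfl, fun j => rfl⟩
  have hmem : ∀ j v, v ∈ B j ↔ δ^[j] v ∈ K := by
    intro j
    induction j with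
    | zero => intro v; rw [hB0]; exact Iff.rfl
    | succ j ih => intro v; rw [hBs, Subgroup.mem_comap, ih, Function.iterate_succ_apply]
  have hδK : ∀ v ∈ K, δ v ∈ K := fun v hv => K.mul_mem (hK v hv) (K.inv_mem hv)
  have hmono : ∀ j, B j ≤ B (j + 1) := by
    intro j v hv
    rw [hmem] at hv
    rw [hmem, Function.iterate_succ_apply']
    exact hδK _ hv
  have hstrict : ∀ j, j < p → ¬ B (j + 1) ≤ B j := by
    intro j hj hle
    have h1 : δ^[p - 1 - j] x ∈ B (j + 1) := by
      rw [hmem, ← Function.iterate_add_apply]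
      have e : j + 1 + (p - 1 - j) = p := by omega
      rw [e, hδp]; exact one_mem K
    have h2 := hle h1
    rw [hmem, ← Function.iterate_add_apply] at h2
    have e : j + (p - 1 - j) = p - 1 := by omega
    rw [e, ← hN] at h2
    exact hx h2
  have hVp : IsPGroup p V := fun g => ⟨1, by rw [pow_one]; exact hexp g⟩
  obtain ⟨n, hn⟩ := IsPGroup.iff_card.mp hVp
  have hstep : ∀ j, j < p → p * Nat.card ↥(B j) ≤ Nat.card ↥(B (j + 1)) := by
    intro j hj
    have e1 := card_mul_relIndex' (hmono j)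
    have hne1 : (B j).relIndex (B (j + 1)) ≠ 1 := fun h =>
      hstrict j hj (Subgroup.relIndex_eq_one.mp h)
    have hdvd : (B j).relIndex (B (j + 1)) ∣ p ^ n := by
      rw [← hn]
      exact (Dvd.intro_left _ e1).trans (Subgroup.card_subgroup_dvd_card _)
    obtain ⟨m, -, hm⟩ := (Nat.dvd_prime_pow hp.out).mp hdvd
    have hm0 : m ≠ 0 := by
      rintro rfl
      exact hne1 (by rw [hm, pow_zero])
    have hple : p ≤ (B j).relIndex (B (j + 1)) := by
      rw [hm]; exact Nat.le_self_pow hm0 p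
    rw [← e1, mul_comm]
    exact Nat.mul_le_mul_left _ hple
  have hind : ∀ j, j ≤ p → p ^ j * Nat.card K ≤ Nat.card ↥(B j) := by
    intro j
    induction j with
    | zero => intro _; rw [pow_zero, one_mul, hB0]
    | succ j ih =>
      intro hj
      calc p ^ (j + 1) * Nat.card K = p * (p ^ j * Nat.card K) := by ring
        _ ≤ p * Nat.card ↥(B j) := Nat.mul_le_mul_left _ (ih (by omega))
        _ ≤ Nat.card ↥(B (j + 1)) := hstep j (by omega)
  exact (hind p le_rfl).trans (Subgroup.card_le_card_group _)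

/-- A subgroup of index `p` avoiding a given non-trivial element. -/
theorem exists_index_p_not_mem {V : Type*} [CommGroup V] [Finite V] {p : ℕ} [hp : Fact p.Prime]
    (hexp : ∀ v : V, v ^ p = 1) (n : V) (hn : n ≠ 1) :
    ∃ H : Subgroup V, n ∉ H ∧ H.index = p := by
  have hexp' : ∀ a : Additive V, p • a = 0 := by
    intro a
    show Additive.ofMul (a.toMul ^ p) = 0
    rw [hexp]; rfl
  letI hmod : Module (ZMod p) (Additive V) := AddCommGroup.zmodModule hexp'
  have h1 : Additive.ofMul n ≠ 0 := fun h => hn (ofMul_eq_zero.mp h)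
  have hfree : Module.Free (ZMod p) (Additive V) :=
    Module.Free.of_divisionRing (ZMod p) (Additive V)
  have hproj : Module.Projective (ZMod p) (Additive V) :=
    @Module.Projective.of_free (ZMod p) _ (Additive V) _ hmod hfree
  obtain ⟨f₀, hf₀⟩ := @Module.Projective.exists_dual_ne_zero (Additive V) _ (ZMod p) _ hmod hproj
    (Additive.ofMul n) h1
  let f : Additive V →+ ZMod p := LinearMap.toAddMonoidHom f₀
  have hf : f (Additive.ofMul n) ≠ 0 := hf₀
  let χ : V →* Multiplicative (ZMod p) := AddMonoidHom.toMultiplicativeRight f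
  have hχ : ∀ v, χ v = Multiplicative.ofAdd (f (Additive.ofMul v)) := fun v => rfl
  refine ⟨χ.ker, ?_, ?_⟩
  · intro h
    apply hf
    have h2 := MonoidHom.mem_ker.mp h
    rw [hχ] at h2
    exact ofAdd_eq_one.mp h2
  · rw [Subgroup.index_ker]
    have hcard : Nat.card (Multiplicative (ZMod p)) = p := by
      rw [Nat.card_congr Multiplicative.toAdd, Nat.card_zmod]
    have hdvd := Subgroup.card_subgroup_dvd_card χ.range
    rw [hcard] at hdvd
    rcases (Nat.dvd_prime hp.out).mp hdvd with h | h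
    · exfalso
      have h3 := Subgroup.eq_bot_of_card_eq _ h
      have h4 : χ n ∈ χ.range := ⟨n, rfl⟩
      rw [h3, Subgroup.mem_bot, hχ] at h4
      exact hf (ofAdd_eq_one.mp h4)
    · exact h

theorem wreath_V {V : Type*} [CommGroup V] [Finite V] {p : ℕ} [hp : Fact p.Prime]
    (hexp : ∀ v : V, v ^ p = 1) (σ : V →* V) (hσp : ∀ v, σ^[p] v = v) (x : V)
    (hx : iprod σ x p ≠ 1) :
    ∃ H : Subgroup V, H.index = p ∧ iprod σ x p ∉ H ∧
      ∀ K : Subgroup V, K ≤ H → (∀ v ∈ K, σ v ∈ K) → p ^ p * Nat.card K ≤ Nat.card V := by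
  obtain ⟨H, hNH, hidx⟩ := exists_index_p_not_mem hexp (iprod σ x p) hx
  exact ⟨H, hidx, hNH, fun K hKH hK =>
    card_ge_of_norm_not_mem hexp σ hσp K hK x (fun h => hNH (hKH h))⟩

theorem wreath_core {P : Type*} [Group P] [Finite P] {p : ℕ} [hp : Fact p.Prime] (A : Subgroup P)
    [hAn : A.Normal] (hab : ∀ a ∈ A, ∀ b ∈ A, a * b = b * a) (hexp : ∀ a ∈ A, a ^ p = 1) (y : P)
    (hyp : y ^ p ∈ A) (x : P) (hx : x ∈ A)
    (hprod : ((List.range p).map (fun i => (y ^ i)⁻¹ * x * y ^ i)).prod ≠ 1) :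
    ∃ H : Subgroup P, H ≤ A ∧ H.relIndex A = p ∧
      ∀ K : Subgroup P, K.Normal → K ≤ H → p ^ p * Nat.card K ≤ Nat.card A := by
  classical
  let σ : ↥A →* ↥A := (MulAut.conjNormal y⁻¹ : ↥A ≃* ↥A).toMonoidHom
  have hσ : ∀ w : ↥A, ((σ w : ↥A) : P) = y⁻¹ * w * y := by
    intro w
    show ((MulAut.conjNormal y⁻¹ w : ↥A) : P) = _
    rw [MulAut.conjNormal_apply, inv_inv]
  have hσit : ∀ (n : ℕ) (w : ↥A), ((σ^[n] w : ↥A) : P) = (y ^ n)⁻¹ * w * y ^ n := by
    intro n
    induction n with
    | zero => intro w; simp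
    | succ n ih =>
      intro w
      rw [Function.iterate_succ_apply', hσ, ih, pow_succ]
      group
  have hσp : ∀ v : ↥A, σ^[p] v = v := by
    intro v
    apply Subtype.ext
    rw [hσit]
    have hc : y ^ p * (v : P) = v * y ^ p := hab _ hyp _ v.2
    rw [mul_assoc, ← hc, ← mul_assoc, inv_mul_cancel, one_mul]
  have hNx : ∀ n : ℕ, ((iprod σ (⟨x, hx⟩ : ↥A) n : ↥A) : P) =
      ((List.range n).map (fun i => (y ^ i)⁻¹ * x * y ^ i)).prod := by
    intro n
    induction n with
    | zero => rfl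
    | succ n ih =>
      show ((iprod σ (⟨x, hx⟩ : ↥A) n * σ^[n] ⟨x, hx⟩ : ↥A) : P) = _
      rw [Subgroup.coe_mul, ih, hσit, List.range_succ, List.map_append, List.prod_append]
      simp
  have hexpV : ∀ v : ↥A, v ^ p = 1 := fun v =>
    Subtype.ext (by rw [Subgroup.coe_pow]; exact hexp v v.2)
  have hne : iprod σ (⟨x, hx⟩ : ↥A) p ≠ 1 := by
    intro h
    apply hprod
    rw [← hNx p, h]; rfl
  have key : ∃ H : Subgroup ↥A, H.index = p ∧ iprod σ (⟨x, hx⟩ : ↥A) p ∉ H ∧
      ∀ K : Subgroup ↥A, K ≤ H → (∀ v ∈ K, σ v ∈ K) → p ^ p * Nat.card K ≤ Nat.card ↥A :=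
    @wreath_V ↥A ({ (inferInstance : Group ↥A) with
      mul_comm := fun a b => Subtype.ext (hab a a.2 b b.2) }) _ p hp hexpV σ hσp ⟨x, hx⟩ hne
  obtain ⟨HV, hHVidx, hNH, hHV⟩ := key
  have hmapA : HV.map A.subtype ≤ A := by
    rintro _ ⟨v, -, rfl⟩
    exact v.2
  have hsub : (HV.map A.subtype).subgroupOf A = HV := by
    ext v
    rw [Subgroup.mem_subgroupOf]
    constructor
    · rintro ⟨w, hw, hwv⟩
      have hwv' : w = v := Subtype.ext hwv
      rw [← hwv']; exact hw
    · intro hv
      exact ⟨v, hv, rfl⟩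
  refine ⟨HV.map A.subtype, hmapA, ?_, ?_⟩
  · show ((HV.map A.subtype).subgroupOf A).index = p
    rw [hsub]; exact hHVidx
  · intro K hKn hKH
    have hKA : K ≤ A := hKH.trans hmapA
    have h1 := hHV (K.subgroupOf A) ?_ ?_
    · rw [Nat.card_congr (Subgroup.subgroupOfEquivOfLe hKA).toEquiv] at h1
      exact h1
    · intro v hv
      rw [Subgroup.mem_subgroupOf] at hv
      obtain ⟨w, hw, hwv⟩ := hKH hv
      have hwv' : w = v := Subtype.ext hwv
      rw [← hwv']; exact hw
    · intro v hv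
      rw [Subgroup.mem_subgroupOf] at hv ⊢
      rw [hσ]
      have h2 := hKn.conj_mem (v : P) hv y⁻¹
      rwa [inv_inv] at h2

end Cfsg.Agent.Helper12
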